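/-
S3817 (membership in the second Fitting subgroup is a two-generator property), part 1:
the configuration with trivial Fitting subgroup; uniqueness of maximal `q`-subgroups `[W, X]`.
-/
import Cfsg.Agent.H1.Fla1
import Cfsg.Agent.H1.Wielandt
import Cfsg.Agent.H19.Amb6

set_option autoImplicit false
set_option linter.unusedSectionVars false

open Cfsg Subgroup
open scoped Pointwise commutatorElement
namespace H0.F2
open H19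
open H1 (cP mem_cP cP_le cP_le_comm cP_le_self cP_norm comm_le_iSup_cP cD_le)

universe u

variable {G : Type u} [Group G] [Finite G] {p q r : ℕ} {D : Set (Subgroup G)}
  {A B E H K L M P Q R T U V W X Y Z : Subgroup G} {a b c g h x y : G}

/-- the configuration: `D` is a class of subgroups of order `p` -/
structure S (p : ℕ) (D : Set (Subgroup G)) : Prop where
  pr : p.Prime
  card : ∀ X ∈ D, #X = p
  J : ∀ X ∈ D, ∀ g, cj g X ∈ D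
  tr : ∀ X ∈ D, ∀ Y ∈ D, ∃ g, cj g X = Y
  ne : D.Nonempty
  fit : ∀ K : Subgroup G, Nil K → K ≠ ⊥ → N(K) ≠ ⊤
  gen : ∀ H, (∀ X ∈ D, X ≤ H) → H = ⊤
  two : ∀ X ∈ D, ∀ y, X ⊔ zpowers y ≠ ⊤
  loc : ∀ H, H ≠ ⊤ → ∃ T, T ⊴ H ∧ Hall {p}ᶜ (Oc {p}ᶜ (Fit H)) T ∧ ∀ X ∈ D, X ≤ H → X ≤ T
  zs : p = 2 → ∀ X ∈ D, ∃ Y ∈ D, Y ≠ X ∧ Y ≤ C(X)

/-- `B` is generated by members of `D` -/
def Gn (D : Set (Subgroup G)) (B : Subgroup G) : Prop := ∀ T, (∀ X ∈ D, X ≤ B → X ≤ T) → B ≤ T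

/-- `W = [W, X]` is a `q`-group -/
structure Mem (q : ℕ) (X W : Subgroup G) : Prop where
  pg : PG q W
  eq : ⁅W, X⁆ = W

theorem gn_of_mem (hX : X ∈ D) : Gn D X := fun _ h => h X hX le_rfl
theorem gn_sup (hX : X ∈ D) (hY : Y ∈ D) : Gn D (X ⊔ Y) := fun _ h =>
  sup_le (h X hX le_sup_left) (h Y hY le_sup_right)

theorem cop (hq : q ≠ p) (hY : PG q Y) (hB : PG p B) : (#Y).Coprime #B :=
  (hY.sing_ne hq).coprime' hB

theorem Mem.norm (h : Mem q X W) : X ≤ N(W) := h.eq ▸ commg_normr W X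
theorem Mem.J (h : Mem q X W) (g : G) : Mem q (cj g X) (cj g W) :=
  ⟨h.pg.J g, by rw [← cj_comm, h.eq]⟩
theorem Mem.le (h : Mem q X W) (hle : W ≤ Z) : W ≤ ⁅Z, X⁆ :=
  h.eq.ge.trans (commutator_mono hle le_rfl)

theorem mem_comm (hq : q ≠ p) (hY : PG q Y) (hB : PG p B) (hn : B ≤ N(Y)) : Mem q B ⁅Y, B⁆ :=
  ⟨hY.of_le (commg_le_left hn), commg_commg hn (cop hq hY hB)⟩

theorem mem_W (hq : q ≠ p) (hB : PG p B) (hle : B ≤ H) : Mem q B ⁅Oc {q} H, B⁆ :=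
  mem_comm hq (Oc_pi _ _) hB (hle.trans (Oc_norm _ _))

theorem W_le (hle : B ≤ H) : ⁅Oc {q} H, B⁆ ≤ Oc {q} H := commg_le_left (hle.trans (Oc_norm _ _))

theorem cj_W (g : G) : cj g ⁅Oc {q} H, B⁆ = ⁅Oc {q} (cj g H), cj g B⁆ := by rw [cj_comm, cj_Oc]

theorem norm_W (h1 : g ∈ N(H)) (h2 : g ∈ N(B)) : g ∈ N(⁅Oc {q} H, B⁆) :=
  mem_norm_iff_cj.2 (by rw [cj_W, cj_of_mem_norm h1, cj_of_mem_norm h2])

theorem cP_cent (hc : c ∈ C(X)) : cP X (c * h) = cP X h := by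
  have key : ∀ y ∈ X, (c * h)⁻¹ * (y * (c * h) * y⁻¹) = h⁻¹ * (y * h * y⁻¹) := fun y hy => by
    rw [← mul_assoc y, mem_cent.1 hc y hy]; group
  exact le_antisymm (cP_le fun y hy => key y hy ▸ mem_cP hy) (cP_le fun y hy => key y hy ▸ mem_cP hy)

theorem cP_tr (hc : (#(cP X h)).Coprime #X) (hs : Sol X) : ∃ n ∈ cP X h, n * h⁻¹ ∈ C(X) :=
  exists_mul_mem_cent (cP_norm X h) hc (Or.inl hs) fun a ha => by
    have := inv_mem (mem_cP (h := h) ha)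
    have e : a * h⁻¹ * a⁻¹ * h⁻¹⁻¹ = (h⁻¹ * (a * h * a⁻¹))⁻¹ := by group
    rwa [e]

theorem cP_eq (hn : x * h⁻¹ ∈ C(X)) : cP X x = cP X h := by
  rw [← cP_cent (h := h) hn]; simp

theorem mem_cP' (hq : q ≠ p) (hY : PG q Y) (hX : PG p X) (hn : X ≤ N(Y)) (hh : h ∈ Y) :
    Mem q X (cP X h) := by
  have h1 : PG q (cP X h) := hY.of_le (cP_le_self hn hh)
  obtain ⟨n, hn, e⟩ := cP_tr (cop hq h1 hX) hX.sol
  exact ⟨h1, le_antisymm (commg_le_left (cP_norm _ _)) ((cP_eq e).ge.trans (cP_le_comm hn))⟩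

theorem exists_cP (h : ⁅Y, X⁆ ≠ ⊥) : ∃ h ∈ Y, cP X h ≠ ⊥ := by
  by_contra! hc
  exact h (le_bot_iff.1 (comm_le_iSup_cP fun h hh => (hc h hh).le))

theorem baer (hle : A ≤ H) (h : ∀ g ∈ H, PG q (A ⊔ cj g A)) : A ≤ Oc {q} H := by
  by_cases hq : q.Prime
  · have := Fact.mk hq
    rw [← pCore_map_eq hq]
    exact H1.baer_suzuki_of hle fun g hg => (h g hg).isPGroup
  · rw [((h 1 (one_mem _)).of_le le_sup_left).eq_bot_of_not_prime hq]; exact bot_le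

theorem three' (h1 : L ≤ C(K)) (h2 : ⁅L, H⁆ ≤ C(K)) : L ≤ C(⁅H, K⁆) :=
  cents_symm (commg_eq_bot.1 (three_subgroup
    (by rw [commg_eq_bot.2 (cents_symm h1), commutator_bot_left]) (commg_eq_bot.2 h2)))

theorem comm_sup_eq (e : A ⊔ B = E) (h : U ≤ C(B)) (hn : B ≤ N(A)) : ⁅U, E⁆ = ⁅U, A⁆ := by
  rw [← e, commutator_comm, commg_sup_cent_left (cents_symm h) hn, commutator_comm]

theorem four_quo {Z₀ : Subgroup G} (hq : q ≠ p) (hE : El p 2 E ⊤) (hZ : PG q Z) (hn : E ≤ N(Z))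
    (hL : ∀ e, El p 1 e E → ⁅Z ⊓ C(e), E⁆ ⊓ C(E) ≤ L) (z1 : Z₀ ≤ Z) (z2 : Z ≤ N(Z₀)) (h2 : E ≤ N(Z₀))
    (e' : Subgroup (Quo Z₀)) (he' : El p 1 e' (quo Z₀ E)) :
    ⁅quo Z₀ Z ⊓ C(e'), quo Z₀ E⁆ ⊓ C(quo Z₀ E) ≤ quo Z₀ (L ⊓ (Z ⊓ C(E))) := by
  have z3 : PG q Z₀ := hZ.of_le z1
  obtain ⟨e, he, rfl⟩ : ∃ e, El p 1 e E ∧ quo Z₀ e = e' := by
    obtain ⟨u, u1, -, rfl⟩ := he'.exists_gen
    obtain ⟨v, hv, rfl⟩ := mem_im.1 (he'.le (mem_zpowers u))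
    refine ⟨zpowers (v : G), el1_zpowers' hE.prime hv (hE.ab.2 _ hv) ?_, quo_zpowers v.2⟩
    intro h; exact u1 (by rw [show v = 1 from Subtype.ext h, map_one])
  have n1 : E ≤ N(Z ⊓ C(e)) := norms_inf hn (norms_of_le (cents_of_comm hE.comm le_rfl he.le))
  rw [quo_inf_cent' (he.le.trans h2) z1 (cop hq z3 he.pg) (Or.inl he.pg.sol),
    ← quo_comm (inf_le_left.trans z2) h2, quo_inf_cent h2 (commg_normr _ _)
      (cop hq (z3.infl _) hE.pg) (Or.inl hE.pg.sol)]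
  exact quo_mono _ (le_inf (hL e he) (inf_le_inf_right _ ((commg_le_left n1).trans inf_le_left)))

theorem four_key {Z₀ : Subgroup G} (hq : q ≠ p) (hE : El p 2 E ⊤) (hZ : PG q Z) (hn : E ≤ N(Z))
    (z1 : Z₀ ≤ Z) (z2 : Z ≤ N(Z₀)) (h2 : E ≤ N(Z₀)) (h3 : Z₀ ⊓ C(E) ≤ L)
    (h : ⁅quo Z₀ Z, quo Z₀ E⁆ ⊓ C(quo Z₀ E) ≤ quo Z₀ (L ⊓ (Z ⊓ C(E)))) : ⁅Z, E⁆ ⊓ C(E) ≤ L := by
  have z3 : PG q Z₀ := hZ.of_le z1
  have l1 : L ⊓ (Z ⊓ C(E)) ≤ N(Z₀) := (inf_le_right.trans inf_le_left).trans z2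
  rw [← quo_comm z2 h2, quo_inf_cent h2 (commg_normr _ _) (cop hq (z3.infl _) hE.pg)
    (Or.inl hE.pg.sol), quo_le_quo_iff (inf_le_left.trans ((commg_le_left hn).trans z2)) l1] at h
  refine (le_inf h inf_le_right).trans ?_
  rw [sup_inf_modr l1 (inf_le_right.trans inf_le_right)]
  exact sup_le h3 inf_le_left

theorem four_ex (hq : q ≠ p) (hE : El p 2 E ⊤) (hZ : PG q Z) (hn : E ≤ N(Z)) (heq : ⁅Z, E⁆ = Z)
    (hL : ∀ e, El p 1 e E → ⁅Z ⊓ C(e), E⁆ ⊓ C(E) ≤ L)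
    (key : ∀ Z₀, Z₀ ≠ ⊥ → Z₀ ≤ Z(Z) → E ≤ N(Z₀) → Z₀ ⊓ C(E) ≤ L → ⁅Z, E⁆ ⊓ C(E) ≤ L) :
    ⁅Z, E⁆ ⊓ C(E) ≤ L := by
  have nc : ∀ {e U : Subgroup G}, El p 1 e E → E ≤ N(U) → E ≤ N(U ⊓ C(e)) := fun he h =>
    norms_inf h (norms_of_le (cents_of_comm hE.comm le_rfl he.le))
  by_cases h0 : ⁅Z(Z), E⁆ = ⊥
  swap
  · have n0 : E ≤ N(Z(Z)) := hn.trans (norm_le_norm_center _)
    refine key _ h0 (commg_le_left n0) (commg_normr _ _) ?_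
    rw [ab_commg_inf_cent (comm_center _) n0 (cop hq (hZ.infl _) hE.pg)]; exact bot_le
  have h0 := commg_eq_bot.1 h0
  by_cases hab : Z ≤ C(Z)
  · exact (inf_le_left.trans (commg_eq_bot.2 ((le_inf le_rfl hab).trans h0)).le).trans bot_le
  obtain ⟨U, ⟨u1, u2, u3, u4⟩, hmin⟩ := (wellFounded_lt (α := Subgroup G)).has_min
    {U | U ≤ Z ∧ Z ≤ N(U) ∧ E ≤ N(U) ∧ ¬ U ≤ C(Z)} ⟨Z, le_rfl, le_normalizer, hn, hab⟩
  have u5 : ⁅U, Z⁆ ≤ Z(Z) := le_inf (commg_le_of_le u1 le_rfl) (by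
    by_contra hc
    exact hmin _ ⟨commg_le_of_le u1 le_rfl, commg_normr _ _, norms_comm u3 hn, hc⟩
      ((hZ.of_le u1).commg_lt hZ u2 (by rintro rfl; exact u4 bot_le)))
  have u6 := u5.trans h0
  have hU := hZ.of_le u1
  have u7 : U ⊓ C(E) ≤ C(Z) := by
    have := three' (H := Z) (K := E) (L := U ⊓ C(E)) inf_le_right
      ((commutator_mono inf_le_left le_rfl).trans u6)
    rwa [heq] at this
  obtain ⟨e, he, h1⟩ : ∃ e, El p 1 e E ∧ ¬ ⁅U ⊓ C(e), E⁆ ≤ C(Z) := by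
    by_contra! hc
    refine u4 (hE.le_of_cent_le u3 (hU.sing_ne hq) fun e he => ?_)
    rw [← commg_sup_cent (nc he u3) (cop hq (hU.infl _) hE.pg) (Or.inl hE.pg.sol)]
    exact sup_le (hc e he) ((inf_le_inf_right _ inf_le_left).trans u7)
  obtain ⟨f, hf, h2⟩ : ∃ f, El p 1 f E ∧ ¬ Z ⊓ C(f) ≤ C(⁅U ⊓ C(e), E⁆) := by
    by_contra! hc
    exact h1 (cents_symm (hE.le_of_cent_le hn (hZ.sing_ne hq) hc))
  obtain rfl : f = e := by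
    by_contra hne
    refine h2 ?_
    rw [comm_sup_eq (hE.sup_eq hf he hne) inf_le_right (norms_of_comm hE.comm he.le hf.le)]
    refine three' inf_le_right ?_
    rw [commutator_comm]
    exact (commutator_mono inf_le_left inf_le_left).trans (u6.trans (cent_mono hf.le))
  have h3 : ⁅⁅U ⊓ C(f), E⁆, Z ⊓ C(f)⁆ ≤ Z(Z) :=
    (commutator_mono ((commg_le_left (nc hf u3)).trans inf_le_left) inf_le_left).trans u5
  refine key _ (fun h => h2 (cents_symm (commg_eq_bot.1 h))) h3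
    (norms_of_cents (cents_symm (h3.trans h0))) ((inf_le_inf_right _ ?_).trans (hL f hf))
  exact (commutator_mono (commutator_mono (inf_le_inf_right _ u1) le_rfl) le_rfl).trans
    (commg_le_left (commg_norml _ _))

/-- the `E`-fixed points of `[Z, E]` for `E` of type `(p, p)` -/
theorem four (hq : q ≠ p) (hE : El p 2 E ⊤) (hZ : PG q Z) (hn : E ≤ N(Z))
    (hL : ∀ e, El p 1 e E → ⁅Z ⊓ C(e), E⁆ ⊓ C(E) ≤ L) : ⁅Z, E⁆ ⊓ C(E) ≤ L := by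
  induction hk : #Z using Nat.strong_induction_on generalizing G with | _ k ih => ?_
  subst hk
  rcases (commg_le_left hn).lt_or_eq with hlt | heq
  · have m := mem_comm hq hZ hE.pg hn
    rw [← m.eq]
    exact ih _ (card_lt hlt) hE m.pg m.norm (fun e he => (inf_le_inf_right _
      (commutator_mono (inf_le_inf_right _ hlt.le) le_rfl)).trans (hL e he)) rfl
  refine four_ex hq hE hZ hn heq hL fun Z₀ h0 h1 h2 h3 => ?_
  have z1 : Z₀ ≤ Z := h1.trans inf_le_left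
  have z2 : Z ≤ N(Z₀) := norms_of_cents (cents_symm (h1.trans inf_le_right))
  have hlt : #(quo Z₀ Z) < #Z := by
    rw [card_quo z2, ← card_mul_relIndex z1]
    exact lt_mul_of_one_lt_left (relIndex_pos _ _) (ne_bot_iff_one_lt_card.1 h0)
  have hd : Z₀ ⊓ E = ⊥ := inf_eq_bot_of_cop (cop hq (hZ.of_le z1) hE.pg)
  exact four_key hq hE hZ hn z1 z2 h2 h3 (ih _ hlt (hE.quo h2 hd).top (hZ.quo _) (quo_norms hn)
    (four_quo hq hE hZ hn hL z1 z2 h2) rfl)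

/-- `B`-invariant `q`-groups whose fixed points lie in `O_q(C(B))` -/
structure Zs (q : ℕ) (B Z : Subgroup G) : Prop where
  pg : PG q Z
  norm : B ≤ N(Z)
  cent : Z ⊓ C(B) ≤ Oc {q} C(B)

theorem Zs.max (h : Zs q B Z) : ∃ Z', Z ≤ Z' ∧ Maximal (Zs q B) Z' := Finite.exists_le_maximal h

theorem Zs.J (h : Zs q B Z) (hg : g ∈ N(B)) : Zs q B (cj g Z) := by
  have e := cj_of_mem_norm hg
  refine ⟨h.pg.J g, ?_, ?_⟩
  · rw [← cj_norm, ← e]; exact cj_mono g h.norm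
  · have := cj_mono g h.cent
    rwa [cj_inf, cj_Oc, cj_cent, e] at this

theorem maxZ_J (h : Maximal (Zs q B) Z) (hg : g ∈ N(B)) : Maximal (Zs q B) (cj g Z) :=
  ⟨h.1.J hg, fun _ h1 h2 => le_cj_iff.2 (h.2 (h1.J (inv_mem hg)) (cj_le_iff.1 h2))⟩

/-- the hypothesis of the TI argument -/
def Hy (q : ℕ) (B : Subgroup G) : Prop := ∀ Z, Mem q B Z → Z ⊓ C(B) ≤ Oc {q} C(B)

theorem Hy.zs (h : Hy q B) (m : Mem q B W) : Zs q B W := ⟨m.pg, m.norm, h W m⟩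

/-- the unique maximal member above a given one -/
structure UN (q : ℕ) (X A : Subgroup G) : Prop where
  mem : Mem q X A
  norm : N(X) ≤ N(A)
  le : ∀ W, Mem q X W → W ⊓ A ≠ ⊥ → W ≤ A

namespace S
variable (s : S p D)
include s

theorem pg (hX : X ∈ D) : PG p X := PiN.of_card s.pr (s.card X hX)
theorem prime (hX : X ∈ D) : (#X).Prime := s.card X hX ▸ s.pr
theorem el (hX : X ∈ D) (h : X ≤ H) : El p 1 X H := el1_mk s.pr h (s.card X hX)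
theorem ab (hX : X ∈ D) : X ≤ C(X) := (s.el hX le_rfl).le_cent
theorem nt (hY : PG q Y) (h : Y ≠ ⊥) : N(Y) ≠ ⊤ := s.fit Y hY.nil h
theorem ct (hY : PG q Y) (h : Y ≠ ⊥) : C(Y) ≠ ⊤ := ne_top_mono (cent_le_norm _) (s.nt hY h)

theorem comm_le (hq : q ≠ p) (hH : H ≠ ⊤) (hB : Gn D B) (h1 : B ≤ H) (hY : PG q Y) (h2 : Y ≤ H)
    (hn : B ≤ N(Y)) : ⁅Y, B⁆ ≤ Oc {q} H := by
  obtain ⟨T, t1, t2, t3⟩ := s.loc H hH
  have h3 : PG q ⁅Y, B⁆ := hY.of_le (commg_le_left hn)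
  refine h3.le_Oc_of_le_Fit ((t2.le_of_normal (t1.le.trans ((Fit_normal H).Oc _).norm) ?_
    (h3.sing_ne hq)).trans (Oc_le _ _))
  exact (commutator_mono le_rfl (hB T fun X hX h => t3 X hX (h.trans h1))).trans (t1.commg_le' h2)

theorem le_Oc' (hq : q ≠ p) (hH : H ≠ ⊤) (hB : Gn D B) (h1 : B ≤ H) (m : Mem q B W) (h2 : W ≤ H) :
    W ≤ Oc {q} H := m.eq.ge.trans (s.comm_le hq hH hB h1 m.pg h2 m.norm)

theorem le_W (hq : q ≠ p) (hH : H ≠ ⊤) (hB : Gn D B) (h1 : B ≤ H) (m : Mem q B W) (h2 : W ≤ H) :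
    W ≤ ⁅Oc {q} H, B⁆ := m.le (s.le_Oc' hq hH hB h1 m h2)

theorem ctrick (hq : q ≠ p) (hX : X ∈ D) (hY : PG q Y) (hn : X ≤ N(Y)) (hh : h ∈ Y)
    (hc : c ∈ N(X)) : ∃ H, H ≠ ⊤ ∧ X ≤ H ∧ c ∈ H ∧ cP X h ≤ ⁅Oc {q} H, X⁆ := by
  have m := mem_cP' hq hY (s.pg hX) hn hh
  obtain ⟨n, hn, e⟩ := cP_tr (cop hq m.pg (s.pg hX)) (s.pg hX).sol
  have h1 : c * n ∈ X ⊔ zpowers (c * n) := mem_sup_right (mem_zpowers _)
  have h2 : cP X h ≤ X ⊔ zpowers (c * n) := (cP_eq e).ge.trans (cP_le fun y hy => by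
    have := mul_mem (mul_mem (mul_mem (inv_mem h1) (mem_sup_left (conj_mem_of_norm hc hy))) h1)
      (inv_mem (mem_sup_left hy))
    convert this using 1; group)
  refine ⟨_, s.two X hX (c * n), le_sup_left, ?_,
    s.le_W hq (s.two X hX _) (gn_of_mem hX) le_sup_left m h2⟩
  simpa using mul_mem h1 (inv_mem (h2 hn))

theorem ti (hq : q ≠ p) (hB : PG p B) (hab : B ≤ C(B)) (hg : Gn D B) (hy : Hy q B) {Z₁ Z₂ : Subgroup G}
    (h1 : Maximal (Zs q B) Z₁) (h2 : Maximal (Zs q B) Z₂) (h : Z₁ ⊓ Z₂ ≠ ⊥) : Z₁ = Z₂ := by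
  induction hI : Z₁ ⊓ Z₂ using (wellFounded_gt (α := Subgroup G)).induction generalizing Z₁ Z₂
    with | _ I ih => ?_
  by_contra hne
  have hN := s.nt (h1.1.pg.infl Z₂) h
  have nB : B ≤ N(Z₁ ⊓ Z₂) := norms_inf h1.1.norm h2.1.norm
  rw [hI] at hN nB
  have m := mem_W (q := q) hq hB nB
  have o1 : Oc {q} C(B) ⊓ N(I) ≤ C(B) := inf_le_left.trans (Oc_le _ _)
  have o2 : Oc {q} C(B) ⊓ N(I) ≤ N(⁅Oc {q} N(I), B⁆) := fun g hg =>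
    norm_W (le_normalizer hg.2) (cent_le_norm _ (o1 hg))
  have zU : Zs q B (⁅Oc {q} N(I), B⁆ ⊔ (Oc {q} C(B) ⊓ N(I))) :=
    ⟨m.pg.sup ((Oc_pi _ _).infl _) o2, norms_sup m.norm (norms_of_cents (cents_symm o1)), by
      rw [sup_inf_modr o2 o1]; exact sup_le (hy _ m) inf_le_left⟩
  obtain ⟨Z₃, h3, m3⟩ := zU.max
  have key : ∀ Z, Maximal (Zs q B) Z → I < Z → Z = Z₃ := fun Z hZ hlt => by
    have n1 : B ≤ N(Z ⊓ N(I)) := norms_inf hZ.1.norm (norms_of_le nB)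
    have l1 : Z ⊓ N(I) ≤ Z₃ := by
      rw [← commg_sup_cent n1 (cop hq (hZ.1.pg.infl _) hB) (Or.inl hB.sol)]
      refine le_trans (sup_le_sup ?_ ?_) h3
      · exact s.le_W hq hN hg nB (mem_comm hq (hZ.1.pg.infl _) hB n1)
          ((commg_le_left n1).trans inf_le_right)
      · exact le_inf ((inf_le_inf_right _ inf_le_left).trans hZ.1.cent) (inf_le_left.trans inf_le_right)
    have l2 : I < Z ⊓ Z₃ := (hZ.1.pg.lt_norm hlt).trans_le (le_inf inf_le_left l1)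
    exact ih _ l2 hZ m3 (ne_bot_of_gt l2) rfl
  refine hne ((key _ h1 (lt_of_le_of_ne (hI ▸ inf_le_left) fun e => ?_)).trans
    (key _ h2 (lt_of_le_of_ne (hI ▸ inf_le_right) fun e => ?_)).symm)
  · exact hne (h1.eq_of_le h2.1 (e ▸ hI ▸ inf_le_right))
  · exact hne (h2.eq_of_le h1.1 (e ▸ hI ▸ inf_le_left)).symm

theorem hy_odd (hq : q ≠ p) (h2 : p ≠ 2) (hX : X ∈ D) : Hy q X := fun Z m => by
  rw [← m.eq]
  refine (H1.comm_inf_cent_le_cD (s.prime hX) (s.card X hX ▸ h2) m.norm (cop hq m.pg (s.pg hX))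
    m.pg.sol).trans (cD_le fun h hh => baer inf_le_right fun g hg => ?_)
  obtain ⟨H, -, h1, h3, h4⟩ := s.ctrick hq hX m.pg m.norm hh (cent_le_norm _ hg)
  have h5 := inf_le_left.trans (h4.trans (W_le h1)) (a := cP X h ⊓ C(X))
  exact (Oc_pi _ H).of_le (sup_le h5 (cj_le_of_mem_norm (Oc_norm _ _ h3) h5))

theorem un_odd (hq : q ≠ p) (h2 : p ≠ 2) (hX : X ∈ D) (m : Mem q X W) (h0 : W ≠ ⊥) :
    ∃ A, UN q X A ∧ W ≤ A := by
  have hy := s.hy_odd hq h2 hX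
  have ti := fun {Z₁ Z₂} => s.ti hq (s.pg hX) (s.ab hX) (gn_of_mem hX) hy (Z₁ := Z₁) (Z₂ := Z₂)
  obtain ⟨Z, h1, mZ⟩ := (hy.zs m).max
  have key : ∀ W', Mem q X W' → W' ⊓ Z ≠ ⊥ → W' ≤ Z := fun W' m' h => by
    obtain ⟨Z', h3, mZ'⟩ := (hy.zs m').max
    exact ti mZ' mZ (ne_bot_mono (inf_le_inf_right _ h3) h) ▸ h3
  refine ⟨⁅Z, X⁆, ⟨mem_comm hq mZ.1.pg (s.pg hX) mZ.1.norm, norms_comm (fun c hc => ?_) le_rfl,
    fun W' m' h => m'.le (key W' m' (ne_bot_mono (inf_le_inf_left _ (commg_le_left mZ.1.norm)) h))⟩,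
    m.le h1⟩
  obtain ⟨h, hh, h3⟩ := exists_cP (m.eq.symm ▸ h0 : ⁅W, X⁆ ≠ ⊥)
  obtain ⟨H, -, h4, h5, h6⟩ := s.ctrick hq hX m.pg m.norm hh hc
  have h7 := key _ (mem_W hq (s.pg hX) h4)
    (ne_bot_mono (le_inf h6 ((cP_le_self m.norm hh).trans h1)) h3)
  refine mem_norm_iff_cj.2 (ti (maxZ_J mZ hc) mZ (ne_bot_mono (le_inf ?_ h7) (ne_bot_mono h6 h3)))
  rw [← cj_of_mem_norm (norm_W (q := q) (le_normalizer h5) hc)]
  exact cj_mono c h7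

theorem hy_four (hq : q ≠ p) (hE : El p 2 E ⊤) (hg : Gn D E) : Hy q E := fun Z m => by
  rw [← m.eq]
  refine four hq hE m.pg m.norm fun e he => le_trans (inf_le_inf_right _ ?_) (Oc_inf_le (cent_mono he.le))
  have h1 := cents_of_comm hE.comm le_rfl he.le
  exact s.comm_le hq (s.ct he.pg he.ne_bot) hg h1 (m.pg.infl _) inf_le_right
    (norms_inf m.norm (norms_of_le h1))

end S

theorem eq_of_two (h : #X = 2) (hx : x ∈ X) (hy : y ∈ X) (x1 : x ≠ 1) (y1 : y ≠ 1) : x = y := by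
  obtain ⟨z, -, hz⟩ := (Nat.card_eq_two_iff' (1 : X)).1 h
  exact congrArg Subtype.val ((hz ⟨x, hx⟩ fun e => x1 (congrArg Subtype.val e)).trans
    (hz ⟨y, hy⟩ fun e => y1 (congrArg Subtype.val e)).symm)

theorem third (hX : El 2 1 X E) (hY : El 2 1 Y E) (hn : Y ≤ N(X)) {e f : Subgroup G}
    (he : El 2 1 e (X ⊔ Y)) (hf : El 2 1 f (X ⊔ Y)) (h1 : e ≠ X) (h2 : e ≠ Y) (h3 : f ≠ X)
    (h4 : f ≠ Y) : e = f := by
  have key : ∀ e, El 2 1 e (X ⊔ Y) → e ≠ X → e ≠ Y →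
      ∃ x ∈ X, ∃ y ∈ Y, x ≠ 1 ∧ y ≠ 1 ∧ zpowers (x * y) = e := fun e he h1 h2 => by
    obtain ⟨u, -, -, rfl⟩ := he.exists_gen
    obtain ⟨x, hx, y, hy, rfl⟩ := (mem_sup_of_norm hn).1 (he.le (mem_zpowers u))
    refine ⟨x, hx, y, hy, ?_, ?_, rfl⟩
    · rintro rfl; exact h2 (he.eq_of_le hY (zpowers_le.2 (by simpa using hy)))
    · rintro rfl; exact h1 (he.eq_of_le hX (zpowers_le.2 (by simpa using hx)))
  obtain ⟨x, hx, y, hy, x1, y1, rfl⟩ := key e he h1 h2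
  obtain ⟨x', hx', y', hy', x1', y1', rfl⟩ := key f hf h3 h4
  rw [eq_of_two hX.card1 hx hx' x1 x1', eq_of_two hY.card1 hy hy' y1 y1']

theorem cP_two (he : #E = 2) (h0 : cP E h ≠ ⊥) : ∃ y, zpowers y = cP E h := by
  obtain ⟨u, hu, u1⟩ := exists_ne_one (ne_bot_of_prime (he ▸ Nat.prime_two))
  refine ⟨_, le_antisymm (zpowers_le.2 (mem_cP hu)) (cP_le fun y hy => ?_)⟩
  by_cases y1 : y = 1
  · simp [y1]
  · rw [eq_of_two he hy hu y1 u1]; exact mem_zpowers _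

namespace S

theorem un_two (s : S 2 D) (hq : q ≠ 2) (hX : X ∈ D) (m : Mem q X W) (h0 : W ≠ ⊥) :
    ∃ A, UN q X A ∧ W ≤ A := by
  obtain ⟨Y, hY, hne, hc⟩ := s.zs rfl X hX
  have hE : El 2 2 (X ⊔ Y) ⊤ := (s.el hX le_top).sup2 (s.el hY le_top) (cents_symm hc) hne.symm
  have hg := gn_sup hX hY
  have eX : El 2 1 X (X ⊔ Y) := s.el hX le_sup_left
  have eY : El 2 1 Y (X ⊔ Y) := s.el hY le_sup_right
  have th := fun {e f} => third eX eY (norms_of_cents hc) (e := e) (f := f)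
  obtain ⟨b, -, -, hb⟩ := eY.exists_gen
  have gE : ∀ H, X ≤ H → b ∈ H → X ⊔ Y ≤ H := fun H h1 h2 => sup_le h1 (hb ▸ zpowers_le.2 h2)
  have bN : b ∈ N(X) := cent_le_norm _ (hc (hb ▸ mem_zpowers b))
  generalize X ⊔ Y = E at *
  have hy := s.hy_four hq hE hg
  have ti := fun {Z₁ Z₂} => s.ti hq hE.pg hE.le_cent hg hy (Z₁ := Z₁) (Z₂ := Z₂)
  have key : ∀ Z, Maximal (Zs q E) Z → ∀ W', Mem q E W' → W' ⊓ Z ≠ ⊥ → W' ≤ Z := fun Z mZ W' m' h => by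
    obtain ⟨Z', h3, mZ'⟩ := (hy.zs m').max
    exact ti mZ' mZ (ne_bot_mono (inf_le_inf_right _ h3) h) ▸ h3
  have cE : ∀ {e}, El 2 1 e E → E ≤ C(e) := fun he => cents_of_comm hE.comm le_rfl he.le
  have k1 : ∀ Z, Maximal (Zs q E) Z → ⁅Z, E⁆ ≠ ⊥ →
      ∃ e, El 2 1 e E ∧ ⁅Oc {q} C(e), E⁆ ≠ ⊥ ∧ ⁅Oc {q} C(e), E⁆ ≤ Z := fun Z mZ h => by
    obtain ⟨e, he, h1⟩ : ∃ e, El 2 1 e E ∧ ¬ Z ⊓ C(e) ≤ C(E) := by
      by_contra! hc
      exact h (commg_eq_bot.2 (hE.le_of_cent_le mZ.1.norm (mZ.1.pg.sing_ne hq) hc))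
    have n1 : E ≤ N(Z ⊓ C(e)) := norms_inf mZ.1.norm (norms_of_le (cE he))
    have h2 := s.le_W hq (s.ct he.pg he.ne_bot) hg (cE he) (mem_comm hq (mZ.1.pg.infl _) hE.pg n1)
      ((commg_le_left n1).trans inf_le_right)
    have h3 := mt commg_eq_bot.1 h1
    exact ⟨e, he, ne_bot_mono h2 h3, key Z mZ _ (mem_W hq hE.pg (cE he))
      (ne_bot_mono (le_inf h2 ((commg_le_left n1).trans inf_le_left)) h3)⟩
  have k2 : ∀ {d e}, El 2 1 d E → El 2 1 e E → d ≠ e → ⁅Oc {q} C(e), E⁆ = ⁅Oc {q} C(e), d⁆ :=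
    fun hd he h => comm_sup_eq (hE.sup_eq hd he h) (Oc_le _ _) (norms_of_comm hE.comm he.le hd.le)
  have k3 : ∀ d e Z₁ Z₂, d ∈ D → El 2 1 d E → El 2 1 e E → d ≠ e → Maximal (Zs q E) Z₁ →
      Maximal (Zs q E) Z₂ → ⁅Oc {q} C(d), E⁆ ≠ ⊥ → ⁅Oc {q} C(d), E⁆ ≤ Z₁ → ⁅Oc {q} C(e), E⁆ ≠ ⊥ →
      ⁅Oc {q} C(e), E⁆ ≤ Z₂ → Z₁ = Z₂ := by
    intro d e Z₁ Z₂ dD hd he hne m1 m2 a1 a2 a3 a4
    rw [k2 he hd hne.symm] at a1 a2
    rw [k2 hd he hne] at a3 a4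
    obtain ⟨k, hk, k0⟩ := exists_cP a1
    obtain ⟨h, hh, h0⟩ := exists_cP a3
    have nd : d ≤ N(Oc {q} C(e)) := (hd.le.trans (cE he)).trans (Oc_norm _ _)
    have ne : e ≤ N(Oc {q} C(d)) := (he.le.trans (cE hd)).trans (Oc_norm _ _)
    have j1 := (cP_le_self ne hk).trans (Oc_le _ _)
    have j2 := (cP_le_self nd hh).trans (Oc_le _ _)
    have mJ := mem_cP' hq (Oc_pi _ _) he.pg ne hk
    have mK := mem_cP' hq (Oc_pi _ _) hd.pg nd hh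
    obtain ⟨y, hy'⟩ := cP_two he.card1 k0
    obtain ⟨H, -, b1, b2, b3⟩ := s.ctrick hq dD (Oc_pi _ _) nd hh
      (cent_le_norm _ (j1 (hy' ▸ mem_zpowers y)))
    have mU : Mem q E (cP e k ⊔ cP d h) := by
      have nU : E ≤ N(cP e k ⊔ cP d h) := by
        rw [← hE.sup_eq hd he hne]
        exact sup_le (norms_sup (norms_of_cents (cents_symm j1)) mK.norm)
          (norms_sup mJ.norm (norms_of_cents (cents_symm j2)))
      refine ⟨(mJ.pg.sup' (Oc_pi _ H) ?_).of_le (sup_le_sup_left (b3.trans (W_le b1)) _),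
        le_antisymm (commg_le_left nU) (sup_le (mJ.eq.ge.trans (commutator_mono le_sup_left he.le))
          (mK.eq.ge.trans (commutator_mono le_sup_right hd.le)))⟩
      rw [← hy']; exact (zpowers_le.2 b2).trans (Oc_norm _ _)
    have c1 := key _ m1 _ mU (ne_bot_mono (le_inf le_sup_left ((cP_le_comm hk).trans a2)) k0)
    exact ti m1 m2 (ne_bot_mono (le_inf (le_sup_right.trans c1) ((cP_le_comm hh).trans a4)) h0)
  have k4 : ∀ Z₁ Z₂, Maximal (Zs q E) Z₁ → Maximal (Zs q E) Z₂ → ⁅Z₁, E⁆ ≠ ⊥ → ⁅Z₂, E⁆ ≠ ⊥ →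
      Z₁ = Z₂ := fun Z₁ Z₂ m1 m2 h1 h2 => by
    obtain ⟨e, he, a1, a2⟩ := k1 _ m1 h1
    obtain ⟨f, hf, a3, a4⟩ := k1 _ m2 h2
    by_cases hef : e = f
    · subst hef; exact ti m1 m2 (ne_bot_mono (le_inf a2 a4) a1)
    by_cases h1 : e ∈ D
    · exact k3 e f _ _ h1 he hf hef m1 m2 a1 a2 a3 a4
    by_cases h2 : f ∈ D
    · exact (k3 f e _ _ h2 hf he (Ne.symm hef) m2 m1 a3 a4 a1 a2).symm
    exact absurd (th he hf (fun e => h1 (e ▸ hX)) (fun e => h1 (e ▸ hY)) (fun e => h2 (e ▸ hX))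
      (fun e => h2 (e ▸ hY))) hef
  have k5 : ∀ W', Mem q X W' → ∀ h ∈ W', cP X h ≠ ⊥ →
      ∃ Z, Maximal (Zs q E) Z ∧ ⁅Z, E⁆ ≠ ⊥ ∧ cP X h ≤ Z := fun W' m' h hh h0 => by
    obtain ⟨H, -, b1, b2, b3⟩ := s.ctrick hq hX m'.pg m'.norm hh bN
    have mW := mem_W (q := q) hq hE.pg (gE H b1 b2)
    obtain ⟨Z, h1, mZ⟩ := (hy.zs mW).max
    have h2 := b3.trans (commutator_mono le_rfl eX.le)
    exact ⟨Z, mZ, ne_bot_mono (h2.trans (mW.le h1)) h0, h2.trans h1⟩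
  obtain ⟨h, hh, h1⟩ := exists_cP (m.eq.symm ▸ h0 : ⁅W, X⁆ ≠ ⊥)
  obtain ⟨Z, mZ, z0, -⟩ := k5 W m h hh h1
  have k6 : ∀ W', Mem q X W' → W' ≤ ⁅Z, X⁆ := fun W' m' => m'.le (m'.eq.ge.trans
    (comm_le_iSup_cP fun h hh => by
      by_cases h0 : cP X h = ⊥
      · exact h0.le.trans bot_le
      obtain ⟨Z', mZ', z1, z2⟩ := k5 W' m' h hh h0
      exact k4 _ _ mZ' mZ z1 z0 ▸ z2))
  have mA := mem_comm hq mZ.1.pg (s.pg hX) (eX.le.trans mZ.1.norm)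
  refine ⟨_, ⟨mA, fun c hc => mem_norm_of_cj_le (k6 _ ?_), fun W' m' _ => k6 W' m'⟩, k6 W m⟩
  have := mA.J c
  rwa [cj_of_mem_norm hc] at this

theorem un (s : S p D) (hq : q ≠ p) (hX : X ∈ D) (m : Mem q X W) (h0 : W ≠ ⊥) :
    ∃ A, UN q X A ∧ W ≤ A := by
  by_cases h : p = 2
  · subst h; exact s.un_two hq hX m h0
  · exact s.un_odd hq h hX m h0

end S
end H0.F2
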