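/-
S3817, part 2: a nontrivial `q`-group `W = [W, X]` and `X` lie in a unique maximal subgroup.
-/
import Cfsg.Agent.H0.FF1

set_option autoImplicit false
set_option linter.unusedSectionVars false

open Cfsg Subgroup
open scoped Pointwise commutatorElement
namespace H0.F2
open H19
open H1 (cP mem_cP cP_le cP_le_comm cP_le_self cP_norm comm_le_iSup_cP cD_le)

universe u

variable {G : Type u} [Group G] [Finite G] {p q r : ℕ} {D : Set (Subgroup G)}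
  {A B E H K L M M₁ M₂ P Q R T U V W X Y Z : Subgroup G} {a b c g h x y : G}

theorem Oc_Oc_cent (h : q ≠ r) (H : Subgroup G) : Oc {q} H ≤ C(Oc {r} H) :=
  Oc_cents (Oc_normal _ _) ((Oc_pi _ _).sing_ne h.symm)

theorem cP_le_sup (X : Subgroup G) (y : G) : cP X y ≤ cj y⁻¹ X ⊔ X := cP_le fun x hx => by
  have := mul_mem (mem_sup_left (T := X) ((conj_mem_cj (g := y⁻¹)).2 hx)) (mem_sup_right (inv_mem hx))
  convert this using 1; group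

theorem R_le (h : ∀ r, r ≠ p → Oc {r} M ≤ K) : Oc {p}ᶜ (Fit M) ≤ K := le_of_syl fun r P _ hP => by
  by_cases e : r = p
  · subst e; rw [hP.pi.eq_bot ((Oc_pi _ _).of_le hP.le)]; exact bot_le
  · exact (hP.pi.le_Oc_of_le_Fit (hP.le.trans (Oc_le _ _))).trans (h r e)

theorem le_R (hq : q ≠ p) : Oc {q} M ≤ Oc {p}ᶜ (Fit M) :=
  le_Oc ((Oc_normal _ _).of_le (Oc_le_Fit _ _) (Fit_le _)) ((Oc_pi _ _).sing_ne hq)

theorem R_normal (p : ℕ) (M : Subgroup G) : Oc {p}ᶜ (Fit M) ⊴ M := (Fit_normal M).Oc _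

/-- the members of `D` in `H` acting nontrivially on a `q`-subgroup of `H` -/
def Sd (D : Set (Subgroup G)) (q : ℕ) (H : Subgroup G) : Set (Subgroup G) :=
  {X | X ∈ D ∧ X ≤ H ∧ ∃ W, Mem q X W ∧ W ≠ ⊥ ∧ W ≤ H}

/-- the join of the corresponding `q`-subgroups -/
def Jq (D : Set (Subgroup G)) (q : ℕ) (H : Subgroup G) : Subgroup G :=
  sSup {W | ∃ X ∈ D, X ≤ H ∧ Mem q X W ∧ W ≠ ⊥ ∧ W ≤ H}

theorem Sd_mono (h : H ≤ K) : Sd D q H ⊆ Sd D q K :=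
  fun _ ⟨h1, h2, W, h3, h4, h5⟩ => ⟨h1, h2.trans h, W, h3, h4, h5.trans h⟩

namespace S
variable (s : S p D)
include s

theorem cotrick (hX : X ∈ D) {t v : G} (ht : PiE {q} t) (hv : PiE {q}ᶜ v) (e : t * v = v * t) :
    ∃ H, H ≠ ⊤ ∧ X ≤ H ∧ t ∈ H ∧ v ∈ H := by
  have h1 : t * v ∈ X ⊔ zpowers (t * v) := mem_sup_right (mem_zpowers _)
  have h2 := constt_mem {q} h1
  rw [constt_eq ht hv e] at h2
  exact ⟨_, s.two X hX _, le_sup_left, h2, by simpa using mul_mem (inv_mem h2) h1⟩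

theorem mt_step {I : Subgroup G} (hq : q ≠ p) (hr : r ≠ p) (hqr : q ≠ r) (hX : X ∈ D)
    (mV : Mem r X V) (q0 : Q ≠ ⊥) (hc : V ≤ C(Q)) (hI : PG q I) (nI : X ≤ N(I)) (e : ⁅I, X⁆ = Q)
    (iV : I ≤ N(V)) (hy : y ∈ N(I)) (my : Mem q X (cP X y)) : cP X y ≤ C(cj y⁻¹ V) := by
  have eI := cj_of_mem_norm (inv_mem hy)
  have e1 : ⁅I, cj y⁻¹ X⁆ = cj y⁻¹ Q := by rw [← e, cj_comm, eI]
  have q1 : cj y⁻¹ Q ≤ I := by rw [← eI]; exact cj_mono _ (e ▸ commg_le_left nI)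
  have v1 : I ≤ N(cj y⁻¹ V) := by rw [← cj_norm, ← eI]; exact cj_mono _ iV
  have c1 : cj y⁻¹ V ≤ C(cj y⁻¹ Q) := by rw [← cj_cent]; exact cj_mono _ hc
  have mV1 := mV.J y⁻¹
  have q0' : cj y⁻¹ Q ≠ ⊥ := mt cj_eq_bot.1 q0
  generalize cj y⁻¹ Q = Q₁ at *
  generalize cj y⁻¹ V = V₁ at *
  have c2 : V₁ ≤ C(⁅Q₁, X⁆) := fun v hv => le_cent1_iff.1 (comm_le_iSup_cP fun t ht => by
    obtain ⟨H, h0, h1, h2, h3⟩ := s.cotrick hX (hI.elt (q1 ht)) ((mV1.pg.elt hv).sing_ne hqr.symm)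
      (mem_cent.1 (c1 hv) t ht)
    have h4 := s.le_Oc' hq h0 (gn_of_mem hX) h1 (mem_cP' hq hI (s.pg hX) nI (q1 ht))
      (cP_le fun x hx => mul_mem (inv_mem h2) (mul_mem (mul_mem (h1 hx) h2) (inv_mem (h1 hx))))
    rw [← cent_zpowers, ← commg_eq_bot, eq_bot_iff,
      ← (Oc_pi {q} H).inf_eq_bot (mV1.pg.sing_ne hqr.symm)]
    exact le_inf ((commutator_mono h4 (zpowers_le.2 h3)).trans (commg_le_left (Oc_norm _ _)))
      ((commutator_mono ((cP_le_self nI (q1 ht)).trans v1) (zpowers_le.2 hv)).trans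
        (commg_le_right le_rfl)))
  have l1 : Q₁ ⊔ ⁅Q₁, X⁆ ≤ I := sup_le q1 ((commutator_mono q1 le_rfl).trans (commg_le_left nI))
  have l2 : X ≤ N(Q₁ ⊔ ⁅Q₁, X⁆) := norms_of_commg_le (commg_sup_left_le le_sup_right
    ((commg_le_left (commg_normr _ _)).trans le_sup_right) (norms_of_le le_sup_left)
    (norms_of_le le_sup_right))
  have l3 : cj y⁻¹ X ≤ N(Q₁ ⊔ ⁅Q₁, X⁆) :=
    norms_of_commg_le ((commutator_mono l1 le_rfl).trans (e1.le.trans le_sup_left))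
  have l4 := s.nt (hI.of_le l1) (ne_bot_mono le_sup_left q0')
  exact cents_mono (Oc_Oc_cent hqr _)
    (s.le_Oc' hq l4 (gn_of_mem hX) l2 my ((cP_le_sup _ _).trans (sup_le l3 l2)))
    (s.le_Oc' hr l4 (gn_of_mem (s.J X hX _)) l3 mV1 (norms_of_cents (cents_sup c1 c2)))

theorem mt_core (hq : q ≠ p) (hr : r ≠ p) (hqr : q ≠ r) (hX : X ∈ D) (mQ : Mem q X Q)
    (mV : Mem r X V) (q0 : Q ≠ ⊥) (hc : V ≤ C(Q)) (mq : ∀ W, Mem q X W → W ≤ N(V) → W ≤ Q)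
    (mv : ∀ W, Mem r X W → W ≤ N(Q) → W ≤ V) (mA : Mem q X A) (hle : Q ≤ A) : A ≤ Q := by
  have hN := s.nt mQ.pg q0
  have pX := s.pg hX
  have hI : PG q (A ⊓ N(Q)) := mA.pg.infl _
  have nI : X ≤ N(A ⊓ N(Q)) := norms_inf mA.norm (norms_of_le mQ.norm)
  have e : ⁅A ⊓ N(Q), X⁆ = Q := le_antisymm (mq _ (mem_comm hq hI pX nI) (norms_of_cents
    (cents_mono (Oc_Oc_cent hqr _) (s.comm_le hq hN (gn_of_mem hX) mQ.norm hI inf_le_right nI)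
      (s.le_Oc' hr hN (gn_of_mem hX) mQ.norm mV (norms_of_cents hc)))))
    (mQ.le (le_inf hle le_normalizer))
  have iV : A ⊓ N(Q) ≤ N(V) := by
    rw [← commg_sup_cent nI (cop hq hI pX) (Or.inl pX.sol), e]
    refine sup_le (norms_of_cents (cents_symm hc)) fun g hg => mem_norm_of_cj_le (mv _ ?_
      (cj_le_of_mem hg.1.2 (norms_of_cents hc)))
    have := mV.J g
    rwa [cj_of_mem_cent hg.2] at this
  have q1 : Q ≤ A ⊓ N(Q) := le_inf hle le_normalizer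
  have i1 : A ⊓ N(Q) ≤ A := inf_le_left
  have i3 : ∀ g ∈ A, g ∈ N(Q) → g ∈ A ⊓ N(Q) := fun g h1 h2 => ⟨h1, h2⟩
  generalize A ⊓ N(Q) = I at *
  have nJ : X ≤ N(A ⊓ N(I)) := norms_inf mA.norm (norms_of_le nI)
  have hJ : PG q (A ⊓ N(I)) := mA.pg.infl _
  have j1 : A ⊓ N(I) ⊓ C(X) ≤ I := fun g hg => i3 g hg.1.1
    (e ▸ norms_comm (A := N(I) ⊓ N(X)) inf_le_left inf_le_right ⟨hg.1.2, cent_le_norm _ hg.2⟩)
  have j2 : A ⊓ N(I) ≤ I := by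
    rw [← commg_sup_cent nJ (cop hq hJ pX) (Or.inl pX.sol)]
    refine sup_le (le_trans (comm_le_iSup_cP fun y hy => ?_) q1) j1
    have my := mem_cP' hq hJ pX nJ hy
    have h1 := s.mt_step hq hr hqr hX mV q0 hc hI nI e iV hy.2 my
    obtain ⟨n, hn, h2⟩ := cP_tr (cop hq my.pg pX) pX.sol
    have h3 := cj_of_mem_norm (iV (j1 ⟨mul_mem (cP_le_self nJ hy hn) ((A ⊓ N(I)).inv_mem hy), h2⟩))
    rw [cj_mul, cj_of_mem_cent (h1 hn)] at h3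
    exact mq _ my (norms_of_cents (h3 ▸ h1))
  exact mq _ mA (nil_eq_of_norm_le mA.pg.nil i1 j2 ▸ iV)

theorem mtc (hq : q ≠ p) (hr : r ≠ p) (hqr : q ≠ r) (hX : X ∈ D) (uA : UN q X A) (mQ : Mem q X Q)
    (q0 : Q ≠ ⊥) (hle : Q ≤ A) (mV : Mem r X V) (hc : V ≤ C(Q)) : V ≤ C(A) := by
  by_cases v0 : V = ⊥
  · exact v0.le.trans bot_le
  obtain ⟨⟨Q', V'⟩, ⟨h1, h2⟩, ⟨m1, m2, m3⟩, hm⟩ := Finite.exists_le_maximal
    (p := fun z : Subgroup G × Subgroup G => Mem q X z.1 ∧ Mem r X z.2 ∧ z.2 ≤ C(z.1))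
    (a := (Q, V)) ⟨mQ, mV, hc⟩
  dsimp only at h1 h2 m1 m2 m3
  have q1 := s.nt m1.pg (ne_bot_mono h1 q0)
  have v1 := s.nt m2.pg (ne_bot_mono h2 v0)
  refine cents_mono m3 h2 (s.mt_core hq hr hqr hX m1 m2 (ne_bot_mono h1 q0) m3 (fun W m h => ?_)
    (fun W m h => ?_) uA.mem (uA.le _ m1 (ne_bot_mono (le_inf h1 hle) q0)))
  · refine (s.le_W hq v1 (gn_of_mem hX) m2.norm m h).trans
      (hm (y := (⁅Oc {q} N(V'), X⁆, V')) ⟨mem_W hq (s.pg hX) m2.norm, m2, cents_symm ?_⟩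
        ⟨s.le_W hq v1 (gn_of_mem hX) m2.norm m1 (norms_of_cents (cents_symm m3)), le_rfl⟩).1
    exact (W_le m2.norm).trans (Oc_cents (normalIn_norm _) (m2.pg.sing_ne hqr.symm))
  · refine (s.le_W hr q1 (gn_of_mem hX) m1.norm m h).trans
      (hm (y := (Q', ⁅Oc {r} N(Q'), X⁆)) ⟨m1, mem_W hr (s.pg hX) m1.norm, ?_⟩
        ⟨le_rfl, s.le_W hr q1 (gn_of_mem hX) m1.norm m2 (norms_of_cents m3)⟩).2
    exact (W_le m1.norm).trans (Oc_cents (normalIn_norm _) (m1.pg.sing_ne hqr))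

theorem norm_Oc (hM : IsCoatom M) (h : Oc {q} M ≠ ⊥) : N(Oc {q} M) = M :=
  mmax_max hM (Oc_norm _ _) (s.nt (Oc_pi _ _) h)

theorem ao (hq : q ≠ p) (hX : X ∈ D) (hM : IsCoatom M) (hXM : X ≤ M) (uA : UN q X A)
    (h0 : ⁅Oc {q} M, X⁆ ≠ ⊥) (hle : ⁅Oc {q} M, X⁆ ≤ A) : A = ⁅Oc {q} M, X⁆ := by
  have pX := s.pg hX
  have r1 : Oc {p}ᶜ (Fit M) ≤ N(A) := R_le fun r hr => by
    rw [← commg_sup_cent (hXM.trans (Oc_norm {r} M)) (cop hr (Oc_pi _ _) pX) (Or.inl pX.sol)]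
    refine sup_le ?_ (inf_le_right.trans ((cent_le_norm _).trans uA.norm))
    by_cases e : q = r
    · subst e; exact norms_of_le hle
    · exact norms_of_cents (s.mtc hq hr e hX uA (mem_W hq pX hXM) h0 hle (mem_W hr pX hXM)
        (cents_mono (Oc_Oc_cent (Ne.symm e) M) (W_le hXM) (W_le hXM)))
  have o1 : Oc {q} M ≤ N(A) := (le_R hq).trans r1
  obtain ⟨T, t1, t2, t3⟩ := s.loc M hM.1
  obtain ⟨P, hP, hXP⟩ := pX.exists_syl (t3 X hX hXM)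
  have rn := R_normal p M
  have rp : PiG {p}ᶜ (Oc {p}ᶜ (Fit M)) := Oc_pi _ _
  generalize Oc {p}ᶜ (Fit M) = R at *
  have pM := hP.le.trans t1.le
  have fr : R ⊔ M ⊓ N(P) = M := le_antisymm (sup_le rn.le inf_le_left) ((hP.frattini t1).ge.trans
    (sup_le ((hP.sup_compl t2).ge.trans (sup_le ((le_inf pM le_normalizer).trans le_sup_right)
      le_sup_left)) le_sup_right))
  have nB : ∀ {Y}, Y ≤ M → Y ≤ N(A) → Y ≤ N(A ⊓ M) := fun h1 h2 => norms_inf h2 (norms_of_le h1)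
  have pB : PiG {p}ᶜ (R ⊔ A ⊓ M) := rp.sup ((uA.mem.pg.infl _).sing_ne hq) (inf_le_right.trans rn.norm)
  have eB : R ⊔ A ⊓ M = R ⊔ (M ⊓ N(P) ⊓ (R ⊔ A ⊓ M)) := by
    rw [← sup_inf_modl (inf_le_left.trans rn.norm) le_sup_left, fr,
      inf_eq_right.2 (sup_le rn.le inf_le_right)]
  have cB : ∀ {Y}, Y ≤ P → Y ≤ N(X) → Y ≤ C(M ⊓ N(P) ⊓ (R ⊔ A ⊓ M)) := fun h1 h2 => by
    rw [← commg_eq_bot, eq_bot_iff, ← hP.pi.inf_eq_bot pB]
    exact le_inf ((commutator_mono h1 (inf_le_left.trans inf_le_right)).trans (commg_le_left le_rfl))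
      ((commutator_mono le_rfl inf_le_right).trans (commg_le_right
        (norms_sup ((h1.trans pM).trans rn.norm) (nB (h1.trans pM) (h2.trans uA.norm)))))
  have c1 := PxQ hP.pi pX (pB.infr _) (cB hXP le_normalizer) (norms_of_le hXP)
    (inf_le_left.trans inf_le_right) (cB inf_le_left (inf_le_right.trans (cent_le_norm _)))
  have k1 : R ⊔ M ⊓ C(P) ⊴ M := ⟨sup_le rn.le inf_le_left, fr.ge.trans (sup_le (norms_of_le le_sup_left)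
    (norms_sup (inf_le_left.trans rn.norm) (norms_inf (norms_of_le inf_le_left)
      (norms_cent inf_le_right))))⟩
  have k2 : A ⊓ M ≤ Oc {q} M := (le_Oc ⟨le_sup_right.trans (eB.le.trans (sup_le_sup_left
    (le_inf (inf_le_left.trans inf_le_left) c1) _)), sup_le (nB rn.le r1) (nB inf_le_left
      (inf_le_right.trans ((cent_mono hXP).trans ((cent_le_norm _).trans uA.norm))))⟩
    (uA.mem.pg.infl _)).trans (Oc_le_Oc k1)
  have k3 := nil_eq_of_norm_le (uA.mem.pg.sup (Oc_pi _ M) o1).nil le_sup_right (by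
    rw [s.norm_Oc hM (ne_bot_mono (W_le hXM) h0), sup_inf_modr o1 (Oc_le _ _)]
    exact sup_le k2 le_rfl)
  exact le_antisymm (uA.mem.le (le_sup_left.trans k3.ge)) hle

theorem unM (hq : q ≠ p) (hX : X ∈ D) (hM : IsCoatom M) (hXM : X ≤ M) (h0 : ⁅Oc {q} M, X⁆ ≠ ⊥) :
    UN q X ⁅Oc {q} M, X⁆ := by
  obtain ⟨A, uA, h⟩ := s.un hq hX (mem_W hq (s.pg hX) hXM) h0
  exact s.ao hq hX hM hXM uA h0 h ▸ uA

theorem W_le_inf (hq : q ≠ p) (hM : IsCoatom M) (hM₁ : IsCoatom M₁) (h : X ∈ Sd D q (M ⊓ M₁)) :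
    ⁅Oc {q} M, X⁆ ≠ ⊥ ∧ ⁅Oc {q} M, X⁆ ≤ Jq D q (M ⊓ M₁) := by
  obtain ⟨hX, h1, W, m, w0, h2⟩ := h
  have a1 := s.le_W hq hM.1 (gn_of_mem hX) (h1.trans inf_le_left) m (h2.trans inf_le_left)
  have a2 := s.le_W hq hM₁.1 (gn_of_mem hX) (h1.trans inf_le_right) m (h2.trans inf_le_right)
  have mW := mem_W (q := q) hq (s.pg hX) (h1.trans inf_le_left)
  refine ⟨ne_bot_mono a1 w0, le_sSup ⟨X, hX, h1, mW, ne_bot_mono a1 w0, le_inf
    ((W_le (h1.trans inf_le_left)).trans (Oc_le _ _)) ?_⟩⟩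
  exact ((s.unM hq hX hM₁ (h1.trans inf_le_right) (ne_bot_mono a2 w0)).le _ mW
    (ne_bot_mono (le_inf a1 a2) w0)).trans ((W_le (h1.trans inf_le_right)).trans (Oc_le _ _))

theorem nJ (hq : q ≠ p) (hM : M ≠ ⊤) (hle : H ≤ M)
    (h : ∀ X ∈ Sd D q H, cj g ⁅Oc {q} M, X⁆ ≤ Jq D q H) : g ∈ N(Jq D q H) :=
  mem_norm_of_cj_le (cj_le_iff.2 (sSup_le fun W ⟨X, hX, h1, m, w0, h2⟩ => cj_le_iff.1
    ((cj_mono g (s.le_W hq hM (gn_of_mem hX) (h1.trans hle) m (h2.trans hle))).trans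
      (h X ⟨hX, h1, W, m, w0, h2⟩))))

theorem um_step (hq : q ≠ p) (hM : IsCoatom M) (hM₁ : IsCoatom M₁) (hM₂ : IsCoatom M₂)
    (hJ : N(Jq D q (M ⊓ M₁)) ≤ M₂) (ih : Sd D q (M ⊓ M₁) < Sd D q (M ⊓ M₂) → M = M₂) : M = M₂ := by
  have w := fun X => s.W_le_inf (X := X) hq hM hM₁
  have l0 : M ⊓ M₁ ≤ M := inf_le_left
  generalize M ⊓ M₁ = H at *
  have n1 : ∀ g ∈ M, (∀ X ∈ Sd D q H, cj g X ∈ Sd D q H) → g ∈ M₂ := fun g hg h =>
    hJ (s.nJ hq hM.1 l0 fun X hX => by rw [cj_W, cj_of_mem hg]; exact (w _ (h X hX)).2)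
  have n2 : H ≤ M ⊓ M₂ := le_inf l0 fun g hg => n1 g (l0 hg) fun X ⟨hX, h1, W, m, w0, h2⟩ =>
    ⟨s.J X hX g, cj_le_of_mem hg h1, _, m.J g, mt cj_eq_bot.1 w0, cj_le_of_mem hg h2⟩
  rcases (show Sd D q H ≤ Sd D q (M ⊓ M₂) from Sd_mono n2).lt_or_eq with hlt | heq
  · exact ih hlt
  have rn := R_normal p M
  have r1 : Oc {p}ᶜ (Fit M) ≤ M ⊓ M₂ := le_inf rn.le fun g hg => hJ (s.nJ hq hM.1 l0 fun X hX => by
    refine (cj_of_mem_norm (R_le (fun r _ => ?_) hg)).le.trans (w X hX).2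
    by_cases e : r = q
    · subst e; exact commg_norml _ _
    · exact norms_of_cents (cents_mono (Oc_Oc_cent e M) le_rfl (W_le (hX.2.1.trans l0))))
  obtain ⟨T, t1, t2, t3⟩ := s.loc M hM.1
  have n3 : M ⊓ N(M ⊓ M₂ ⊓ T) ≤ M₂ := fun g hg => n1 g hg.1 fun X hX => by
    have h1 : cj g X ≤ M ⊓ M₂ := (cj_le_of_mem_norm hg.2
      (le_inf (hX.2.1.trans n2) (t3 X hX.1 (hX.2.1.trans l0)))).trans inf_le_left
    rw [heq]
    refine ⟨s.J X hX.1 g, h1, _, mem_W hq (s.pg (s.J X hX.1 g)) (h1.trans inf_le_left), ?_,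
      (W_le (h1.trans inf_le_left)).trans ((le_R hq).trans r1)⟩
    rw [← cj_of_mem hg.1, ← cj_W]
    exact mt cj_eq_bot.1 (w X hX).1
  obtain ⟨P, hP⟩ := exists_syl p T
  have pM := hP.le.trans t1.le
  have eT := (sup_comm _ _).trans (hP.sup_compl t2)
  have e0 : M ⊓ M₂ ⊓ T = Oc {p}ᶜ (Fit M) ⊔ P ⊓ (M ⊓ M₂) := by
    rw [← sup_inf_modl (pM.trans rn.norm) r1, eT, inf_comm]
  have e1 := nil_eq_of_norm_le hP.pi.nil (inf_le_left (b := M ⊓ M₂)) (le_inf inf_le_left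
    (le_inf (inf_le_left.trans pM) (le_trans (le_inf (inf_le_left.trans pM) (by
      rw [e0]; exact norms_sup (inf_le_left.trans (pM.trans rn.norm)) inf_le_right)) n3)))
  rw [e0, e1, eT] at n3
  exact eq_mmax hM hM₂ ((le_inf le_rfl t1.norm).trans n3)

theorem um' (hq : q ≠ p) (hM : IsCoatom M) (hM₁ : IsCoatom M₁) (h : (Sd D q (M ⊓ M₁)).Nonempty) :
    M = M₁ := by
  induction hI : Sd D q (M ⊓ M₁) using (wellFounded_gt (α := Set (Subgroup G))).induction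
    generalizing M M₁ with | _ I ih => ?_
  subst hI
  obtain ⟨X, hX⟩ := h
  have j1 : Jq D q (M ⊓ M₁) ≤ Oc {q} M := sSup_le fun W ⟨X, hX, h1, m, _, h2⟩ =>
    s.le_Oc' hq hM.1 (gn_of_mem hX) (h1.trans inf_le_left) m (h2.trans inf_le_left)
  have w := s.W_le_inf hq hM hM₁ hX
  obtain ⟨M₂, hM₂, h2⟩ := mmax_exists (s.nt ((Oc_pi _ _).of_le j1) (ne_bot_mono w.2 w.1))
  refine (s.um_step hq hM hM₁ hM₂ h2 fun h => ih _ h hM hM₂ ⟨X, h.le hX⟩ rfl).trans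
    (s.um_step hq hM₁ hM hM₂ (inf_comm M M₁ ▸ h2) fun h => ?_).symm
  rw [inf_comm] at h
  exact ih _ h hM₁ hM₂ ⟨X, h.le hX⟩ rfl

theorem um (hq : q ≠ p) (hX : X ∈ D) (m : Mem q X W) (w0 : W ≠ ⊥) (hM : IsCoatom M) (h1 : X ≤ M)
    (h2 : W ≤ M) (hH : H ≠ ⊤) (h3 : X ≤ H) (h4 : W ≤ H) : H ≤ M := by
  obtain ⟨M₁, hM₁, h⟩ := mmax_exists hH
  exact s.um' hq hM₁ hM ⟨X, hX, le_inf (h3.trans h) h1, W, m, w0, le_inf (h4.trans h) h2⟩ ▸ h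

theorem norm_le (hq : q ≠ p) (hX : X ∈ D) (hM : IsCoatom M) (hXM : X ≤ M) (h0 : ⁅Oc {q} M, X⁆ ≠ ⊥) :
    N(X) ≤ M :=
  have u := s.unM hq hX hM hXM h0
  u.norm.trans (s.um hq hX u.mem h0 hM hXM ((W_le hXM).trans (Oc_le _ _)) (s.nt u.mem.pg h0)
    u.mem.norm le_normalizer)

end S
end H0.F2
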