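/-
S3817, part 3: the geometry of lines; the configuration does not exist.
-/
import Cfsg.Agent.H0.FF2
import Cfsg.Agent.H3.Frobenius

set_option autoImplicit false
set_option linter.unusedSectionVars false

open Cfsg Subgroup
open scoped Pointwise commutatorElement
namespace H0.F2
open H19
open H1 (cP mem_cP cP_le cP_le_comm cP_le_self cP_norm comm_le_iSup_cP cD_le)

universe u

variable {G : Type u} [Group G] [Finite G] {p q r : ℕ} {D : Set (Subgroup G)}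
  {A B E F H K L M M₁ M₂ P Q R T U V W X X₁ X₂ X₃ Y Z : Subgroup G} {a b c g h w x y : G}

/-- `M` is a line through `X` -/
structure Line (p : ℕ) (M X : Subgroup G) : Prop where
  max : IsCoatom M
  le : X ≤ M
  ex : ∃ q, q ≠ p ∧ ⁅Oc {q} M, X⁆ ≠ ⊥

theorem cent_of_cP (h0 : cP X h = ⊥) : h ∈ C(X) := mem_cent.2 fun y hy => by
  have : h⁻¹ * (y * h * y⁻¹) = 1 := mem_bot.1 (h0 ▸ mem_cP hy)
  rw [inv_mul_eq_one, eq_mul_inv_iff_mul_eq] at this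
  exact this.symm

theorem not_pg (hq : q ≠ p) (hF : PG q F) (hn : X ≤ N(F)) (hw : w ∈ F) (h : w ∉ C(X)) :
    ¬ PG p (X ⊔ cj w X) := fun hp => h (by
  have h1 := cP_le_sup X w⁻¹
  rw [inv_inv, sup_comm] at h1
  simpa using inv_mem (cent_of_cP ((hp.of_le h1).eq_bot
    ((hF.of_le (cP_le_self hn (inv_mem hw))).sing_ne hq))))

theorem diag (hX : El p 1 X E) (hZ : El p 1 Z E) (hc : Z ≤ C(X)) {z : G} (hz : z ∈ Z) {e : Subgroup G}
    (he : El p 1 e (X ⊔ Z)) (h1 : e ≠ X) : ∃ x ∈ X, x * z ∈ e := by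
  obtain ⟨u, -, -, rfl⟩ := he.exists_gen
  obtain ⟨x, hx, y, hy, rfl⟩ := (mem_sup_of_norm (norms_of_cents hc)).1 (he.le (mem_zpowers u))
  have y1 : y ≠ 1 := by
    rintro rfl; exact h1 (he.eq_of_le hX (zpowers_le.2 (by simpa using hx)))
  rw [← eq_zpowers_of_prime hZ.prime_card hy y1] at hz
  obtain ⟨k, rfl⟩ := hz
  refine ⟨x ^ k, zpow_mem hx k, k, ?_⟩
  exact Commute.mul_zpow (mem_cent.1 (hc hy) x hx) k

namespace S
variable (s : S p D)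
include s

theorem op (hq : q ≠ p) (hX : X ∈ D) (hM : IsCoatom M) (hXM : X ≤ M) (h0 : ⁅Oc {q} M, X⁆ ≠ ⊥)
    (hY : Y ∈ D) (hYM : Y ≤ M) : ⁅Oc {q} M, Y⁆ ≠ ⊥ := fun h => by
  obtain ⟨g, rfl⟩ := s.tr X hX Y hY
  have h1 : ⁅Oc {q} (cj g M), cj g X⁆ ≠ ⊥ := by rw [← cj_W]; exact mt cj_eq_bot.1 h0
  have h2 := s.norm_le hq hY (coatom_J hM g) (cj_mono g hXM) h1
  have h3 := commg_eq_bot.1 h
  have n1 := (cj_mono g hXM).trans (Oc_norm {q} _)
  have n2 : cj g X ≤ N(Oc {q} (cj g M) ⊓ C(Oc {q} M)) :=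
    norms_inf n1 (norms_cent (hYM.trans (Oc_norm _ _)))
  refine h1 (commg_eq_bot.2 (cents_symm (PxQ (Oc_pi _ _) (Oc_pi {q} M) ((s.pg hY).sing_ne hq.symm) h3
    ((norms_of_cents h3).trans (h2.trans (Oc_norm _ _))) n1 (commg_eq_bot.1 (H19.eq_bot_mono ?_ h)))))
  exact s.le_W hq hM.1 (gn_of_mem hY) hYM (mem_comm hq ((Oc_pi _ _).infl _) (s.pg hY) n2)
    ((commg_le_left n2).trans (inf_le_right.trans ((cent_le_norm _).trans
      (s.norm_Oc hM (ne_bot_mono (W_le hXM) h0)).le)))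

theorem line_of (hX : X ∈ D) (l : Line p M X) (hY : Y ∈ D) (h : Y ≤ M) : Line p M Y :=
  have ⟨q, hq, h0⟩ := l.ex
  ⟨l.max, h, q, hq, s.op hq hX l.max l.le h0 hY h⟩

theorem line_norm (hX : X ∈ D) (l : Line p M X) : N(X) ≤ M :=
  have ⟨_, hq, h0⟩ := l.ex
  s.norm_le hq hX l.max l.le h0

theorem sup_ne (hX : X ∈ D) (hY : Y ∈ D) : X ⊔ Y ≠ ⊤ := by
  obtain ⟨g, rfl⟩ := s.tr X hX Y hY
  exact ne_top_mono (sup_le le_sup_left (cj_le_of_mem (mem_sup_right (mem_zpowers g)) le_sup_left))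
    (s.two X hX g)

theorem exists_line (hX : X ∈ D) (hY : Y ∈ D) (h : ¬ PG p (X ⊔ Y)) :
    ∃ M, Line p M X ∧ Line p M Y ∧ ∀ H, H ≠ ⊤ → X ≤ H → Y ≤ H → H ≤ M := by
  have h0 := s.sup_ne hX hY
  obtain ⟨M, hM, hle⟩ := mmax_exists h0
  obtain ⟨q, hq, Z, hZ, z1, z2⟩ : ∃ q, q ≠ p ∧ ∃ Z ∈ D, Z ≤ X ⊔ Y ∧ ⁅Oc {q} (X ⊔ Y), Z⁆ ≠ ⊥ := by
    by_contra! hc
    have r1 : Oc {p}ᶜ (Fit (X ⊔ Y)) ≤ C(X ⊔ Y) := R_le fun r hr => cents_sup
      (commg_eq_bot.1 (hc r hr X hX le_sup_left)) (commg_eq_bot.1 (hc r hr Y hY le_sup_right))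
    obtain ⟨T, t1, t2, t3⟩ := s.loc _ h0
    obtain ⟨P, hP, h1⟩ := (s.pg hX).exists_syl (t3 X hX le_sup_left)
    refine h (hP.pi.of_le (sup_le h1 (hP.le_of_normal ((hP.sup_compl t2).ge.trans (sup_le le_normalizer
      (norms_of_cents (r1.trans (cent_mono (hP.le.trans t1.le)))))) (t3 Y hY le_sup_right) (s.pg hY))))
  have m := mem_W (q := q) hq (s.pg hZ) z1
  have w1 := (W_le (q := q) z1).trans (Oc_le _ _)
  have l : Line p M Z := ⟨hM, z1.trans hle, q, hq, ne_bot_mono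
    (s.le_W hq hM.1 (gn_of_mem hZ) (z1.trans hle) m (w1.trans hle)) z2⟩
  exact ⟨M, s.line_of hZ l hX (le_sup_left.trans hle), s.line_of hZ l hY (le_sup_right.trans hle),
    fun H hH h1 h2 => s.um hq hZ m z2 hM l.le (w1.trans hle) hH (z1.trans (sup_le h1 h2))
      (w1.trans (sup_le h1 h2))⟩

theorem pick (hq : q ≠ p) (hX : X ∈ D) (hM : IsCoatom M) (h0 : ⁅Oc {q} M, X⁆ ≠ ⊥) (hE : El p 2 E M)
    (hXE : X ≤ E) : ∃ e, El p 1 e E ∧ (¬ Oc {q} M ⊓ C(e) ≤ C(X)) ∧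
      ∀ H, H ≠ ⊤ → C(e) ≤ H → H ≤ M := by
  obtain ⟨e, he, h1⟩ : ∃ e, El p 1 e E ∧ ¬ Oc {q} M ⊓ C(e) ≤ C(X) := by
    by_contra! hc
    exact h0 (commg_eq_bot.2 (hE.le_of_cent_le (hE.le.trans (Oc_norm _ _)) ((Oc_pi _ _).sing_ne hq) hc))
  have x1 : X ≤ C(e) := cents_of_comm hE.comm hXE he.le
  have n1 : X ≤ N(Oc {q} M ⊓ C(e)) := norms_inf (hXE.trans (hE.le.trans (Oc_norm _ _))) (norms_of_le x1)
  exact ⟨e, he, h1, fun H hH h2 => s.um hq hX (mem_comm hq ((Oc_pi _ _).infl _) (s.pg hX) n1)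
    (mt commg_eq_bot.1 h1) hM (hXE.trans hE.le) ((commg_le_left n1).trans (inf_le_left.trans (Oc_le _ _)))
    hH (x1.trans h2) ((commg_le_left n1).trans (inf_le_right.trans h2))⟩

theorem pl (hX : X ∈ D) (l : Line p M X) (hP : PG p P) (hle : X ≤ P) : P ≤ M := by
  by_contra hn
  obtain ⟨q, hq, h0⟩ := l.ex
  obtain ⟨t, ⟨t1, t2⟩, t3⟩ := SetLike.exists_of_lt (hP.lt_norm (inf_lt_left.2 hn))
  have t4 : t ∉ M := fun h => t3 ⟨t1, h⟩
  have nM : N(M) ≤ M := (norm_le_norm_Oc {q} M).trans (s.norm_Oc l.max (ne_bot_mono (W_le l.le) h0)).le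
  obtain ⟨Z, hZ⟩ := (hP.infl C(P)).exists_el1 (hP.center_ne_bot (ne_bot_mono hle (s.el hX le_rfl).ne_bot))
  have z1 : Z ≤ C(X) := hZ.le.trans (inf_le_right.trans (cent_mono hle))
  have cM := (cent_le_norm X).trans (s.line_norm hX l)
  have z2 : X ≠ Z := by
    rintro rfl; exact hn ((cents_symm (hZ.le.trans inf_le_right)).trans cM)
  have x0 : X ≤ P ⊓ M := le_inf hle l.le
  have hE : El p 2 (X ⊔ Z) (P ⊓ M) := (s.el hX x0).sup2
    (hZ.of_le (le_inf (hZ.le.trans inf_le_left) (z1.trans cM))) (cents_symm z1) z2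
  obtain ⟨z, z3, -, hz⟩ := hZ.exists_gen
  have hz' : z ∈ Z := hz ▸ mem_zpowers z
  have key : ∀ i : Fin p, ∃ x : X, x ≠ 1 ∧ ∃ e, El p 1 e (X ⊔ Z) ∧ x * z ∈ e ∧
      ∀ H, H ≠ ⊤ → C(e) ≤ H → H ≤ cj (t ^ (i : ℕ)) M := fun i => by
    have u1 := pow_mem t2 i
    have u2 : P ⊓ M ≤ cj (t ^ (i : ℕ)) M := (cj_of_mem_norm u1).ge.trans (cj_mono _ inf_le_right)
    have u3 := s.op hq hX l.max l.le h0 (s.J X hX (t ^ (i : ℕ))⁻¹)
      ((cj_le_of_mem_norm (inv_mem u1) x0).trans inf_le_right)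
    obtain ⟨e, he, e1, e2⟩ := s.pick hq hX (coatom_J l.max (t ^ (i : ℕ)))
      (by rw [← cj_cj_inv (t ^ (i : ℕ)) X, ← cj_W]; exact mt cj_eq_bot.1 u3) (hE.mono u2) le_sup_left
    obtain ⟨x, hx, h1⟩ := diag (s.el hX le_top) hZ.top z1 hz' he (by rintro rfl; exact e1 inf_le_right)
    refine ⟨⟨x, hx⟩, fun h => t4 ?_, e, he, h1, e2⟩
    rw [show x = 1 from congrArg Subtype.val h, one_mul] at h1
    rw [← hZ.eq_of_le he (hz.ge.trans (zpowers_le.2 h1))] at e2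
    have := e2 _ (s.ct hZ.pg hZ.ne_bot) le_rfl (cents_symm (hZ.le.trans inf_le_right) t1)
    rwa [mem_cj, mul_assoc, ← pow_succ', pow_succ, inv_mul_cancel_left] at this
  choose f f1 e he f2 f3 using key
  have lt : ∀ i j : Fin p, i < j → f i ≠ f j := fun i j hij h => by
    have e1 : e i = e j := (he i).eq_of_inf_ne_bot (he j) (ne_bot_of_mem ⟨f2 i, h ▸ f2 j⟩ fun h1 =>
      z2 (hZ.eq_of_le (s.el hX le_rfl) (hz.ge.trans (zpowers_le.2 (by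
        rw [← inv_eq_of_mul_eq_one_right h1]; exact inv_mem (f i).2)))).symm)
    have e2 := eq_mmax (coatom_J l.max _) (coatom_J l.max _)
      (f3 j _ (coatom_J l.max _).1 (e1 ▸ f3 i _ (s.ct (he i).pg (he i).ne_bot) le_rfl))
    obtain ⟨k, hk⟩ := Nat.exists_eq_add_of_lt (show (i : ℕ) < j from hij)
    rw [hk, add_assoc, pow_add, cj_mul, cj_inj] at e2
    refine t4 (zpowers_le.2 (nM (mem_norm_iff_cj.2 e2.symm)) (mem_zpowers_pow_iff.2 ?_))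
    exact (PiN.of_not_dvd (Nat.not_dvd_of_pos_of_lt k.succ_pos (by have := j.2; omega))).coprime'
      (hP.elt t1)
  have inj : Function.Injective f := fun i j h => by
    rcases lt_trichotomy i j with h1 | h1 | h1
    · exact absurd h (lt i j h1)
    · exact h1
    · exact absurd h.symm (lt j i h1)
  obtain ⟨i, hi⟩ := (inj.bijective_of_nat_card_le (by simp [s.card X hX])).2 1
  exact f1 i hi

theorem two_lines (hX : X ∈ D) (l : Line p M X) : ∃ M', Line p M' X ∧ M' ≠ M := by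
  by_contra! hc
  refine l.max.1 (s.gen M fun Y hY => ?_)
  by_cases h : PG p (X ⊔ Y)
  · exact le_sup_right.trans (s.pl hX l h le_sup_left)
  · obtain ⟨M', l1, l2, -⟩ := s.exists_line hX hY h
    exact hc M' l1 ▸ l2.le

theorem t0 (h1 : X₁ ∈ D) (h2 : X₂ ∈ D) (h3 : X₃ ∈ D) (h : ¬ PG p (X₁ ⊔ X₂)) (hM : IsCoatom M)
    (l1 : X₁ ≤ M) (l2 : X₂ ≤ M) (l3 : ¬ X₃ ≤ M) (g1 : g ∈ N(X₁)) (g2 : g ∈ N(X₂)) :
    PG p (X₃ ⊔ cj g X₃) := by
  obtain ⟨M', a1, a2, a3⟩ := s.exists_line h1 h2 h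
  obtain rfl := eq_mmax hM a1.max (a3 M hM.1 l1 l2)
  obtain ⟨N₁, b1, b2, -⟩ := s.exists_line h1 h3 fun h => l3 (le_sup_right.trans (s.pl h1 a1 h le_sup_left))
  obtain ⟨N₂, c1, c2, -⟩ := s.exists_line h2 h3 fun h => l3 (le_sup_right.trans (s.pl h2 a2 h le_sup_left))
  by_contra hn
  obtain ⟨N₃, d1, -, d3⟩ := s.exists_line h3 (s.J _ h3 g) hn
  obtain rfl := eq_mmax b1.max d1.max (d3 _ b1.max.1 b2.le (cj_le_of_mem (s.line_norm h1 b1 g1) b2.le))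
  obtain rfl := eq_mmax c1.max d1.max (d3 _ c1.max.1 c2.le (cj_le_of_mem (s.line_norm h2 c1 g2) c2.le))
  exact l3 (b2.le.trans (a3 _ b1.max.1 b1.le c1.le))

theorem exists_np (hX : X ∈ D) : ∃ g, ¬ PG p (X ⊔ cj g X) := by
  by_contra! hc
  exact s.nt (Oc_pi {p} ⊤) (ne_bot_mono (baer le_top fun g _ => hc g) (s.el hX le_rfl).ne_bot)
    (top_le_iff.1 (Oc_norm _ _))

theorem estep (hX : X ∈ D) (hZ : El p 1 Z C(X)) : Z = X := by
  by_contra hne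
  have pX := s.pg hX
  obtain ⟨g, hg⟩ := s.exists_np hX
  obtain ⟨M₁, l1, -, -⟩ := s.exists_line hX (s.J X hX g) hg
  obtain ⟨M₂, l2, h12⟩ := s.two_lines hX l1
  have c1 := (cent_le_norm X).trans (s.line_norm hX l1)
  have c2 := (cent_le_norm X).trans (s.line_norm hX l2)
  have hE : El p 2 (X ⊔ Z) C(X) := (s.el hX (s.ab hX)).sup2 hZ (cents_symm hZ.le) (Ne.symm hne)
  obtain ⟨q, hq, q0⟩ := l1.ex
  obtain ⟨r, hr, r0⟩ := l2.ex
  obtain ⟨e, he, e1, e2⟩ := s.pick hq hX l1.max q0 (hE.mono c1) le_sup_left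
  obtain ⟨w, ⟨w1, w2⟩, w3⟩ := SetLike.not_le_iff_exists.1 e1
  have e3 : e ≤ C(X) := he.le.trans hE.le
  have e4 : e ≤ C(cj w X) := by rw [← cj_cent, ← cj_of_mem_cent w2]; exact cj_mono w e3
  have n2 : X ≤ N(Oc {r} M₂) := l2.le.trans (Oc_norm _ _)
  have key : ∀ v ∈ Oc {r} M₂, ∀ g ∈ e, g ∈ N(cj v X) := fun v hv g hg => by
    by_cases h : v ∈ C(X)
    · rw [cj_of_mem_cent h]; exact cent_le_norm _ (e3 hg)
    have x3 : cj v X ≤ Oc {r} M₂ ⊔ X := cj_le_of_mem (mem_sup_left hv) le_sup_right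
    have h1 := s.t0 hX (s.J X hX w) (s.J X hX v) (not_pg hq (Oc_pi _ _) (l1.le.trans (Oc_norm _ _)) w1 w3)
      l1.max l1.le (cj_le_of_mem (Oc_le _ _ w1) l1.le) (fun h1 => by
        obtain ⟨M, a1, -, a3⟩ := s.exists_line hX (s.J X hX v) (not_pg hr (Oc_pi _ _) n2 hv h)
        exact h12 ((eq_mmax l2.max a1.max (a3 _ l2.max.1 l2.le (cj_le_of_mem (Oc_le _ _ hv) l2.le))).trans
          (eq_mmax l1.max a1.max (a3 _ l1.max.1 l1.le h1)).symm))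
      (cent_le_norm _ (e3 hg)) (cent_le_norm _ (e4 hg))
    have h2 := (card_dvd (sup_le x3 (cj_le_of_mem_norm (norms_sup (A := C(X)) (c2.trans (Oc_norm _ _))
      (cent_le_norm _) (e3 hg)) x3))).trans (card_sup_dvd n2)
    rw [mul_comm] at h2
    have h3 := Nat.le_of_dvd (card_pos _) (h1.dvd_of_dvd_mul ((Oc_pi _ _).sing_ne hr) h2)
    refine mem_norm_of_cj_le (le_sup_right.trans (eq_of_le_of_card_eq le_sup_left
      (le_antisymm (card_le le_sup_left) ?_)).ge)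
    rwa [s.card _ (s.J X hX v), ← s.card X hX]
  have k2 : ⁅e, Oc {r} M₂⁆ ≤ C(X) := by
    refine le_trans (le_inf (commg_le_right ((e3.trans c2).trans (Oc_norm _ _)))
      (commutator_le.2 fun g hg v hv => ?_)) (((Oc_pi {r} M₂).infl N(X)).cents_of_norms
        (pX.sing_ne hr.symm) (norms_inf n2 (norms_of_le le_normalizer)) inf_le_right)
    have h2 := key v⁻¹ (inv_mem hv) g⁻¹ (inv_mem hg)
    rw [← cj_norm, mem_cj_inv] at h2
    rw [commutatorElement_def, mul_assoc, mul_assoc, ← mul_assoc v]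
    exact mul_mem (cent_le_norm _ (e3 hg)) h2
  exact h12 (eq_mmax l2.max l1.max (e2 _ l2.max.1 (s.um hr hX (mem_W hr pX l2.le) r0 l2.max l2.le
    ((W_le l2.le).trans (Oc_le _ _)) (s.ct he.pg he.ne_bot) (cents_symm e3) (cents_symm (three' e3 k2)))))

theorem np (hX : X ∈ D) (hY : Y ∈ D) (h : X ≠ Y) : ¬ PG p (X ⊔ Y) := fun hP => by
  obtain ⟨Z, hZ⟩ := (hP.infl C(X ⊔ Y)).exists_el1
    (hP.center_ne_bot (ne_bot_mono le_sup_left (s.el hX le_rfl).ne_bot))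
  exact h ((s.estep hX (hZ.mono (inf_le_right.trans (cent_mono le_sup_left)))).symm.trans
    (s.estep hY (hZ.mono (inf_le_right.trans (cent_mono le_sup_right)))))

theorem fix (h1 : X₁ ∈ D) (h2 : X₂ ∈ D) (h3 : X₃ ∈ D) (h : X₁ ≠ X₂) (hM : IsCoatom M)
    (l1 : X₁ ≤ M) (l2 : X₂ ≤ M) (l3 : ¬ X₃ ≤ M) (g1 : g ∈ N(X₁)) (g2 : g ∈ N(X₂)) : g ∈ N(X₃) := by
  by_contra hn
  exact s.np h3 (s.J _ h3 g) (fun e => hn (mem_norm_iff_cj.2 e.symm))
    (s.t0 h1 h2 h3 (s.np h1 h2 h) hM l1 l2 l3 g1 g2)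

theorem fix_all (h1 : X₁ ∈ D) (h2 : X₂ ∈ D) (h : X₁ ≠ X₂) (g1 : g ∈ N(X₁)) (g2 : g ∈ N(X₂)) :
    ∀ X ∈ D, g ∈ N(X) := fun X hX => by
  obtain ⟨M, hM, hle⟩ := mmax_exists (s.sup_ne h1 h2)
  have f := fun X hX h3 => s.fix (X₃ := X) h1 h2 hX h hM (le_sup_left.trans hle) (le_sup_right.trans hle)
    h3 g1 g2
  by_cases h3 : X ≤ M
  swap
  · exact f X hX h3
  by_cases h4 : X₁ = X
  · exact h4 ▸ g1
  obtain ⟨Y, hY, h5⟩ : ∃ Y ∈ D, ¬ Y ≤ M := by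
    by_contra! hc; exact hM.1 (s.gen M hc)
  obtain ⟨M', hM', hle'⟩ := mmax_exists (s.sup_ne h1 hY)
  refine s.fix h1 hY hX (fun e => h5 (e ▸ le_sup_left.trans hle)) hM' (le_sup_left.trans hle')
    (le_sup_right.trans hle') (fun h6 => h5 ?_) g1 (f Y hY h5)
  obtain ⟨M₀, a1, -, a3⟩ := s.exists_line h1 hX (s.np h1 hX h4)
  rw [eq_mmax hM a1.max (a3 _ hM.1 (le_sup_left.trans hle) h3)]
  exact (le_sup_right.trans hle').trans (a3 _ hM'.1 (le_sup_left.trans hle') h6)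

theorem triv (h : ∀ X ∈ D, g ∈ N(X)) : g = 1 := by
  have h1 : zpowers g ≤ C((⊤ : Subgroup G)) := cents_symm (s.gen C(zpowers g) fun X hX => by
    rw [cent_zpowers, le_cent1_iff, mem_cent]
    intro x hx
    by_contra hn
    obtain ⟨y, hy⟩ := s.exists_np hX
    refine hy ((s.pg hX).sup' (s.pg (s.J X hX y)) ?_)
    refine (eq_zpowers_of_prime (s.prime hX) (mul_mem hx (inv_mem (conj_mem_of_norm (h X hX) hx)))
      (fun e => hn (by rw [mul_inv_eq_one, eq_mul_inv_iff_mul_eq] at e; exact e))).ge.trans ?_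
    have h2 := h _ (s.J _ (s.J X hX y) x⁻¹)
    rw [← cj_norm, mem_cj_inv] at h2
    have h3 := mul_mem h2 (inv_mem (h _ (s.J X hX y)))
    refine zpowers_le.2 ?_
    have e : x * (g * x * g⁻¹)⁻¹ = x * g * x⁻¹ * g⁻¹ := by group
    rwa [e]).ge
  by_contra hn
  exact s.fit _ (nil_of_cyc (cyc_zpowers g)) (ne_bot_of_mem (mem_zpowers g) hn)
    (top_le_iff.1 (norms_of_cents (cents_symm h1)))

theorem false : False := by
  obtain ⟨X, hX⟩ := s.ne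
  have x0 := (s.el hX le_rfl).ne_bot
  obtain ⟨K, -, k1, -, k2, -, k3⟩ := H3.exists_frobeniusKernel (H := N(X))
    ⟨ne_bot_mono le_normalizer x0, s.nt (s.pg hX) x0, fun g hg => by
      rw [← cj_eq_smul, cj_norm, eq_bot_iff]
      exact fun y hy => s.triv (s.fix_all hX (s.J X hX g) (fun e => hg (mem_norm_iff_cj.2 e.symm))
        hy.1 hy.2)⟩
  exact s.fit K k3 k2 (top_le_iff.1 normalIn_top.norm)

end S
end H0.F2
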