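/-
S3817, part 4: the second Fitting subgroup in the ambient group; the case `F(G) ≠ 1`.
-/
import Cfsg.Agent.H0.FF3

set_option autoImplicit false
set_option linter.unusedSectionVars false

open Cfsg Subgroup
open scoped Pointwise commutatorElement
namespace H0.F2
open H19

universe u

variable {G : Type u} [Group G] [Finite G] {G' : Type u} [Group G'] [Finite G'] {p q r : ℕ}
  {A B E F H K L M P Q R T U V W X Y Z : Subgroup G} {a b c g h w x y : G}

/-- nilpotent-by-nilpotent -/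
def MN (K : Subgroup G) : Prop := ∃ n, Nil (K.lowerCentralSeries n)

/-- `F₂(H)` -/
def F2 (H : Subgroup G) : Subgroup G := sSup {K | K ⊴ H ∧ MN K}

theorem nil_map (h : Nil K) (f : G →* G') : Nil (K.map f) := by
  obtain ⟨n, hn⟩ := (isNilpotent_iff_lowerCentralSeries K).1 h
  exact (isNilpotent_iff_lowerCentralSeries _).2 ⟨n, by rw [← map_lowerCentralSeries, hn, Subgroup.map_bot]⟩

theorem nil_of_map {f : G →* G'} (hf : Function.Injective f) (h : Nil (K.map f)) : Nil K := by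
  obtain ⟨n, hn⟩ := (isNilpotent_iff_lowerCentralSeries _).1 h
  rw [← map_lowerCentralSeries, map_eq_bot_iff_of_injective _ hf] at hn
  exact (isNilpotent_iff_lowerCentralSeries _).2 ⟨n, hn⟩

theorem normal_map (h : K ⊴ H) (f : G →* G') : K.map f ⊴ H.map f :=
  ⟨map_mono h.le, (map_mono h.norm).trans (le_normalizer_map f)⟩

theorem normal_comap {K H : Subgroup G'} (h : K ⊴ H) (f : G →* G') : K.comap f ⊴ H.comap f :=
  ⟨comap_mono h.le, (comap_mono h.norm).trans (le_normalizer_comap f)⟩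

theorem lcs_normal (h : K ⊴ H) (n : ℕ) : K.lowerCentralSeries n ⊴ H := by
  induction n with
  | zero => exact h
  | succ n ih => exact ih.comm h

theorem MN.mono (h : MN L) (hle : K ≤ L) : MN K :=
  h.imp fun n hn => nil_mono hn (lowerCentralSeries_mono n hle)

theorem MN.map (h : MN K) (f : G →* G') : MN (K.map f) :=
  h.imp fun n hn => by rw [← map_lowerCentralSeries]; exact nil_map hn f

theorem MN.of_map {f : G →* G'} (hf : Function.Injective f) (h : MN (K.map f)) : MN K :=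
  h.imp fun n hn => by rw [← map_lowerCentralSeries] at hn; exact nil_of_map hf hn

theorem mn_of_ker (f : G →* G') (h1 : Nil (K.map f)) (h2 : Nil f.ker) : MN K := by
  obtain ⟨n, hn⟩ := (isNilpotent_iff_lowerCentralSeries _).1 h1
  rw [← map_lowerCentralSeries, Subgroup.map_eq_bot_iff] at hn
  exact ⟨n, nil_mono h2 hn⟩

theorem le_F2 (h : K ⊴ H) (m : MN K) : K ≤ F2 H := le_sSup ⟨h, m⟩

theorem F2_le (H : Subgroup G) : F2 H ≤ H := sSup_le fun _ h => h.1.le

/-- the second Fitting subgroup as in the frozen statement -/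
abbrev sF (G : Type u) [Group G] [(fittingSubgroup G).Normal] : Subgroup G :=
  (fittingSubgroup (G ⧸ fittingSubgroup G)).comap (QuotientGroup.mk' (fittingSubgroup G))

theorem mn_sF : MN (sF G) := mn_of_ker (QuotientGroup.mk' (fittingSubgroup G))
  (nil_mono H1.fitting_isNilpotent (map_comap_le _ _))
  (by rw [QuotientGroup.ker_mk']; exact H1.fitting_isNilpotent)

theorem F2_top : F2 ⊤ = sF G := le_antisymm (sSup_le fun K ⟨h, n, hn⟩ => by
  refine map_le_iff_le_comap.1 (H1.le_fitting (h.normal.map _ (QuotientGroup.mk'_surjective _))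
    ((isNilpotent_iff_lowerCentralSeries _).2 ⟨n, ?_⟩))
  rw [← map_lowerCentralSeries, Subgroup.map_eq_bot_iff, QuotientGroup.ker_mk']
  exact H1.le_fitting (lcs_normal h n).normal hn) (le_F2 normalIn_top mn_sF)

theorem map_F2_le (f : G →* G') : (F2 H).map f ≤ F2 (H.map f) :=
  map_le_iff_le_comap.2 (sSup_le fun _ h => map_le_iff_le_comap.1 (le_F2 (normal_map h.1 f) (h.2.map f)))

theorem F2_map {f : G →* G'} (hf : Function.Injective f) : F2 (H.map f) = (F2 H).map f :=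
  le_antisymm (sSup_le fun K h => by
    have e := map_comap_eq_self (h.1.le.trans (map_le_range f H))
    have := normal_comap h.1 f
    rw [comap_map_eq_self_of_injective hf] at this
    exact e.ge.trans (map_mono (le_F2 this (MN.of_map hf (e.symm ▸ h.2))))) (map_F2_le f)

theorem F2_eq (H : Subgroup G) : F2 H = (sF H).map H.subtype := by
  rw [← F2_top, ← F2_map (subtype_injective H), ← MonoidHom.range_eq_map, range_subtype]

theorem F2_mn (H : Subgroup G) : MN (F2 H) := F2_eq H ▸ mn_sF.map _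

theorem cj_F2 (g : G) (H : Subgroup G) : cj g (F2 H) = F2 (cj g H) :=
  (F2_map (MulAut.conj g).injective).symm

theorem norm_F2 (H : Subgroup G) : N(H) ≤ N(F2 H) := norm_le_norm_of_equivariant F2 cj_F2 H

theorem F2_normal (H : Subgroup G) : F2 H ⊴ H := ⟨F2_le H, le_normalizer.trans (norm_F2 H)⟩

theorem F2_inf_le (h : L ≤ H) : F2 H ⊓ L ≤ F2 L :=
  le_F2 ((F2_normal H).inf_le h) ((F2_mn H).mono inf_le_left)

theorem F2_le_F2 (h : K ⊴ H) : F2 K ≤ F2 H :=
  le_F2 ⟨(F2_le K).trans h.le, h.norm.trans (norm_F2 K)⟩ (F2_mn K)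

theorem exT (p : ℕ) (H : Subgroup G) : ∃ T, T ⊴ H ∧ Hall {p}ᶜ (Oc {p}ᶜ (Fit H)) T ∧
    ∀ X, X ≤ F2 H → PG p X → X ≤ T := by
  have n1 := (F2_le H).trans (Fit_norm H)
  have h1 : Nil (quo (Fit H) (F2 H)) := by
    obtain ⟨n, hn⟩ := F2_mn H
    have e : ∀ n, quo (Fit H) ((F2 H).lowerCentralSeries n) = (quo (Fit H) (F2 H)).lowerCentralSeries n :=
      fun n => by
        induction n with
        | zero => rfl
        | succ n ih => rw [Subgroup.lowerCentralSeries_succ, Subgroup.lowerCentralSeries_succ, ← ih,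
            quo_comm ((lowerCentralSeries_le_self _ n).trans n1) n1]
    exact (isNilpotent_iff_lowerCentralSeries _).2
      ⟨n, e n ▸ quo_eq_bot (le_Fit (lcs_normal (F2_normal H) n) hn)⟩
  refine ⟨qpre (Fit H) (Oc {p} (quo (Fit H) (F2 H))),
    qpre_normal (Fit_normal H) (((F2_normal H).quo _).Oc _),
    (nil_Oc_hall (Fit_nil H) _).of_idx (le_qpre _) ?_, fun X h1' h2 =>
      (quo_le_iff (h1'.trans n1)).1 (nil_le_Oc h1 (quo_mono _ h1') (h2.quo _))⟩
  rw [compl_compl, ← card_quo (qpre_le_norm _), quo_qpre]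
  exact Oc_pi _ _

/-- all proper quotients have a nilpotent normal `p`-complement -/
def QH (p : ℕ) (G : Type u) [Group G] : Prop :=
  ∀ (N : Subgroup G) [N.Normal], N ≠ ⊥ → Hall {p}ᶜ (Oc {p}ᶜ (Fit ⊤)) (⊤ : Subgroup (G ⧸ N))

theorem map_top' (N : Subgroup G) [N.Normal] : (⊤ : Subgroup G).map (QuotientGroup.mk' N) = ⊤ :=
  map_top_of_surjective _ (QuotientGroup.mk'_surjective N)

theorem QH.comm (h : QH p G) (h1 : U ⊴ ⊤) (h0 : U ≠ ⊥) (hV : V ⊴ ⊤) (pV : PG r V) (hQ : PG q Q)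
    (hq : q ≠ p) (hqr : q ≠ r) : ⁅V, Q⁆ ≤ U := by
  have := h1.normal
  rw [← QuotientGroup.ker_mk' U, ← Subgroup.map_eq_bot_iff, Subgroup.map_commutator, commg_eq_bot]
  have p1 : PG r (V.map (QuotientGroup.mk' U)) := pV.dvd (card_map_dvd _ _)
  have p2 : PG q (Q.map (QuotientGroup.mk' U)) := hQ.dvd (card_map_dvd _ _)
  exact nil_cents_pi (Fit_nil ⊤) (le_Fit (map_top' U ▸ normal_map hV _) p1.nil)
    (((h U h0).le_of_normal (R_normal p ⊤).norm le_top (p2.sing_ne hq)).trans (Oc_le _ _)) p1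
    (p2.sing_ne hqr)

theorem QH.exQ (h : QH p G) (hm : ¬ MN (⊤ : Subgroup G)) (hV : V ⊴ ⊤) (v0 : V ≠ ⊥) (pV : PG r V) :
    ∃ q Q, q ≠ p ∧ q ≠ r ∧ Syl q Q ⊤ ∧ V ⊔ Q ⊴ ⊤ ∧ ¬ Q ≤ C(V) := by
  have := hV.normal
  have h1 := h V v0
  have n1 := R_normal p (⊤ : Subgroup (G ⧸ V))
  have n2 : Nil (Oc {p}ᶜ (Fit (⊤ : Subgroup (G ⧸ V)))) := nil_mono (Fit_nil _) (Oc_le _ _)
  generalize Oc {p}ᶜ (Fit (⊤ : Subgroup (G ⧸ V))) = R' at *
  have e := map_comap_eq_self_of_surjective (QuotientGroup.mk'_surjective V) R'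
  have i1 : PiN {p} ((R'.comap (QuotientGroup.mk' V)).relIndex ⊤) := by
    rw [relIndex_comap, map_top', ← compl_compl ({p} : Set ℕ)]; exact h1.idx
  have nR : R'.comap (QuotientGroup.mk' V) ⊴ ⊤ := normal_comap n1 _
  have vR : V ≤ R'.comap (QuotientGroup.mk' V) := (QuotientGroup.ker_mk' V).ge.trans (ker_le_comap _ _)
  generalize R'.comap (QuotientGroup.mk' V) = R at *
  have key : ∀ q Q, Syl q Q R → V ⊔ Q ⊴ ⊤ := fun q Q hQ => by
    have := normal_comap (n1.Oc {q}) (QuotientGroup.mk' V)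
    rwa [← nil_hall_eq n2 (e ▸ hQ.map _), comap_map_eq, QuotientGroup.ker_mk', comap_top, sup_comm] at this
  by_contra! hc
  have := nR.normal
  refine hm (mn_of_ker (QuotientGroup.mk' R) (PiN.nil (p := p) ?_) ?_)
  · show PiN {p} (Nat.card _)
    rwa [← relIndex_ker, QuotientGroup.ker_mk']
  rw [QuotientGroup.ker_mk']
  refine nil_of_syl_normal fun q Q _ hQ => le_top.trans ?_
  have k := key q Q hQ
  by_cases hqr : q = r
  · subst hqr
    rw [← sup_eq_right.2 (hQ.le_of_norm' vR pV (hV.norms le_top))]; exact k.norm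
  have c1 : Q ≤ C(V) := by
    by_cases hq : q = p
    · subst hq
      have : Q.map (QuotientGroup.mk' V) = ⊥ :=
        (hQ.pi.dvd (card_map_dvd _ _)).eq_bot (h1.pi.of_le (e ▸ map_mono hQ.le))
      rw [Subgroup.map_eq_bot_iff, QuotientGroup.ker_mk'] at this
      rw [hQ.pi.eq_bot ((pV.of_le this).sing_ne (Ne.symm hqr))]; exact bot_le
    · exact hc q Q hq hqr (hQ.of_idx le_top (i1.sing_ne (Ne.symm hq))) k
  rw [(hQ.of_le le_sup_right (sup_le vR hQ.le)).eq_Oc
    (sup_le (norms_of_cents (cents_symm c1)) le_normalizer)]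
  exact (k.Oc _).norm

theorem red (hQ : QH p G) (hm : ¬ MN (⊤ : Subgroup G)) (hV : MinNormal V ⊤) (ab : Ab V) (pV : PG r V)
    (pa : PiE {p} a) (gen : ∀ H : Subgroup G, H ⊴ ⊤ → a ∈ H → H = ⊤)
    (two : ∀ y, zpowers a ⊔ zpowers y ≠ ⊤) (loc : ∀ H, H ≠ ⊤ → a ∈ H → a ∈ F2 H) : a ∈ V := by
  have nV : V ⊴ ⊤ := ⟨le_top, hV.norm⟩
  have nn : ∀ H : Subgroup G, H ≤ N(V) := fun H => le_top.trans hV.norm
  have cV := comm_iff_le_cent.1 ab
  obtain ⟨q, Q, hq, hqr, sQ, nQ, c0⟩ := hQ.exQ hm nV hV.ne pV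
  have pV' : PiG {q}ᶜ V := pV.sing_ne hqr.symm
  have vq : V ⊓ Q = ⊥ := pV'.inf_eq_bot' sQ.pi
  have sQ' : Syl q Q (V ⊔ Q) := sQ.of_le le_sup_right le_top
  have fr : V ⊔ N(Q) = ⊤ := top_le_iff.1 ((sQ'.frattini nQ).ge.trans
    (sup_le (sup_le_sup_left le_normalizer _) (inf_le_right.trans le_sup_right)))
  have mini : ∀ H, V ⊔ H = ⊤ → H ≠ ⊤ → V ⊓ H = ⊥ := fun H e h => (hV.min _ inf_le_left (e.ge.trans
    (sup_le (norms_of_comm ab le_rfl inf_le_left) (norms_inf (nn _) le_normalizer)))).resolve_right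
      fun h1 => h (by rw [← e, sup_eq_right.2 (inf_eq_left.1 h1)])
  have vM : V ⊓ N(Q) = ⊥ := mini _ fr fun h =>
    c0 (cents_symm (cents_of_norms_disjoint (nn _) (h ▸ le_top) vq))
  have cN : C(V) ≤ V := by
    have h1 : N(Q) ⊓ C(V) = ⊥ := by
      by_contra h
      have := le_inf (commg_le_left (nn Q)) (hQ.comm ⟨le_top, fr.ge.trans (sup_le
        (norms_of_cents (cents_symm inf_le_right)) (norms_inf le_normalizer (norms_cent (nn _))))⟩
        h nV pV sQ.pi hq hqr)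
      exact c0 (cents_symm (commg_eq_bot.1 (H19.eq_bot_mono (this.trans
        (inf_le_inf_left _ inf_le_left)) vM)))
    have := sup_inf_modl (nn N(Q)) cV
    rw [fr, top_inf_eq, h1, sup_bot_eq] at this
    exact this.le
  obtain ⟨y, hy, ey⟩ : ∃ y ∈ Q, V ⊔ (zpowers a ⊔ zpowers y) = ⊤ := by
    by_contra! hc
    have h1 : ∀ y ∈ Q, y * a * y⁻¹ * a⁻¹ ∈ V := fun y hy => by
      have aH : a ∈ V ⊔ (zpowers a ⊔ zpowers y) := mem_sup_right (mem_sup_left (mem_zpowers a))
      have yH : y ∈ V ⊔ (zpowers a ⊔ zpowers y) := mem_sup_right (mem_sup_right (mem_zpowers y))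
      have vH : V ≤ V ⊔ (zpowers a ⊔ zpowers y) := le_sup_left
      have h0 := hc y hy
      generalize V ⊔ (zpowers a ⊔ zpowers y) = H at *
      obtain ⟨T, t1, t2, t3⟩ := exT p H
      have aT := zpowers_le.1 (t3 _ (zpowers_le.2 (loc H h0 aH)) (piG_zpowers.2 pa))
      have o1 : Oc {q} H = ⊥ := (Oc_pi _ _).eq_bot (pV'.of_le ((Oc_cents ⟨vH, nn H⟩ pV').trans cN))
      have o2 : PiG {q}ᶜ (Fit H) := (o1 ▸ Oc_Fit_syl q H).pi'_of_eq_bot
      have o3 : PiG {q}ᶜ T := PiN.of_relIndex' t2.le (o2.of_le (Oc_le _ _))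
        (PiN.sing_ne (by simpa only [compl_compl] using t2.idx) hq.symm)
      refine ((sdprod_sup (nn Q) vq).hall_of_pi pV' sQ.pi.compl_compl).le_of_normal (nn _)
        inf_le_right (o3.infl _) ⟨mul_mem (t1.conj_mem yH aT) (T.inv_mem aT), ?_⟩
      have := mul_mem (mem_sup_right hy) (nQ.conj_mem (mem_top a) (inv_mem (mem_sup_right hy)))
      simpa [mul_assoc] using this
    have := nV.normal
    have h2 := gen ((C((V ⊔ Q).map (QuotientGroup.mk' V))).comap (QuotientGroup.mk' V))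
      (normal_comap ⟨le_top, norms_cent (map_top' V ▸ normal_map nQ _).norm⟩ _) (by
        rw [Subgroup.map_sup, (Subgroup.map_eq_bot_iff _).2 (QuotientGroup.ker_mk' V).ge, bot_sup_eq, mem_comap,
          mem_cent]
        rintro _ ⟨y, hy, rfl⟩
        have := (QuotientGroup.ker_mk' V).ge (h1 y hy)
        rw [MonoidHom.mem_ker, map_mul, map_mul, map_mul, map_inv, map_inv, mul_inv_eq_one,
          mul_inv_eq_iff_eq_mul] at this
        exact this)
    have h3 : ⁅N(Q), Q⁆ ≤ V := by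
      rw [← QuotientGroup.ker_mk' V, ← Subgroup.map_eq_bot_iff, Subgroup.map_commutator, commg_eq_bot]
      exact (map_le_iff_le_comap.2 (h2 ▸ le_top)).trans (cent_mono (map_mono le_sup_right))
    have h4 := H18.Burnside_normal_complement sQ (by
      rw [top_inf_eq, ← commg_eq_bot]
      exact H19.eq_bot_mono (le_inf h3 (commg_le_right le_rfl)) vq)
    rw [gen _ (Oc_normal _ _) (h4.mem_Oc (mem_top a) (pa.sing_ne hq.symm))] at h4
    exact c0 ((sQ.eq_bot h4.pi).le.trans bot_le)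
  have key : ∀ n : V, ∃ m : V, a ∈ cj (m : G) N(Q) ∧ y * n ∈ cj (m : G) N(Q) := fun n => by
    have aH : a ∈ zpowers a ⊔ zpowers (y * n) := mem_sup_left (mem_zpowers a)
    have yH : y * n ∈ zpowers a ⊔ zpowers (y * n) := mem_sup_right (mem_zpowers _)
    have h0 := two (y * n)
    generalize zpowers a ⊔ zpowers (y * n) = H at *
    have e1 : V ⊔ H = ⊤ := top_le_iff.1 (ey.ge.trans (sup_le le_sup_left (sup_le
      (zpowers_le.2 (mem_sup_right aH)) (zpowers_le.2 (by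
        simpa using mul_mem (mem_sup_right yH) (inv_mem (mem_sup_left n.2)))))))
    have e2 := sup_inf_modl (nn H) (le_sup_left (b := Q))
    rw [e1, top_inf_eq] at e2
    have e3 : #(H ⊓ (V ⊔ Q)) = #Q := Nat.eq_of_mul_eq_mul_left (card_pos V) (by
      rw [← card_sup_of_disjoint (nn _) vq, ← card_sup_of_disjoint (nn _)
        (H19.eq_bot_mono (inf_le_inf_left _ inf_le_left) (mini H e1 h0)), ← e2])
    obtain ⟨g, hg, e4⟩ := sQ'.sconj (sQ'.of_card inf_le_right e3)
    obtain ⟨m, hm, t, ht, rfl⟩ := (mem_sup_of_norm (nn Q)).1 hg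
    rw [cj_mul, cj_of_mem ht] at e4
    have h5 : H ≤ cj m N(Q) := by
      rw [cj_norm, e4]; exact norms_inf le_normalizer (nQ.norms le_top)
    exact ⟨⟨m, hm⟩, h5 aH, h5 yH⟩
  choose f f1 f2 using key
  have inj : Function.Injective f := fun n n' e => by
    have h1 := mul_mem (inv_mem (f2 n)) (e ▸ f2 n')
    have h2 : V ⊓ cj (f n : G) N(Q) = ⊥ := by
      rw [← cj_eq_bot (g := (f n : G)⁻¹), cj_inf, cj_inv_cj, cj_of_mem (inv_mem (f n).2), vM]
    have h3 : (n : G)⁻¹ * n' = 1 := mem_bot.1 (h2 ▸ mem_inf.2 ⟨mul_mem (inv_mem n.2) n'.2, by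
      simpa [mul_assoc] using h1⟩)
    exact Subtype.ext (inv_mul_eq_one.1 h3)
  have all : ∀ m : V, a ∈ cj (m : G) N(Q) := fun m => by
    obtain ⟨n, rfl⟩ := Finite.injective_iff_surjective.1 inj m
    exact f1 n
  refine cN (mem_cent.2 fun m hm => ?_)
  have h1 : a ∈ N(Q) := by simpa using all 1
  have h2 : m * a * m⁻¹ * a⁻¹ = 1 := mem_bot.1 (vM ▸ mem_inf.2 ⟨by
    simpa [mul_assoc] using mul_mem hm (nV.conj_mem (mem_top a) (inv_mem hm)),
    mul_mem (mem_cj_inv.1 (all ⟨m, hm⟩⁻¹)) (inv_mem h1)⟩)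
  rwa [mul_inv_eq_one, mul_inv_eq_iff_eq_mul] at h2

end H0.F2
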