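/-
S3817, part 5: the induction.
-/
import Cfsg.Agent.H0.FF4
import Cfsg.Agent.H7.ZStar
import Cfsg.Agent.H20.FT

set_option autoImplicit false
set_option linter.unusedSectionVars false

open Cfsg Subgroup
open scoped Pointwise commutatorElement
namespace H0.F2
open H19

universe u

variable {G : Type u} [Group G] [Finite G] {G' : Type u} [Group G'] [Finite G'] {p : ℕ}
  {H K : Subgroup G} {a g x y : G}

/-- the two-generator hypothesis -/
def Hyp (x : G) : Prop := ∀ y, x ∈ F2 (zpowers x ⊔ zpowers y)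

theorem Hyp.pow (h : Hyp x) (ha : a ∈ zpowers x) : Hyp a := fun y =>
  F2_inf_le (sup_le_sup_right (zpowers_le.2 ha) _)
    ⟨zpowers_le.2 (h y) ha, mem_sup_left (mem_zpowers a)⟩

theorem Hyp.map (h : Hyp x) {f : G →* G'} (hf : Function.Surjective f) : Hyp (f x) := fun y => by
  obtain ⟨y, rfl⟩ := hf y
  have := map_F2_le f (mem_map_of_mem f (h y))
  rwa [Subgroup.map_sup, MonoidHom.map_zpowers, MonoidHom.map_zpowers] at this

theorem Hyp.sub (h : Hyp x) (hx : x ∈ H) : Hyp (⟨x, hx⟩ : H) := fun y => by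
  rw [← mem_map_iff_mem (subtype_injective H), ← F2_map (subtype_injective H), Subgroup.map_sup,
    MonoidHom.map_zpowers, MonoidHom.map_zpowers]
  exact h y

theorem case_bot (hp : p.Prime) (hF : Fit (⊤ : Subgroup G) = ⊥) (ha : orderOf a = p)
    (gen : ∀ H : Subgroup G, H ⊴ ⊤ → a ∈ H → H = ⊤)
    (two : ∀ g y, zpowers (g * a * g⁻¹) ⊔ zpowers y ≠ ⊤)
    (loc : ∀ g H, H ≠ ⊤ → g * a * g⁻¹ ∈ H → g * a * g⁻¹ ∈ F2 H) : False := by
  have fit : ∀ K : Subgroup G, Nil K → K ≠ ⊥ → N(K) ≠ ⊤ := fun K h1 h2 h3 =>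
    h2 (H19.eq_bot_mono (le_Fit ⟨le_top, h3.ge⟩ h1) hF)
  have o : ∀ g, orderOf (g * a * g⁻¹) = p := fun g => (orderOf_conj' g a).trans ha
  refine S.false (p := p) (D := {X | ∃ g, zpowers (g * a * g⁻¹) = X}) ⟨hp, ?_, ?_, ?_,
    ⟨_, 1, rfl⟩, fit, fun H h => ?_, ?_, fun H h => ?_, ?_⟩
  · rintro _ ⟨g, rfl⟩; rw [Nat.card_zpowers, o]
  · rintro _ ⟨g, rfl⟩ k; exact ⟨k * g, by rw [cj_zpowers]; congr 1; group⟩
  · rintro _ ⟨g, rfl⟩ _ ⟨k, rfl⟩; exact ⟨k * g⁻¹, by rw [cj_zpowers]; congr 1; group⟩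
  · exact top_le_iff.1 ((gen H.normalCore normalIn_top fun g => h _ ⟨g, rfl⟩ (mem_zpowers _)).ge.trans
      H.normalCore_le)
  · rintro _ ⟨g, rfl⟩; exact two g
  · obtain ⟨T, t1, t2, t3⟩ := exT p H
    refine ⟨T, t1, t2, ?_⟩
    rintro _ ⟨g, rfl⟩ h1
    exact t3 _ (zpowers_le.2 (loc g H h (h1 (mem_zpowers _)))) (PiN.of_card hp (by rw [Nat.card_zpowers, o]))
  · rintro rfl _ ⟨g, rfl⟩
    have := Fact.mk Nat.prime_two
    have hO : pPrimeCore 2 G = ⊥ := by
      by_contra h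
      have : Sol (pPrimeCore 2 G) := H20.odd_solvable _ (Nat.coprime_two_right.1 H1.pPrimeCore_coprime)
      exact fit _ (Fit_nil _) (Fit_ne_bot this h) (top_le_iff.1 (normalIn_top.Fit).norm)
    by_contra! hc
    have u1 : g * a * g⁻¹ ≠ 1 := fun h => by simpa [h] using o g
    have := H7.zstar_mem_center hO (t := g * a * g⁻¹) ⟨o g, fun k hk => by
      by_contra hn
      have e : k * (g * a * g⁻¹) * k⁻¹ = k * g * a * (k * g)⁻¹ := by group
      rw [e] at hk hn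
      refine hc _ ⟨k * g, rfl⟩ (fun h => hn (eq_of_two (X := zpowers (g * a * g⁻¹))
        (by rw [Nat.card_zpowers, o]) (h ▸ mem_zpowers _) (mem_zpowers _)
        (fun h => by simpa only [h, orderOf_one, OfNat.one_ne_ofNat] using o (k * g)) u1)) ?_
      rw [cent_zpowers, zpowers_le, mem_cent1]; exact hk.eq.symm⟩
    exact fit _ (nil_of_cyc (cyc_zpowers _)) (ne_bot_of_mem (mem_zpowers _) u1) (top_le_iff.1
      (norms_of_cents (by rw [cent_zpowers]; exact fun y _ => mem_cent1.2 (mem_center_iff.1 this y))))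

theorem lt_order (ha : a ∈ zpowers x) (h : orderOf a ≠ orderOf x) : orderOf a < orderOf x :=
  lt_of_le_of_ne (Nat.le_of_dvd (orderOf_pos x) (orderOf_dvd_of_mem_zpowers ha)) h

theorem main (h : Hyp x) : x ∈ F2 ⊤ := by
  induction hn : Nat.card G using Nat.strong_induction_on generalizing G with | _ n ih => ?_
  subst hn
  have sub : ∀ a : G, Hyp a → ∀ H, H ≠ ⊤ → a ∈ H → a ∈ F2 H := fun a h H hH ha => by
    have := ih _ (lt_of_le_of_ne (card_le_card_group H) fun e => hH (eq_top_of_card_eq H e)) (h.sub ha) rfl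
    rw [F2_eq, ← F2_top]; exact mem_map_of_mem H.subtype this
  induction hk : orderOf x using Nat.strong_induction_on generalizing x with | _ k ih2 => ?_
  subst hk
  have sm : ∀ a ∈ zpowers x, orderOf a ≠ orderOf x → a ∈ F2 ⊤ := fun a ha h1 =>
    ih2 _ (lt_order ha h1) (h.pow ha) rfl
  by_contra hx
  obtain ⟨p, hp, hd⟩ := exists_prime_dvd_orderOf (x := x) (by rintro rfl; exact hx (one_mem _))
  have px : PiE {p} x := by
    by_contra hc
    refine hx (constt_mul_compl {p} x ▸ mul_mem (sm _ (constt_mem_zpowers _ _) fun e => hc ?_)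
      (sm _ (constt_mem_zpowers _ _) fun e => ?_))
    · exact (constt_pi {p} x).dvd e.symm.dvd
    · exact (constt_pi {p}ᶜ x).not_dvd hp rfl (e ▸ hd)
  have hc : ∀ g, Hyp (g * x * g⁻¹) := fun g => h.map (f := (MulAut.conj g).toMonoidHom) (MulAut.conj g).surjective
  have gen : ∀ H : Subgroup G, H ⊴ ⊤ → x ∈ H → H = ⊤ := fun H h1 h2 => by
    by_contra h3; exact hx (F2_le_F2 h1 (sub x h H h3 h2))
  have two : ∀ g y, zpowers (g * x * g⁻¹) ⊔ zpowers y ≠ ⊤ := fun g y e => hx (by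
    have := (F2_normal ⊤).conj_mem (mem_top g⁻¹) (e ▸ hc g y)
    simpa [mul_assoc] using this)
  by_cases hF : Fit (⊤ : Subgroup G) = ⊥
  · have h1 : F2 (⊤ : Subgroup G) = ⊥ := by
      obtain ⟨n, hn⟩ := F2_mn (⊤ : Subgroup G)
      exact H19.eq_bot_mono (le_Fit (F2_normal _) ((isNilpotent_iff_lowerCentralSeries _).2
        ⟨n, H19.eq_bot_mono (le_Fit (lcs_normal (F2_normal _) n) hn) hF⟩)) hF
    refine case_bot hp hF (orderOf_of_pow hp (mem_bot.1 (h1 ▸ sm _ (pow_mem (mem_zpowers x) p) ?_))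
      (by rintro rfl; exact hx (one_mem _))) gen two fun g => sub _ (hc g)
    rw [orderOf_pow_of_dvd hp.ne_zero hd]
    exact (Nat.div_lt_self (orderOf_pos x) hp.one_lt).ne
  obtain ⟨V, v1, hV⟩ := H18.minnormal_exists hF (Fit_norm ⊤)
  have nil := nil_mono (Fit_nil _) v1
  obtain ⟨r, hr, ab⟩ := H18.minnormal_abelem hV (sol_of_nil nil)
  refine hx (le_F2 ⟨le_top, hV.norm⟩ ⟨0, nil⟩ (red (p := p) (fun N _ h0 => ?_)
    (fun m => hx (le_F2 (NormalIn.refl _) m (mem_top x))) hV ab.1 (abelem_pg hr ab) px gen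
    (by simpa using two 1) (sub x h)))
  obtain ⟨T, t1, t2, t3⟩ := exT p (⊤ : Subgroup (G ⧸ N))
  have h1 := ih _ (show Nat.card (G ⧸ N) < Nat.card G by
    rw [card_eq_card_quotient_mul_card_subgroup N]
    exact lt_mul_of_one_lt_right Nat.card_pos (ne_bot_iff_one_lt_card.1 h0))
    (h.map (QuotientGroup.mk'_surjective N)) rfl
  have h2 := gen _ (normal_comap t1 (QuotientGroup.mk' N)) (t3 _ (zpowers_le.2 h1)
    (piG_zpowers.2 (px.dvd (orderOf_map_dvd _ _))) (mem_zpowers _))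
  rwa [← map_comap_eq_self_of_surjective (QuotientGroup.mk'_surjective N) T, h2, map_top'] at t2

theorem hyp_of (h : x ∈ F2 ⊤) : Hyp x := fun _ => F2_inf_le le_top ⟨h, mem_sup_left (mem_zpowers x)⟩

theorem closure_pair (x y : G) : Subgroup.closure {x, y} = zpowers x ⊔ zpowers y := by
  rw [zpowers_eq_closure, zpowers_eq_closure, ← Subgroup.closure_union]; rfl

theorem mem_sF (hx : x ∈ H) : (⟨x, hx⟩ : H) ∈ sF H ↔ x ∈ F2 H := by
  rw [F2_eq, ← mem_map_iff_mem (subtype_injective H)]; rfl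

end H0.F2
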