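import Cfsg.Agent.H23.Van1
import Cfsg.Agent.H6.Clifford
import Cfsg.Agent.H2.Coprime
import Cfsg.Agent.H24.ClassCount
import Cfsg.Agent.H23.Elem
import Cfsg.Agent.H0.CS1

/-! Non-vanishing elements. -/

set_option autoImplicit false

namespace H0.NV
open Cfsg H5 Subgroup H23.VE
open scoped commutatorElement Pointwise IsMulCommutative

universe u
variable {G : Type u} [Group G] [Finite G]

theorem inert {N : Subgroup G} [N.Normal] {x : G} (hx : ¬ Van x) {θ : N → ℂ}
    (hθ : IsIrrCharacter N θ) : ∃ g : G, g * x * g⁻¹ ∈ H6.inertia θ := by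
  classical
  have := Fintype.ofFinite G
  have hNT : N ≤ H6.inertia θ := H6.le_inertia hθ.isClassFunction
  obtain ⟨ψ, h1, h2⟩ := H6.exists_irr_over (inclusion_injective hNT) hθ
  by_contra! h
  exact hx ⟨⟨_, H6.clifford_corr_irr hθ rfl hNT h1 h2⟩, indFun_eq_zero_of_not_conj _ ψ h⟩

theorem van_of_nil (n : ℕ) : ∀ (G : Type u) [Group G] [Finite G] [Group.IsNilpotent G],
    Nat.card G = n → ∀ x : G, x ∉ center G → Van x := by
  induction n using Nat.strong_induction_on with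
  | _ n ih =>
  intro G _ _ _ hn x hx
  by_cases h : (x : G ⧸ center G) ∈ center (G ⧸ center G)
  · obtain ⟨u, hu⟩ : ∃ u, ⁅u, x⁆ ≠ 1 := by
      by_contra! e
      exact hx (mem_center_iff.2 fun g => commutatorElement_eq_one_iff_mul_comm.1 (e g))
    have h1 : ⁅u, x⁆ ∈ center G := by
      rw [← QuotientGroup.eq_one_iff, ← QuotientGroup.mk'_apply, map_commutatorElement]
      exact commutatorElement_eq_one_iff_mul_comm.2 (mem_center_iff.1 h _)
    obtain ⟨l, -, hl⟩ := exists_char (W := center G) ⊥ (w := ⟨_, h1⟩)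
      (fun e => hu (congrArg Subtype.val (mem_bot.1 e)))
    refine van_of (center G) l x fun g => ⟨u, fun y hy => (mem_center_iff.1 hy u).symm, ?_⟩
    have h2 : g * ⁅u, x⁆ * g⁻¹ = ⁅u, x⁆ := by rw [mem_center_iff.1 h1 g]; simp
    rw [h2]
    exact ⟨h1, hl⟩
  · have h1 : center G ≠ ⊥ := by
      have := H1.inf_center_ne_bot_of_isNilpotent inferInstance (⊤ : Subgroup G) fun e =>
        hx (by rw [mem_bot.1 (e ▸ mem_top x :)]; exact one_mem _)
      rwa [top_inf_eq] at this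
    exact Van.lift (QuotientGroup.mk' _) (QuotientGroup.mk'_surjective _)
      (ih _ (hn ▸ H1.card_quotient_lt h1) _ rfl _ h)

theorem not_van_of_center {x : G} (hx : x ∈ center G) : ¬ Van x := by
  rintro ⟨χ, h⟩
  obtain ⟨c, h1⟩ := χ.2.center_le_charCenter hx
  have h2 := h1 1
  rw [mul_one, h] at h2
  exact mul_ne_zero c.ne_zero χ.2.apply_one_ne_zero h2.symm

theorem exists_van (h : ¬ IsMulCommutative G) : ∃ x : G, Van x := by
  by_contra! e
  refine h ⟨⟨fun a b => ?_⟩⟩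
  have h1 : IsConj ⁅a, b⁆ 1 := (isConj_iff_forall_irr _ _).2 fun χ => by
    have h2 : (χ : G → ℂ) 1 = 1 := by
      by_contra h3
      obtain ⟨x, hx⟩ := χ.2.exists_eq_zero h3
      exact e x ⟨χ, hx⟩
    exact χ.2.isCharacter.mem_charKer_iff.1
      (χ.2.apply_one_eq_one_iff.1 h2 (commutator_mem_commutator (mem_top a) (mem_top b)))
  exact commutatorElement_eq_one_iff_mul_comm.1 (isConj_one_left.1 h1)

/-- a `p`-element fixing all irreducible characters of a normal `p'`-subgroup centralizes it -/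
theorem cent {p : ℕ} [Fact p.Prime] {N : Subgroup G} [hN : N.Normal] (hp : ¬ p ∣ Nat.card N) {y : G}
    (hy : ∃ k, orderOf y = p ^ k) (h : ∀ θ : IrrCharacter N, y ∈ H6.inertia θ.1) :
    N ≤ centralizer {y} := by
  let L : Subgroup G := ⨅ θ : IrrCharacter N, H6.inertia θ.1
  have h1 : ∀ g ∈ L, ∀ n ∈ N, ∃ m ∈ N, m * n * m⁻¹ = g * n * g⁻¹ := fun g hg n hn => by
    have : IsConj (⟨n, hn⟩ : N) ⟨_, hN.conj_mem n hn g⟩ := (isConj_iff_forall_irr _ _).2 fun θ =>
      (H6.mem_inertia'.1 (mem_iInf.1 hg θ) ⟨n, hn⟩).symm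
    obtain ⟨m, hm⟩ := isConj_iff.1 this
    exact ⟨m, m.2, congrArg Subtype.val hm⟩
  have h2 : N ≤ L := le_iInf fun θ => H6.le_inertia θ.2.isClassFunction
  rw [← subgroupOf_eq_top]
  refine H0.CS.jordan _ fun n => ?_
  have h3 : (centralizer {(n : G)}).relIndex L = (centralizer {(n : G)}).relIndex N := by
    rw [← H24.card_conj_orbit, ← H24.card_conj_orbit]
    refine Nat.card_congr (Equiv.subtypeEquivRight fun z => ⟨?_, ?_⟩)
    · rintro ⟨g, hg, rfl⟩
      exact h1 g hg n n.2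
    · rintro ⟨g, hg, rfl⟩
      exact ⟨g, h2 hg, rfl⟩
  obtain ⟨g, hg, h4⟩ := H2.exists_conj_mem_of_not_dvd_relIndex (H23.isPGroup_zpowers hy)
    (zpowers_le.2 (mem_iInf.2 h) : zpowers y ≤ L) (H := centralizer {(n : G)})
    (h3 ▸ fun hd => hp (hd.trans (relIndex_dvd_card _ _)))
  obtain ⟨m, hm, h5⟩ := h1 g hg n n.2
  refine ⟨⟨m, hm⟩⁻¹, ?_⟩
  have h6 := mem_centralizer_singleton_iff.1 (h4 y (mem_zpowers y))
  change m⁻¹⁻¹ * (n : G) * m⁻¹ ∈ centralizer {y}
  rw [inv_inv, h5, mem_centralizer_singleton_iff]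
  calc g * n * g⁻¹ * y = g * (n * (g⁻¹ * y * g)) * g⁻¹ := by group
    _ = _ := by rw [← h6]; group

end H0.NV
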