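import Cfsg.Agent.S0581
import Cfsg.Agent.H1.Fitting
import Cfsg.Agent.H2.Coprime
import Cfsg.Agent.H2.Hall
import Cfsg.Agent.H23.Elem
import Cfsg.Agent.H24.ClassCount
import Cfsg.Agent.H5.Kernel
import Cfsg.Agent.H6.Zeros

set_option autoImplicit false

namespace H0.PC
open Subgroup Cfsg H2
open scoped Pointwise commutatorElement

universe u
variable {G : Type u} [Group G] [Finite G]

theorem big {p n : ℕ} (h : ∀ q : ℕ, q.Prime → q ∣ n → p ≤ q) (h0 : n ≠ 0) (h1 : n ≠ 1) : p ≤ n :=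
  (h _ (Nat.minFac_prime h1) (Nat.minFac_dvd n)).trans (Nat.minFac_le (Nat.pos_of_ne_zero h0))

/-- the degree inequality -/
theorem chi {p : ℕ} (h : ∀ q : ℕ, q.Prime → q ∣ Nat.card G → p ≤ q) :
    p ^ 2 * Nat.card (ConjClasses G) + (commutator G).index ≤
      Nat.card G + p ^ 2 * (commutator G).index := by
  classical
  let d : IrrCharacter G → ℕ := fun χ => charDegree (χ : G → ℂ)
  have hd : ∀ χ : IrrCharacter G, (χ : G → ℂ) 1 = d χ := fun χ => H6.irr_deg χ.2
  have h1 := H5.sum_irr_one_sq G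
  simp only [hd] at h1
  have h3 : ∑ χ, d χ ^ 2 = Nat.card G := by exact_mod_cast h1
  have h4 := H5.card_linear G
  have h5 : Nat.card {χ : IrrCharacter G // (χ : G → ℂ) 1 = 1} =
      (Finset.univ.filter fun χ : IrrCharacter G => d χ = 1).card := by
    rw [← Fintype.card_subtype, ← Nat.card_eq_fintype_card]
    refine Nat.card_congr (Equiv.subtypeEquivRight fun χ => ?_)
    rw [hd]; exact_mod_cast Iff.rfl
  rw [← H5.card_irr, ← h4, h5, ← h3, Nat.card_eq_fintype_card, ← Finset.card_univ,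
    Finset.card_eq_sum_ones, Finset.card_filter, Finset.mul_sum, Finset.mul_sum,
    ← Finset.sum_add_distrib, ← Finset.sum_add_distrib]
  refine Finset.sum_le_sum fun χ _ => ?_
  split_ifs with e
  · rw [e]; omega
  · have hdv : d χ ∣ Nat.card G := H6.irr_deg_dvd χ.2
    have := big (fun q hq hqd => h q hq (hqd.trans hdv))
      (ne_zero_of_dvd_ne_zero Nat.card_pos.ne' hdv) e
    have := Nat.pow_le_pow_left this 2
    omega

theorem comm_le {p : ℕ} (h : ∀ q : ℕ, q.Prime → q ∣ Nat.card G → p ≤ q) (hp : 2 ≤ p)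
    (hk : Nat.card G < p * Nat.card (ConjClasses G)) : Nat.card (commutator G) ≤ p := by
  have h1 := chi h
  have h2 := (commutator G).card_mul_index
  have h3 : 0 < (commutator G).index := Nat.pos_of_ne_zero index_ne_zero_of_finite
  generalize Nat.card (commutator G) = c at *
  generalize (commutator G).index = a at *
  generalize Nat.card (ConjClasses G) = k at *
  rw [← h2] at h1 hk
  by_contra! hc
  obtain ⟨e, rfl⟩ := Nat.exists_eq_add_of_le hp
  obtain ⟨f, rfl⟩ := Nat.exists_eq_add_of_lt hc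
  have h4 := Nat.mul_lt_mul_of_pos_left hk (show 0 < 2 + e by omega)
  nlinarith [Nat.zero_le (a * f), Nat.zero_le (a * f * e)]

theorem comm_lt {p : ℕ} (h : ∀ q : ℕ, q.Prime → q ∣ Nat.card G → p ≤ q) (hp : 2 ≤ p)
    (hk : Nat.card G * (p ^ 2 + p - 1) < p ^ 3 * Nat.card (ConjClasses G)) :
    IsMulCommutative G := by
  have h1 := chi h
  have h2 := (commutator G).card_mul_index
  have h3 : 0 < (commutator G).index := Nat.pos_of_ne_zero index_ne_zero_of_finite
  have h5 : Nat.card (commutator G) = 1 := by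
    by_contra h6
    have hc := big (fun q hq hqd => h q hq (hqd.trans (card_subgroup_dvd_card (commutator G))))
      Nat.card_pos.ne' h6
    generalize Nat.card (commutator G) = c at *
    generalize (commutator G).index = a at *
    generalize Nat.card (ConjClasses G) = k at *
    rw [← h2] at h1 hk
    obtain ⟨e, rfl⟩ := Nat.exists_eq_add_of_le hp
    obtain ⟨f, rfl⟩ := Nat.exists_eq_add_of_le hc
    rw [show (2 + e) ^ 2 + (2 + e) - 1 = (2 + e) ^ 2 + (1 + e) by omega] at hk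
    have h4 := Nat.mul_le_mul_left (2 + e) h1
    nlinarith [Nat.zero_le (a * f), Nat.zero_le (a * f * e), Nat.zero_le (a * f * e * e)]
  rw [card_eq_one] at h5
  refine ⟨⟨fun a b => ?_⟩⟩
  have : ⁅a, b⁆ ∈ commutator G := commutator_mem_commutator (mem_top a) (mem_top b)
  rw [h5, mem_bot] at this
  exact commutatorElement_eq_one_iff_mul_comm.1 this

theorem nil {p : ℕ} (h : ∀ q : ℕ, q.Prime → q ∣ Nat.card G → p ≤ q)
    (hc : Nat.card (commutator G) ≤ p) : Group.IsNilpotent G := by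
  have h1 : commutator G ≤ center G := by
    intro x hx
    by_cases e : x = 1
    · rw [e]; exact one_mem _
    have h2 := H24.card_conj_orbit ⊤ x
    rw [relIndex_top_right] at h2
    have h3 : Nat.card {y : G // ∃ g ∈ (⊤ : Subgroup G), g * x * g⁻¹ = y} <
        Nat.card (commutator G) := by
      refine Set.ncard_lt_ncard (s := {y : G | ∃ g ∈ (⊤ : Subgroup G), g * x * g⁻¹ = y})
        (t := (commutator G : Set G)) ⟨?_, fun hh => ?_⟩
      · rintro _ ⟨g, -, rfl⟩
        exact Normal.conj_mem inferInstance x hx g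
      · obtain ⟨g, -, hg⟩ := hh (one_mem _)
        exact e (conj_eq_one_iff.1 hg)
    have h4 : (centralizer ({x} : Set G)).index = 1 := by
      by_contra h5
      have := big (fun q hq hqd => h q hq (hqd.trans (index_dvd_card (centralizer ({x} : Set G)))))
        index_ne_zero_of_finite h5
      omega
    rw [index_eq_one] at h4
    rw [mem_center_iff]
    intro g
    exact mem_centralizer_singleton_iff.1 (h4 ▸ mem_top g)
  have h2 : Group.IsNilpotent (⊤ : Subgroup G) :=
    H1.isNilpotent_of_commutator_le_centralizer fun x hx y _ => (mem_center_iff.1 (h1 hx) y)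
  exact nilpotent_of_mulEquiv topEquiv

/-- the `s`-part of `n` -/
def pp (s : Finset ℕ) (n : ℕ) : ℕ := s.prod fun r => r ^ n.factorization r

theorem pp_spec {s : Finset ℕ} (hs : ∀ r ∈ s, r.Prime) {n : ℕ} (hn : n ≠ 0) :
    ∃ b, n = pp s n * b ∧ PiNum (s : Set ℕ) (pp s n) ∧ PiNum' (s : Set ℕ) b := by
  have h1 : pp s n ∣ n := by
    refine Finset.prod_dvd_of_isRelPrime ?_ fun r _ => Nat.ordProj_dvd n r
    intro p hp q hq hpq
    exact Nat.coprime_iff_isRelPrime.1
      (Nat.Coprime.pow _ _ ((Nat.coprime_primes (hs p hp) (hs q hq)).2 hpq))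
  obtain ⟨b, hb⟩ := h1
  refine ⟨b, hb, fun q hq hd => ?_, fun q hq hqs hd => ?_⟩
  · obtain ⟨r, hr, hd⟩ := (Prime.dvd_finset_prod_iff hq.prime _).1 hd
    rw [(Nat.prime_dvd_prime_iff_eq hq (hs r hr)).1 (hq.dvd_of_dvd_pow hd)]
    exact hr
  · refine Nat.pow_succ_factorization_not_dvd hn hq ?_
    rw [pow_succ]
    conv_rhs => rw [hb]
    exact Nat.mul_dvd_mul (Finset.dvd_prod_of_mem (fun r => r ^ n.factorization r) hqs) hd

theorem pp_eq {s : Finset ℕ} (hs : ∀ r ∈ s, r.Prime) {a b : ℕ} (hn : a * b ≠ 0)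
    (ha : PiNum (s : Set ℕ) a) (hb : PiNum' (s : Set ℕ) b) : pp s (a * b) = a := by
  obtain ⟨c, h1, h2, h3⟩ := pp_spec hs hn
  exact (eq_of_piNum_mul_eq h1 ha hb h2 h3).symm

theorem card_hall {s : Finset ℕ} (hs : ∀ r ∈ s, r.Prime) {H : Subgroup G}
    (h : IsPiHall (s : Set ℕ) H) : Nat.card H = pp s (Nat.card G) := by
  rw [← H.card_mul_index, pp_eq hs (by rw [H.card_mul_index]; exact Nat.card_pos.ne') h.1 h.2]

theorem hall_of_card {s : Finset ℕ} (hs : ∀ r ∈ s, r.Prime) {H : Subgroup G}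
    (h : Nat.card H = pp s (Nat.card G)) : IsPiHall (s : Set ℕ) H := by
  obtain ⟨c, h1, h2, h3⟩ := pp_spec hs (Nat.card_pos (α := G)).ne'
  rw [← h] at h1 h2
  have h4 := H.card_mul_index
  rw [h1] at h4
  exact ⟨h2, (Nat.eq_of_mul_eq_mul_left Nat.card_pos h4).symm ▸ h3⟩

theorem pp_dvd {s : Finset ℕ} (hs : ∀ r ∈ s, r.Prime) {m n : ℕ} (hn : n ≠ 0) (h : m ∣ n) :
    pp s m ∣ pp s n :=
  Finset.prod_dvd_prod_of_dvd _ _ fun r hr => pow_dvd_pow r
    ((Nat.factorization_le_iff_dvd (ne_zero_of_dvd_ne_zero hn h) hn).2 h r)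

/-- ambient Wielandt -/
theorem wl {σ : Set ℕ} {H M U : Subgroup G} (hH : IsPiHallOf σ H M) (hn : Group.IsNilpotent H)
    (hU : U ≤ M) (hUσ : PiNum σ (Nat.card U)) : ∃ g ∈ M, ∀ x ∈ U, g⁻¹ * x * g ∈ H := by
  have h1 := isPiHall_subgroupOf hH
  obtain ⟨g, hg⟩ := Cfsg.Agent.S0581.result (H.subgroupOf M) (U.subgroupOf M)
    (nilpotent_of_mulEquiv (subgroupOfEquivOfLe hH.1).symm) (IsPiHall.coprime h1) fun p hp hd => by
      have h2 : p ∣ Nat.card M := hd.trans (card_subgroup_dvd_card _)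
      rw [← (H.subgroupOf M).card_mul_index] at h2
      rw [H1.card_subgroupOf_of_le hU] at hd
      exact ((Nat.Prime.dvd_mul hp).1 h2).resolve_right (h1.2 p hp (hUσ p hp hd))
  refine ⟨g, g.2, fun x hx => ?_⟩
  have := H1.mem_conj_smul_iff.1 (hg (show (⟨x, hU hx⟩ : M) ∈ U.subgroupOf M from hx))
  exact this

theorem wl1 {σ : Set ℕ} {H M : Subgroup G} (hH : IsPiHallOf σ H M) (hn : Group.IsNilpotent H)
    {x : G} (hx : x ∈ M) (hσ : PiNum σ (orderOf x)) : ∃ g ∈ M, g⁻¹ * x * g ∈ H := by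
  obtain ⟨g, h1, h2⟩ := wl hH hn (zpowers_le.2 hx) (by rwa [Nat.card_zpowers])
  exact ⟨g, h1, h2 x (mem_zpowers x)⟩

/-- fixed points of an invariant nilpotent Hall subgroup -/
theorem fix {σ : Set ℕ} {A H K : Subgroup G} (hAK : A ≤ normalizer (K : Set G))
    (hcop : (Nat.card A).Coprime (Nat.card K)) (hs : Group.IsSolvable A) (hH : IsPiHallOf σ H K)
    (hn : Group.IsNilpotent H) (hA : A ≤ normalizer (H : Set G)) :
    IsPiHallOf σ (H ⊓ centralizer (A : Set G)) (K ⊓ centralizer (A : Set G)) := by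
  refine ⟨inf_le_inf_right _ hH.1, fun p hp hd => hH.2.1 p hp (hd.trans (card_dvd_of_le inf_le_left)),
    fun p hp hσ => ?_⟩
  haveI := Fact.mk hp
  obtain ⟨U, hU1, hU2, hU3⟩ := exists_ambient_sylow p (K ⊓ centralizer (A : Set G))
  let P : Sylow p H := default
  haveI : (P : Subgroup H).Normal := H1.isNilpotent_iff_sylow_normal.1 hn p inferInstance P
  haveI := P.characteristic_of_normal inferInstance
  have hQ : ¬ p ∣ ((P : Subgroup H).map H.subtype).relIndex K := by
    rw [← relIndex_mul_relIndex _ H K (map_subtype_le _) hH.1, hp.dvd_mul]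
    exact fun h => h.elim (sylow_map_not_dvd_relIndex P) (hH.2.2 p hp hσ)
  obtain ⟨c, hc, h⟩ := exists_centralizer_conj_le_sylow hAK hcop (Or.inl hs)
    (hU1.trans inf_le_left) hU2
    (le_normalizer_of_le_centralizer (le_centralizer_iff.1 (hU1.trans inf_le_right)))
    ((map_subtype_le _).trans hH.1) (P.isPGroup'.map _) hQ
    (H1.le_normalizer_map_subtype_of_char _ hA)
  have h1 : MulAut.conj c⁻¹ • U ≤ H ⊓ centralizer (A : Set G) := by
    intro x hx
    rw [H1.mem_conj_smul_iff, inv_inv] at hx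
    have h2 := map_subtype_le _ (H1.mem_conj_smul_iff.1 (h hx))
    have h3 : c⁻¹ * (c * x * c⁻¹) * c = x := by group
    rw [h3] at h2
    have h4 := (centralizer (A : Set G)).mul_mem ((centralizer (A : Set G)).mul_mem
      ((centralizer (A : Set G)).inv_mem hc.2) (hU1 hx).2) hc.2
    rw [h3] at h4
    exact ⟨h2, h4⟩
  intro hd
  refine hU3 ?_
  rw [← relIndex_conj_smul_of_mem_normalizer (g := c⁻¹) (inv_mem (le_normalizer hc))]
  exact hd.trans (relIndex_dvd_of_le_left _ h1)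

/-- the mixed case: `B` has a normal complement -/
theorem mix {σ τ : Set ℕ} (hd : Disjoint σ τ) {H B K : Subgroup G} [K.Normal] (hH : IsPiHall σ H)
    (hn : Group.IsNilpotent H) (hB : IsPiHall τ B) (hBn : Group.IsNilpotent B)
    (hK : K.IsComplement' B) :
    ∃ L : Subgroup G, Nat.card L = Nat.card H * Nat.card B ∧
      ∀ u v : G, Commute u v → PiNum τ (orderOf u) → PiNum σ (orderOf v) →
        ∃ g : G, g * (u * v) * g⁻¹ ∈ L := by
  have hKB : PiNum' τ (Nat.card K) := by rw [← hK.index_eq_card]; exact hB.2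
  have hcop : (Nat.card B).Coprime (Nat.card K) := PiNum.coprime hB.1 hKB
  have hσB : PiNum' σ (Nat.card B) := fun p hp h1 h2 => Set.disjoint_left.1 hd h1 (hB.1 p hp h2)
  have hmem : ∀ v : G, PiNum σ (orderOf v) → v ∈ K := fun v hv =>
    H23.mem_of_coprime_index (by rw [hK.symm.index_eq_card]; exact hv.coprime hσB)
  have hHK : H ≤ K := fun v hv => hmem v (PiNum.of_dvd hH.1 (orderOf_dvd_natCard H hv))
  have hHK' : IsPiHallOf σ H K := isPiHallOf_of_le (isPiHallOf_top.2 hH) hHK le_top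
  have hN : ∀ A : Subgroup G, A ≤ normalizer (K : Set G) := fun A => by
    rw [normalizer_eq_top]; exact le_top
  obtain ⟨k, hk, hk2⟩ := exists_le_normalizer_conj_smul (H := H) (hN B) hcop (Or.inl inferInstance)
    fun a _ => by
      obtain ⟨k, hk, h⟩ := wl hHK' hn (U := MulAut.conj a • H)
        (H1.conj_smul_le_of_le_of_mem hHK (hN ⊤ (mem_top a))) (by rw [H1.card_conj_smul]; exact hH.1)
      exact ⟨k, hk, fun x hx => h _ (H1.conj_mem_conj_smul hx)⟩
  have h1 : IsPiHallOf σ (MulAut.conj k • H) K := isPiHallOf_conj_smul hHK' (hN ⊤ (mem_top k))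
  have h2 : Group.IsNilpotent (MulAut.conj k • H : Subgroup G) := H1.isNilpotent_map hn _
  refine ⟨B ⊔ MulAut.conj k • H, ?_, fun u v huv hu hv => ?_⟩
  · rw [H1.card_sup_of_disjoint hk2 (inf_eq_bot_of_coprime (PiNum.coprime h1.2.1 hσB).symm),
      H1.card_conj_smul, mul_comm]
  · obtain ⟨g, -, hg⟩ := wl1 (isPiHallOf_top.2 hB) hBn (mem_top u) hu
    have h3 : zpowers (g⁻¹ * u * g) ≤ B := zpowers_le.2 hg
    have h4 := fix (hN _) (hcop.coprime_dvd_left (card_dvd_of_le h3)) (isSolvable_zpowers _) h1 h2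
      (h3.trans hk2)
    have ho : orderOf (g⁻¹ * v * g) = orderOf v := by simpa using H23.orderOf_conj g⁻¹ v
    rw [H1.centralizer_zpowers] at h4
    obtain ⟨c, hc, h5⟩ := wl1 h4 (H1.isNilpotent_of_le inf_le_left h2) (x := g⁻¹ * v * g)
      ⟨hmem _ (ho ▸ hv), mem_centralizer_singleton_iff.2 (by
        calc g⁻¹ * v * g * (g⁻¹ * u * g) = g⁻¹ * (v * u) * g := by group
          _ = g⁻¹ * (u * v) * g := by rw [huv.eq]
          _ = _ := by group)⟩ (ho ▸ hv)
    refine ⟨c⁻¹ * g⁻¹, ?_⟩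
    have h6 := mem_centralizer_singleton_iff.1 hc.2
    have h7 : c⁻¹ * g⁻¹ * (u * v) * (c⁻¹ * g⁻¹)⁻¹ = (g⁻¹ * u * g) * (c⁻¹ * (g⁻¹ * v * g) * c) := by
      calc _ = c⁻¹ * ((g⁻¹ * u * g) * c) * (c⁻¹ * (g⁻¹ * v * g) * c) := by group
        _ = _ := by rw [← h6]; group
    rw [h7]
    exact mul_mem (mem_sup_left hg) (mem_sup_right h5.1)

theorem cls_sub (L : Subgroup G) :
    (ConjClasses.mk '' (L : Set G)).ncard ≤ Nat.card (ConjClasses L) := by
  refine (Set.ncard_le_ncard (t := ConjClasses.map L.subtype '' Set.univ) ?_).trans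
    ((Set.ncard_image_le Set.finite_univ).trans (Set.ncard_univ _).le)
  rintro _ ⟨x, hx, rfl⟩
  exact ⟨ConjClasses.mk ⟨x, hx⟩, trivial, rfl⟩

theorem cls_le (S U : Set G) (Q : ℕ → Prop) (a m : ℕ)
    (hS : ∀ x ∈ S, ∃ u ∈ U, ∃ v, Commute u v ∧ u * v = x ∧ Q (orderOf v))
    (hm : ∀ u ∈ U, a * H23.kq (centralizer ({u} : Set G)) Q ≤ m) :
    a * (ConjClasses.mk '' S).ncard ≤ (ConjClasses.mk '' U).ncard * m := by
  classical
  let A := ↥(ConjClasses.mk '' U)
  let rep : A → G := fun c => c.2.choose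
  have hrep : ∀ c : A, rep c ∈ U ∧ ConjClasses.mk (rep c) = c.1 := fun c => c.2.choose_spec
  let B : A → Type _ := fun c =>
    {d : ConjClasses (centralizer ({rep c} : Set G)) // ∀ x ∈ d.carrier, Q (orderOf x)}
  let F : (Σ c : A, B c) → ConjClasses G := fun s =>
    ConjClasses.mk (rep s.1 * ((Quotient.out s.2.1 : centralizer ({rep s.1} : Set G)) : G))
  have hsurj : ConjClasses.mk '' S ⊆ Set.range F := by
    rintro _ ⟨x, hx, rfl⟩
    obtain ⟨u, hu, v, hv, huv, h2⟩ := hS x hx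
    let c : A := ⟨ConjClasses.mk u, u, hu, rfl⟩
    have hc : IsConj u (rep c) := (ConjClasses.mk_eq_mk_iff_isConj.1 (hrep c).2).symm
    obtain ⟨h, hh⟩ := isConj_iff.1 hc
    have hv' : h * v * h⁻¹ ∈ centralizer ({rep c} : Set G) := by
      rw [mem_centralizer_singleton_iff, ← hh]
      calc h * v * h⁻¹ * (h * u * h⁻¹) = h * (v * u) * h⁻¹ := by group
        _ = h * (u * v) * h⁻¹ := by rw [hv.eq]
        _ = _ := by group
    let w : centralizer ({rep c} : Set G) := ⟨_, hv'⟩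
    have hw : Q (orderOf w) := by
      have : orderOf w = orderOf v := by rw [← Subgroup.orderOf_coe]; exact H23.orderOf_conj h v
      rwa [this]
    let d : B c := ⟨ConjClasses.mk w, H23.carrier_mk_iff.2 hw⟩
    refine ⟨⟨c, d⟩, ?_⟩
    have hd : IsConj w (Quotient.out d.1) := by
      have : ConjClasses.mk (Quotient.out d.1) = ConjClasses.mk w := Quotient.out_eq d.1
      exact (ConjClasses.mk_eq_mk_iff_isConj.1 this).symm
    obtain ⟨k, hk⟩ := isConj_iff.1 hd
    show ConjClasses.mk (rep c * ((Quotient.out d.1 : centralizer ({rep c} : Set G)) : G)) = _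
    rw [ConjClasses.mk_eq_mk_iff_isConj, ← hk]
    refine (isConj_iff.2 ⟨(k : G) * h, ?_⟩).symm
    have hk2 : (k : G) * rep c = rep c * k := mem_centralizer_singleton_iff.1 k.2
    have hw2 : (w : G) = h * v * h⁻¹ := rfl
    push_cast
    rw [hw2, ← huv]
    calc (k : G) * h * (u * v) * ((k : G) * h)⁻¹
        = (k * (h * u * h⁻¹)) * (h * v * h⁻¹) * (k : G)⁻¹ := by group
      _ = (rep c * k) * (h * v * h⁻¹) * (k : G)⁻¹ := by rw [hh, hk2]
      _ = _ := by group
  have hfin : Finite (Σ c : A, B c) := inferInstance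
  have h1 := Set.ncard_le_ncard hsurj (Set.finite_range F)
  rw [← Set.image_univ] at h1
  replace h1 := h1.trans (Set.ncard_image_le Set.finite_univ)
  rw [Set.ncard_univ] at h1
  have : Fintype A := Fintype.ofFinite A
  rw [Nat.card_sigma] at h1
  calc _ ≤ a * ∑ c : A, Nat.card (B c) := Nat.mul_le_mul_left a h1
    _ = ∑ c : A, a * Nat.card (B c) := Finset.mul_sum ..
    _ ≤ ∑ _c : A, m := Finset.sum_le_sum fun c _ => hm _ (hrep c).1
    _ = Nat.card A * m := by simp
    _ = _ := rfl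

end H0.PC
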