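import Cfsg.Agent.H11.RS1
import Cfsg.Agent.H11.Order2
import Cfsg.Agent.H12.Spec

/-! Rank 3 actions of `PSU_n(q)`, `n ≥ 6`, `q ≥ 3` (S2196): definitions and chunk statements
(paper proofs: notes/RU.md; basic API: `H0.RU1`). -/

set_option autoImplicit false
set_option linter.unusedSectionVars false
set_option linter.unusedVariables false

open Module MulAction H13.R3 H12
open H11 (hermT frob)
open H11.RS (PO)

namespace H0.RU

universe u

/-- `a_i = q^i - (-1)^i` -/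
def aa (q i : ℕ) : ℤ := (q : ℤ) ^ i - (-1) ^ i
/-- number of isotropic points in dimension `d` -/
def Np (q d : ℕ) : ℤ := aa q d * aa q (d - 1) / ((q : ℤ) ^ 2 - 1)
/-- `r` is a prime modulo which `-q` has order `e` -/
def Od (q r e : ℕ) : Prop := r.Prime ∧ orderOf (-(q : ZMod r)) = e

section abs
variable {G : Type u} [Group G] [Fintype G]

/-- a nonzero invariant zero-sum space of functions on `H\G` on which `|T| - ∑ T` is the scalar `η` -/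
def Ty (H : Subgroup G) (T : Finset G) (η : ℂ) (Y : Submodule ℂ (G → ℂ)) : Prop :=
  Y ≠ ⊥ ∧ ∀ ψ ∈ Y, (∀ h ∈ H, ∀ g, ψ (h * g) = ψ g) ∧ (∀ k, (fun g => ψ (g * k)) ∈ Y) ∧
    ∑ g, ψ g = 0 ∧ ∀ g, ∑ t ∈ T, (ψ g - ψ (g * t)) = η * ψ g

variable (G) in
/-- the space spanned by the matrix coefficients of `φ` -/
def Yo {X : Type u} [MulAction G X] (φ : X → ℂ) : Submodule ℂ (G → ℂ) :=
  Submodule.span ℂ (Set.range fun x : X => fun g : G => φ (g • x))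

/-- the index is neither `1` nor `2` modulo `q` -/
def QI (q : ℕ) (H : Subgroup G) : Prop := ¬ (q : ℤ) ∣ H.index - 1 ∧ ¬ (q : ℤ) ∣ H.index - 2

end abs

section defs
variable {F : Type u} [Field F] [Fintype F] {q : ℕ} {hF : Fintype.card F = q ^ 2}
  {V : Type u} [AddCommGroup V] [Module F V] [Fintype V] (C : CForm (hermT hF) V)
  {G : Type u} [Group G] [Fintype G] [DistribMulAction G V] [SMulCommClass G F V]

/-- a nondegenerate unitary space, `n ≥ 6`, `q ≥ 3` -/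
structure Ge : Prop where
  nd : C.Nondeg
  q3 : 3 ≤ q
  n6 : 6 ≤ finrank F V

/-- `G = SU(V)` -/
structure Un (G : Type u) [Group G] [Fintype G] [DistribMulAction G V] [SMulCommClass G F V] : Prop
    extends Ge C where
  fa : ∀ g : G, (∀ v : V, g • v = v) → g = 1
  iso : ∀ (g : G) (u v : V), C.B (g • u) (g • v) = C.B u v
  det : ∀ g : G, LinearMap.det (lin F V g : V →ₗ[F] V) = 1
  full : ∀ σ ∈ C.isom, LinearMap.det (σ : V →ₗ[F] V) = 1 → ∃ g : G, ∀ v, g • v = σ v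

/-- nonzero isotropic vector -/
def Is (v : V) : Prop := v ≠ 0 ∧ C.B v v = 0
/-- a point `x` on the totally isotropic line `ln F x y` -/
def Fl (x y : V) : Prop := Is C x ∧ C.B y y = 0 ∧ C.B x y = 0 ∧ y ∉ F ∙ x
/-- `g` is the transvection `w ↦ w + a B(v,w) v` -/
def Tr (g : G) (v : V) (a : F) : Prop := ∀ w, g • w = w + (a * C.B v w) • v
/-- `g = U(x,s,c)` -/
def Uu (g : G) (x s : V) (c : F) : Prop :=
  ∀ w, g • w = w + C.B x w • s - C.B s w • x - (c * C.B x w) • x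
/-- `g` is `-1` on the hyperbolic line `⟨a,b⟩` and `1` on its orthogonal complement -/
def Iv (g : G) (a b : V) : Prop := C.B a a = 0 ∧ C.B b b = 0 ∧ C.B a b ≠ 0 ∧ g • a = -a ∧ g • b = -b ∧
  ∀ w, C.B a w = 0 → C.B b w = 0 → g • w = w

variable (G) in
open Classical in
/-- the nontrivial transvections -/
noncomputable def TS : Finset G := Finset.univ.filter fun t => ∃ v a, Is C v ∧ a ≠ 0 ∧ Tr C t v a

def NoT (H : Subgroup G) : Prop := ∀ t ∈ TS C G, t ∉ H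
def HasI (H : Subgroup G) : Prop := (2 : F) ≠ 0 ∧ ∃ g ∈ H, ∃ a b, Iv C g a b
/-- the `a` with `T(v,a) ∈ H` -/
def Av (H : Subgroup G) (v : V) : Set F := {a | ∃ t ∈ H, Tr C t v a}
/-- the `s` with some `U(x,s,c) ∈ H` -/
def Sx (H : Subgroup G) (x : V) : Set V := {s | C.B x s = 0 ∧ ∃ g ∈ H, ∃ c, Uu C g x s c}
/-- span of the isotropic vectors of `Sx` -/
def GX (H : Subgroup G) (x : V) : Submodule F V := Submodule.span F {s | s ∈ Sx C H x ∧ C.B s s = 0}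
/-- transitive on isotropic points -/
def PP (H : Subgroup G) : Prop := ∀ v w, Is C v → Is C w → PO F H v w
variable (F) in
/-- the nonzero vectors on the points of the orbit of `⟨z⟩` -/
def Ob (H : Subgroup G) (z : V) : Set V := {v | v ≠ 0 ∧ PO F H z v}
variable (F) in
/-- same orbit of flags -/
def Fq (H : Subgroup G) (a b : V × V) : Prop := ∃ h ∈ H, h • a.1 ∈ F ∙ b.1 ∧ h • a.2 ∈ ln F b.1 b.2
/-- all norms of multipliers occur in point stabilizers -/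
def La (H : Subgroup G) : Prop := ∀ y, Is C y → ∀ b : F, frob hF b = b → b ≠ 0 →
  ∃ h ∈ H, ∃ l : F, h • y = l • y ∧ l * frob hF l = b
/-- `r` divides all point stabilizers when `-q` has order `e` mod `r` -/
def Rd (H : Subgroup G) (e : ℕ) : Prop :=
  ∀ r, Od q r e → ∀ x, Is C x → r ∣ Nat.card ↥(H ⊓ St G (F ∙ x))

/-- the hypotheses on the point stabilizer -/
structure Hs (H : Subgroup G) : Prop where
  sc : ∀ (z : G) (c : F), (∀ v : V, z • v = c • v) → z ∈ H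
  mx : IsCoatom H
  r3 : dc H H = 3
  nt : ∃ t ∈ TS C G, t ∉ H

/-! #### functions on points and flags -/

/-- `μ`-homogeneous functions on isotropic vectors -/
def PF (μ : F →* ℂ) : Submodule ℂ (V → ℂ) where
  carrier := {φ | (∀ v, ¬ Is C v → φ v = 0) ∧ ∀ (a : F) v, a ≠ 0 → φ (a • v) = μ a * φ v}
  zero_mem' := ⟨fun _ _ => rfl, fun _ _ _ => by simp⟩
  add_mem' {φ ψ} h k := ⟨fun v n => by simp [h.1 v n, k.1 v n],
    fun a v n => by simp only [Pi.add_apply, h.2 a v n, k.2 a v n, mul_add]⟩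
  smul_mem' c {φ} h := ⟨fun v n => by simp [h.1 v n],
    fun a v n => by simp only [Pi.smul_apply, h.2 a v n, smul_eq_mul]; ring⟩

variable (hF) in
/-- a nontrivial character trivial on `F_q^*` and on the norm one elements -/
def Qd (μ : F →* ℂ) : Prop := (∃ a, a ≠ 0 ∧ μ a ≠ 1) ∧ (∀ b, b ≠ 0 → frob hF b = b → μ b = 1) ∧
  ∀ a, a * frob hF a = 1 → μ a = 1

variable (hF) in
open Classical in
/-- sum of `μ` over the nonzero elements of trace zero -/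
noncomputable def Mu (μ : F →* ℂ) : ℂ := ∑ a : F, if a ≠ 0 ∧ a + frob hF a = 0 then μ a else 0

open Classical in
/-- sum over the opposite points, normalised -/
noncomputable def opK : (V → ℂ) →ₗ[ℂ] (V → ℂ) where
  toFun φ v := ∑ u, if Is C v ∧ C.B u v = 1 then φ u else 0
  map_add' φ ψ := by
    ext v; simp only [Pi.add_apply, ← Finset.sum_add_distrib]
    exact Finset.sum_congr rfl fun u _ => by split_ifs <;> simp
  map_smul' c φ := by
    ext v; simp only [Pi.smul_apply, smul_eq_mul, RingHom.id_apply, Finset.mul_sum]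
    exact Finset.sum_congr rfl fun u _ => by split_ifs <;> simp

/-- functions on flags -/
def FF : Submodule ℂ (V × V → ℂ) where
  carrier := {φ | (∀ x y, ¬ Fl C x y → φ (x, y) = 0) ∧
    ∀ (a b c : F) x y, a ≠ 0 → b ≠ 0 → φ (a • x, b • y + c • x) = φ (x, y)}
  zero_mem' := ⟨fun _ _ _ => rfl, fun _ _ _ _ _ _ _ => rfl⟩
  add_mem' {φ ψ} h k := ⟨fun x y n => by simp [h.1 x y n, k.1 x y n],
    fun a b c x y n m => by simp only [Pi.add_apply, h.2 a b c x y n m, k.2 a b c x y n m]⟩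
  smul_mem' c {φ} h := ⟨fun x y n => by simp [h.1 x y n],
    fun a b d x y n m => by simp only [Pi.smul_apply, h.2 a b d x y n m]⟩

open Classical in
/-- the constant function on flags -/
noncomputable def e1 : V × V → ℂ := fun b => if Fl C b.1 b.2 then 1 else 0

open Classical in
/-- sum over the other points of the line -/
noncomputable def opS : (V × V → ℂ) →ₗ[ℂ] (V × V → ℂ) where
  toFun φ b := ∑ c : F, if Fl C b.1 b.2 then φ (b.2 + c • b.1, b.1) else 0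
  map_add' φ ψ := by
    ext v; simp only [Pi.add_apply, ← Finset.sum_add_distrib]
    exact Finset.sum_congr rfl fun u _ => by split_ifs <;> simp
  map_smul' c φ := by
    ext v; simp only [Pi.smul_apply, smul_eq_mul, RingHom.id_apply, Finset.mul_sum]
    exact Finset.sum_congr rfl fun u _ => by split_ifs <;> simp

open Classical in
/-- sum over the opposite lines through the point -/
noncomputable def opA : (V × V → ℂ) →ₗ[ℂ] (V × V → ℂ) where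
  toFun φ b := ∑ y, if Fl C b.1 b.2 ∧ C.B y b.2 = 1 then ((q : ℂ) ^ 2)⁻¹ * φ (b.1, y) else 0
  map_add' φ ψ := by
    ext v; simp only [Pi.add_apply, ← Finset.sum_add_distrib]
    exact Finset.sum_congr rfl fun u _ => by split_ifs <;> simp [mul_add]
  map_smul' c φ := by
    ext v; simp only [Pi.smul_apply, smul_eq_mul, RingHom.id_apply, Finset.mul_sum]
    exact Finset.sum_congr rfl fun u _ => by split_ifs <;> simp [mul_left_comm]

/-- depends on the point only -/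
def Px (φ : V × V → ℂ) : Prop := ∀ x y y', Fl C x y → Fl C x y' → φ (x, y) = φ (x, y')
/-- depends on the line only -/
def Lx (φ : V × V → ℂ) : Prop := ∀ x y (c : F), Fl C x y → φ (y + c • x, x) = φ (x, y)

/-- `H`-invariant zero-sum functions on flags -/
def EF (H : Subgroup G) : Submodule ℂ (V × V → ℂ) where
  carrier := {φ | φ ∈ FF C ∧ (∀ h ∈ H, ∀ b, φ (h • b) = φ b) ∧ ∑ b, φ b = 0}
  zero_mem' := ⟨zero_mem _, fun _ _ _ => rfl, by simp⟩
  add_mem' {φ ψ} h k := ⟨add_mem h.1 k.1, fun g n b => by simp [h.2.1 g n, k.2.1 g n], by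
    simp [Finset.sum_add_distrib, h.2.2, k.2.2]⟩
  smul_mem' c {φ} h := ⟨Submodule.smul_mem _ _ h.1, fun g n b => by simp [h.2.1 g n], by
    simp [← Finset.mul_sum, h.2.2]⟩

/-- a constituent of degree divisible by `q` that is not of the types of `LAM` -/
def Gd (H : Subgroup G) : Prop := ∃ η Y, Ty H (TS C G) η Y ∧ q ∣ finrank ℂ Y ∧
  η ≠ (q - 1) * q ^ (2 * finrank F V - 3) ∧
  η ≠ (q - 1) * q ^ (finrank F V - 1) * aa q (finrank F V - 2) ∧
  (η ≠ (q - 1) * q ^ (finrank F V - 2) * aa q (finrank F V - 1) ∨ ∃ φ ∈ PF C 1, Y = Yo G φ)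

/-! #### Perin's setup -/

/-- an element of order `r` with fixed space `W` of codimension `e` -/
structure Ye (r e : ℕ) (y : G) (W : Submodule F V) : Prop where
  od : Od q r e
  e3 : 3 ≤ e
  ord : orderOf y = r
  fix : ∀ v, y • v = v ↔ v ∈ W
  dim : finrank F W + e = finrank F V
  nd : C.NondegOn W

/-- the centralizer of `y` on `W^⊥` -/
structure Ce (e : ℕ) (y : G) (W : Submodule F V) : Prop where
  inv : ∀ X ≤ C.perp W, (∀ v ∈ X, y • v ∈ X) →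
    X = ⊥ ∨ X = C.perp W ∨ (X ≤ C.perp X ∧ 2 * finrank F X = e)
  ex : ∃ U ≤ C.perp W, U ≠ ⊥ ∧ ∀ c : G, Commute c y → (∀ u ∈ U, c • u ∈ U) ∧
    (∀ l : F, l * frob hF l = 1 → ∀ u ∈ U, u ≠ 0 → c • u = l • u → ∀ z ∈ C.perp W, c • z = l • z) ∧
    ∀ c' : G, Commute c' y → ∀ u ∈ U, c • c' • u = c' • c • u
  root : ∀ c : G, Commute c y → c ^ orderOf y = 1 → (∀ w ∈ W, c • w = w) → c ∈ Subgroup.zpowers y

structure Pe (H : Subgroup G) (r e : ℕ) (x : V) (y : G) (W : Submodule F V) : Prop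
    extends Ye C r e y W where
  yH : y ∈ H
  xW : x ∈ W
  ix : Is C x
  fus : ∀ h ∈ H, ∀ v ∈ W, v ≠ 0 → h • v ∈ W →
    ∃ ν ∈ H, ν ∈ Subgroup.normalizer (Subgroup.zpowers y : Set G) ∧ ν • v = h • v

/-- invariant subspaces between `x` and `x^⊥` -/
def IR (H : Subgroup G) (x : V) : Prop := ∀ X : Submodule F V, x ∈ X → (∀ v ∈ X, C.B x v = 0) →
  (∀ h ∈ H, h • x = x → ∀ v ∈ X, h • v ∈ X) → X ≤ Submodule.span F {v | v ∈ X ∧ C.B v v = 0} →
  X ≠ F ∙ x → (X ≤ C.perp X ∧ ∀ v ∈ C.perp X, C.B v v = 0 → v ∈ X) ∨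
    ∀ v ∈ C.perp X, C.B v v = 0 → v ∈ F ∙ x

/-! #### two orbits -/

/-- two point orbits; `z` represents the one with a single flag orbit -/
structure Tw (H : Subgroup G) (z : V) (u : ℕ) : Prop where
  iz : Is C z
  ex : ∃ x, Is C x ∧ ¬ PO F H z x
  two : ∀ v w, Is C v → Is C w → ¬ PO F H z v → ¬ PO F H z w → PO F H v w
  s1 : ∀ y y', Fl C z y → Fl C z y' → Fq F H (z, y) (z, y')
  s2 : ∀ y (c c' : F), Fl C z y → ¬ PO F H z (y + c • z) → ¬ PO F H z (y + c' • z) →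
    Fq F H (y + c • z, z) (y + c' • z, z)
  cnt : ∀ y, Fl C z y → {c : F | PO F H z (y + c • z)}.ncard + 1 = u
  dvd : u ∣ q ^ 2

/-- the eigenvalue equation of a point orbit -/
def Ev (H : Subgroup G) (z : V) : Prop := ∃ α : ℤ,
  (α = -(-q) ^ (finrank F V - 2) ∨ α = -(-q) ^ (finrank F V - 3)) ∧
  ({v | v ∈ Ob F H z ∧ C.B z v ≠ 0}.ncard : ℤ) * Np q (finrank F V) -
    (Ob F H z).ncard * q ^ (2 * finrank F V - 3) =
      α * (Np q (finrank F V) * (q ^ 2 - 1) - (Ob F H z).ncard)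

/-- a spanning set of isotropic points -/
structure Cs (R : Set V) : Prop where
  is : ∀ v ∈ R, Is C v
  sm : ∀ v ∈ R, ∀ c : F, c ≠ 0 → c • v ∈ R
  sp : Submodule.span F R = ⊤

/-- closed under the full root groups of its members -/
def Mv (R : Set V) : Prop :=
  ∀ v ∈ R, ∀ w ∈ R, ∀ a : F, a + frob hF a = 0 → w + (a * C.B v w) • v ∈ R

/-! ### Chunks: geometry (no group) -/

open Classical in
/-- counting (any dimension `≥ 4`) -/
def CNT : Prop := C.Nondeg → 4 ≤ finrank F V →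
  (({v | Is C v}.ncard : ℤ) = aa q (finrank F V) * aa q (finrank F V - 1)) ∧
  (∀ v, Is C v → {u | C.B u u = 0 ∧ C.B u v = 1}.ncard = q ^ (2 * finrank F V - 3)) ∧
  (∀ v w β, Is C v → Is C w → C.B w v = 1 →
    ({u | C.B u u = 0 ∧ C.B u v = 1 ∧ C.B w u = β}.ncard : ℤ) =
      q ^ (finrank F V - 3) * aa q (finrank F V - 2) +
        if β + frob hF β = 0 then (-q : ℤ) ^ (finrank F V - 2) else 0) ∧
  (∀ v w β, Fl C v w → {u | C.B u u = 0 ∧ C.B u v = 1 ∧ C.B w u = β}.ncard =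
    q ^ (2 * finrank F V - 5)) ∧
  (∀ x, Is C x → ({y | Fl C x y}.ncard : ℤ) =
    q ^ 2 * (aa q (finrank F V - 2) * aa q (finrank F V - 3)))

/-- the strongly regular graph of isotropic points (assume `CNT`) -/
def SRG : Prop := C.Nondeg → 4 ≤ finrank F V → ∀ φ ∈ PF C 1, opK C φ ∈ PF C 1 ∧
  ((∀ v w, Is C v → Is C w → φ v = φ w) → opK C φ = (q : ℂ) ^ (2 * finrank F V - 3) • φ) ∧
  ∑ v, opK C φ v = q ^ (2 * finrank F V - 3) * ∑ v, φ v ∧
  ∃ c : ℂ, ∀ v, Is C v → opK C (opK C φ) v +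
    ((-q : ℂ) ^ (finrank F V - 2) + (-q : ℂ) ^ (finrank F V - 3)) * opK C φ v +
      (-q : ℂ) ^ (2 * finrank F V - 5) * φ v = c * ∑ w, φ w

/-- the quadratic twist (assume `CNT`) -/
def KQ : Prop := Ge C → ∀ μ, Qd hF μ → Mu hF μ ^ 2 = (q - 1) ^ 2 ∧ ∀ φ ∈ PF C μ, opK C φ ∈ PF C μ ∧
  opK C (opK C φ) = (q : ℂ) ^ (2 * finrank F V - 3) • φ +
    ((-q : ℂ) ^ (finrank F V - 2) * Mu hF μ) • opK C φ

/-- easy facts on the flag operators -/
def FO1 : Prop := Ge C → e1 C ∈ FF C ∧ ∀ φ ∈ FF C, opS C φ ∈ FF C ∧ opA C φ ∈ FF C ∧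
  opS C (opS C φ) = ((q : ℂ) ^ 2 - 1) • opS C φ + (q : ℂ) ^ 2 • φ ∧
  (opS C φ = (q : ℂ) ^ 2 • φ ↔ Lx C φ) ∧
  (Px C φ → Lx C φ → ∃ c : ℂ, φ = c • e1 C) ∧ (Px C φ → opS C φ = -φ → φ = 0) ∧
  ∑ b, opS C φ b = q ^ 2 * ∑ b, φ b

/-- the spectrum of `opA` (assume `SRG` for subspaces) -/
def FO2 : Prop := Ge C → ∀ φ ∈ FF C,
  (Px C φ → opA C φ = (q : ℂ) ^ (2 * finrank F V - 7) • φ) ∧
  ∑ b, opA C φ b = q ^ (2 * finrank F V - 7) * ∑ b, φ b ∧
  Px C (opA C (opA C φ) +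
    ((-q : ℂ) ^ (finrank F V - 4) + (-q : ℂ) ^ (finrank F V - 5)) • opA C φ +
      (-q : ℂ) ^ (2 * finrank F V - 9) • φ)

/-- no closed family of hyperbolic lines -/
def SPH : Prop := Ge C → ∀ W : V → Submodule F V,
  (∀ v, Is C v → v ∈ W v ∧ finrank F (W v) = 2 ∧ v ∉ C.perp (W v)) →
  (∀ v y, Is C v → Is C y → y ∈ C.perp (W v) → W y ≤ C.perp (W v)) → False

/-- closed sets of isotropic points -/
def UO : Prop := Ge C → ∀ R, Cs C R → Mv C R →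
  ((∀ x z, x ≠ 0 → z ≠ 0 → ∃ y ∈ R, C.B x y ≠ 0 ∧ C.B z y ≠ 0) ∨
    ∃ a ∈ R, ∃ b b', Fl C a b ∧ Fl C a b' ∧ (∀ c : F, b + c • a ∈ R ↔ c = 0) ∧
      ∀ c : F, b' + c • a ∉ R) ∧
  (∀ u ∈ R, ∀ v ∈ R, ∀ w ∈ R, (∀ x z, x ≠ 0 → z ≠ 0 → ∃ y ∈ R, C.B x y ≠ 0 ∧ C.B z y ≠ 0) →
    C.B u v * C.B v w * C.B w u + C.B u w * C.B w v * C.B v u ≠ 0 → ∀ x, Is C x → x ∈ R) ∧
  ∀ z ∈ R, ∀ c ∈ R, ∀ w ∈ R, C.B z c = 0 → C.B w z ≠ 0 → C.B w c = C.B w z →
    ∀ t : F, frob hF t = t → z + t • (c - z) ∈ R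

/-- spanning geometric hyperplanes (assume `UO`) -/
def GH : Prop := Ge C → ∀ R, Cs C R → (∀ x ∈ R, ∀ y ∈ R, Fl C x y → ∀ c : F, y + c • x ∈ R) →
  (∀ x y, Fl C x y → x ∈ R ∨ ∃ c : F, y + c • x ∈ R) → ∀ x, Is C x → x ∈ R

/-! ### Chunks: with the group -/

variable (H : Subgroup G)

/-- irreducibility -/
def RED : Prop := Un C G → Hs C H → Le2 (Is C) (PO F H) → Irr F V H
/-- `H` does not contain (most of) a Sylow `p`-subgroup -/
def CI : Prop := Un C G → Hs C H → Irr F V H → QI q H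

variable (G) in
/-- the class sum on twisted point functions -/
def POP : Prop := Un C G → ∀ μ, ∀ φ ∈ PF C μ, ∀ v, Is C v →
  ∑ t ∈ TS C G, (φ v - φ (t • v)) =
    (q - 1) * q ^ (2 * finrank F V - 3) * φ v - Mu hF μ * opK C φ v
variable (G) in
/-- the class sum on flag functions -/
def FO3 : Prop := Un C G → ∀ φ ∈ FF C, (∀ g : G, (fun b => φ (g • b)) ∈ FF C ∧
    (opS C fun b => φ (g • b)) = (fun b => opS C φ (g • b)) ∧
    (opA C fun b => φ (g • b)) = fun b => opA C φ (g • b)) ∧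
  ∀ b, ∑ t ∈ TS C G, (φ b - φ (t • b)) = (q - 1) * ((q ^ 2 + q ^ 4) * q ^ (2 * finrank F V - 7) * φ b -
    q ^ 2 * opA C φ b - opS C (opA C (opS C φ)) b)
/-- Heisenberg divisibility (assume `HA`, `CNT`) -/
def HEIS : Prop := Un C G → ∀ η Y, Ty H (TS C G) η Y →
  (∃ m : ℕ, η * finrank ℂ Y = (q - 1) * Np q (finrank F V) * q ^ (finrank F V - 1) * m) ∧
  ∀ (j : ℕ) (c : ℤ), j + 2 ≤ finrank F V → IsCoprime c q → η = (q - 1) * q ^ j * c → q ∣ finrank ℂ Y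

/-- the type of the invariant flag functions (assume `TY R3 LA HEIS FO1 FO2 FO3`) -/
def FT : Prop := Un C G → dc H H = 3 → QI q H → EF C H = ⊥ ∨
  (Gd C H ∧ ((∀ φ ∈ EF C H, opA C φ = -(-q : ℂ) ^ (finrank F V - 4) • φ) ∨
    (∀ φ ∈ EF C H, opA C φ = -(-q : ℂ) ^ (finrank F V - 5) • φ) ∨
    ((∀ φ ∈ EF C H, Px C φ → φ = 0) ∧
      finrank ℂ (EF C H) = 2 * finrank ℂ ↥(EF C H ⊓ LinearMap.ker (opS C - (q : ℂ) ^ 2 • .id)) ∧
      ∀ φ ∈ EF C H, Lx C φ → ∀ ψ, ψ = ((q : ℂ) ^ 2 + 1) • opA C φ +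
        ((-q : ℂ) ^ (finrank F V - 4) + (-q : ℂ) ^ (finrank F V - 5)) • φ → opS C ψ = -ψ))) ∨
  ((∃ φ ∈ EF C H, φ ≠ 0 ∧ Px C φ) ∧ finrank ℂ (EF C H) =
    2 * finrank ℂ ↥(EF C H ⊓ LinearMap.ker (opA C - (q : ℂ) ^ (2 * finrank F V - 7) • .id)))

/-- point-transitive case (assume `FT CNT FO1 FO2`) -/
def FLP : Prop := Un C G → dc H H = 3 → QI q H → PP C H →
  Rd C H (finrank F V - 3) ∨ (Rd C H (finrank F V - 2) ∧ Gd C H)
/-- two point orbits: three flag orbits (assume `FT CNT FO1 FO2`) -/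
def FL2 : Prop := Un C G → dc H H = 3 → QI q H → ¬ PP C H → Le2 (Is C) (PO F H) →
  Le3 (fun b : V × V => Fl C b.1 b.2) (Fq F H)
def STR : Prop := Un C G → ¬ PP C H → Le2 (Is C) (PO F H) →
  Le3 (fun b : V × V => Fl C b.1 b.2) (Fq F H) → ∃ z u, Tw C H z u
/-- the point type (assume `TY HEIS CNT SRG POP`) -/
def PT : Prop := Un C G → ¬ PP C H → Le2 (Is C) (PO F H) → Gd C H ∧ ∀ z, Is C z → Ev C H z

variable (G) in
/-- degree of the small quadratic constituent (assume `CNT`) -/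
def DP : Prop := Un C G → ∀ μ, Qd hF μ → ∀ ψ ∈ PF C μ, ψ ≠ 0 → ∀ κ : ℂ,
  κ ^ 2 = q ^ (2 * finrank F V - 2) → opK C ψ = κ • ψ →
  (finrank ℂ (Yo G ψ) : ℤ) * (q + 1) = Np q (finrank F V)
/-- multipliers (assume `TY R3 HEIS CNT POP KQ DP`) -/
def LAM : Prop := Un C G → dc H H = 3 → QI q H → Gd C H → La C H

/-- Dickson for two opposite transvections -/
def DK : Prop := Un C G → ∀ v w a b, Is C v → Is C w → C.B v w ≠ 0 → a ∈ Av C H v → b ∈ Av C H w →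
  a ≠ 0 → b ≠ 0 → ∀ l, l = a * b * C.B v w * C.B w v → ∃ K : Subfield F,
    (∀ c, c * a ∈ Av C H v ↔ c ∈ K) ∧ (∀ c, c * b ∈ Av C H w ↔ c ∈ K) ∧
    (l ∈ K ∨ ((∀ c ∈ K, c = 0 ∨ c = 1 ∨ c = -1) ∧ ((2 : F) = 0 ∨ ((3 : F) = 0 ∧ l ^ 2 = -1))))
/-- point-transitive groups with transvections (assume `DK`) -/
def TVA : Prop := Un C G → PP C H → ¬ NoT C H → ∀ t ∈ TS C G, t ∈ H

variable (G) in
/-- fixed point free `r`-elements -/
def FIX : Prop := Un C G → ∀ r e, Od q r e → 3 ≤ e → ∀ (g : G) (k : ℕ), g ^ r ^ k = 1 →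
  (∀ (v : V) (c : F), g • v = c • v → g • v = v) ∧
  ∀ U : Submodule F V, (∀ u ∈ U, g • u ∈ U) →
    ((∀ u ∈ U, g • u = u → u = 0) → e ∣ 2 * finrank F U ∧ (C.NondegOn U → e ∣ finrank F U)) ∧
    (∀ u ∈ U, ∃ w ∈ U, g • w = w ∧ ∀ z, g • z = z → C.B z (u - w) = 0) ∧
    (C.NondegOn U → ∀ W, (∀ w, w ∈ W ↔ w ∈ U ∧ g • w = w) →
      C.NondegOn W ∧ ∃ m, finrank F W + e * m = finrank F U)
variable (G) in
/-- (assume `FIX`) -/
def CEN : Prop := Un C G → ∀ r e (y : G) W, Ye C r e y W → Ce C e y W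
/-- (assume `FIX CEN`) -/
def PS : Prop := Un C G → ∀ r e x, Od q r e → e + 2 ≤ finrank F V → finrank F V ≤ e + 3 → Is C x →
  r ∣ Nat.card ↥(H ⊓ St G (F ∙ x)) → ∃ y W, Pe C H r e x y W
/-- (assume `FIX CEN`) -/
def IRc : Prop := Un C G → ∀ r e x y W, Pe C H r e x y W → finrank F V ≤ e + 3 → IR C H x
/-- (assume `FIX CEN`) -/
def PER2 : Prop := Un C G → Hs C H → NoT C H → La C H → ∀ r e x y W, Pe C H r e x y W →
  e + 2 = finrank F V →
  ((2 : F) ≠ 0 ∧ ∃ g ∈ H, ∃ a b, Iv C g a b ∧ ∀ v ∈ ln F a b, Is C v → PO F H x v) ∨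
  (q = 3 ∧ ¬ PP C H ∧ (Ob F H x).ncard ≡ 16 [MOD r])
/-- no solvable group is transitive on the isotropic points of a unitary plane (assume `ZS FIX`) -/
def SOL3 : Prop := Un C G → IsSolvable H → ∀ W : Submodule F V, C.NondegOn W → finrank F W = 3 →
  H ≤ St G W → (∀ v ∈ W, ∀ w ∈ W, Is C v → Is C w → PO F H v w) → False
/-- (assume `CEN`, `SOL3` for all subgroups) -/
def PER3 : Prop := Un C G → PP C H → NoT C H → ∀ r e x y W, Pe C H r e x y W →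
  e + 3 = finrank F V → HasI C H

/-- (assume `SPH`) -/
def IIE : Prop := Un C G → PP C H → HasI C H → (∀ x, Is C x → ∀ s ∈ Sx C H x, s ∈ F ∙ x) → False
def IIB : Prop := Un C G → PP C H → HasI C H → (∀ x, Is C x → ∃ s ∈ Sx C H x, s ∉ F ∙ x) →
  (∀ x, Is C x → ∀ s ∈ Sx C H x, C.B s s = 0 → s ∈ F ∙ x) → False
def IIM : Prop := Un C G → NoT C H → HasI C H → (∀ x, Is C x → GX C H x ≤ C.perp (GX C H x) ∧
  ∀ v ∈ C.perp (GX C H x), C.B v v = 0 → v ∈ GX C H x) → False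
def IIA : Prop := Un C G → NoT C H → HasI C H →
  (∀ x, Is C x → ∀ v ∈ C.perp (GX C H x), C.B v v = 0 → v ∈ F ∙ x) → False
/-- (assume `IIE IIB IIM IIA`) -/
def II : Prop := Un C G → PP C H → NoT C H → (∀ x, Is C x → IR C H x) → ¬ HasI C H

/-- (assume `UO`) -/
def TV2 : Prop := Un C G → Hs C H → Irr F V H → La C H → ∀ z u, Tw C H z u → u < q ^ 2 → NoT C H
def TL : Prop := Un C G → NoT C H → ∀ z, Is C z →
  (∀ y y', Fl C z y → Fl C z y' → Fq F H (z, y) (z, y')) → ∀ s ∈ Sx C H z, s ∈ F ∙ z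
/-- (assume `TL`) -/
def N2a : Prop := Un C G → NoT C H → ∀ z u, Tw C H z u → u < q ^ 2 → (2 : F) ≠ 0 →
  ∀ g ∈ H, ∀ a b, Iv C g a b → (∀ v ∈ ln F a b, Is C v → PO F H z v) → False
/-- (assume `CNT`) -/
def N2b : Prop := Un C G → ∀ z u, Tw C H z u → (∀ r, Od q r (finrank F V - 2) →
    r ∣ Nat.card ↥(H ⊓ St G (F ∙ z))) ∧
  (u < q ^ 2 → q = 3 → Ev C H z → ∀ r, Od q r (finrank F V - 2) → ¬ (Ob F H z).ncard ≡ 16 [MOD r])

end defs

/-! ### Chunks: abstract -/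

def TY : Prop := ∀ (G X : Type u) [Group G] [Fintype G] [MulAction G X] (H : Subgroup G)
  (T : Finset G) (η : ℂ) (φ : X → ℂ), (∀ t ∈ T, ∀ g, g * t * g⁻¹ ∈ T) → φ ≠ 0 → η ≠ 0 →
  (∀ h ∈ H, ∀ x, φ (h • x) = φ x) → (∀ x, ∑ t ∈ T, (φ x - φ (t • x)) = η * φ x) → Ty H T η (Yo G φ)

def R3 : Prop := ∀ (G : Type u) [Group G] [Fintype G] (H : Subgroup G) (T : Finset G) (η η' : ℂ)
  (Y Y' : Submodule ℂ (G → ℂ)), dc H H = 3 → Ty H T η Y → Ty H T η' Y' → η ≠ η' ∨ Y ⊓ Y' = ⊥ →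
  1 + finrank ℂ Y + finrank ℂ Y' = H.index

def HA : Prop := ∀ (G : Type u) [Group G] [Fintype G] (H A Z : Subgroup G) (T : Finset G) (η : ℂ)
  (Y : Submodule ℂ (G → ℂ)), (∀ t ∈ T, ∀ t' ∈ T, IsConj t t') → Z ≤ A → Z ≠ ⊥ →
  (∀ a ∈ A, ∀ b ∈ A, a * b = b * a) → (∀ z ∈ Z, z ≠ 1 → z ∈ T) →
  (∀ a ∈ A, a ∉ Z → ∀ z ∈ Z, IsConj a (a * z)) → Ty H T η Y →
  ∃ m : ℕ, η * finrank ℂ Y = T.card * Nat.card A * m

def LA : Prop := ∀ (E : Type u) [AddCommGroup E] [Module ℂ E] [FiniteDimensional ℂ E] [Nontrivial E]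
  (S A : Module.End ℂ E) (Q c : ℂ) (a : Fin 3 → ℂ), Q ≠ 0 → Q + 1 ≠ 0 → Function.Injective a →
  (∀ i j, (Q ^ 2 + Q) * a i ≠ (Q + 1) * a j) →
  (∀ i j l, j ≠ l → (Q ^ 2 + Q) * a i ≠ Q * (a j + a l) ∧ (Q + 1) * a i ≠ Q * (a j + a l)) →
  S * S = (Q - 1) • S + Q • 1 → (A - a 0 • 1) * (A - a 1 • 1) * (A - a 2 • 1) = 0 →
  Q • A + S * A * S = c • 1 →
  (∀ v, S v = Q • v → S ((Q ^ 2 + Q) • A v - c • v) = -((Q ^ 2 + Q) • A v - c • v)) ∧
  ((∃ i, c = (Q ^ 2 + Q) * a i ∧ S = Q • 1 ∧ A = a i • 1) ∨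
   (∃ i, c = (Q + 1) * a i ∧ S = -1 ∧ A = a i • 1) ∨
   ∃ i j, i ≠ j ∧ c = Q * (a i + a j) ∧ (A - a i • 1) * (A - a j • 1) = 0 ∧
     finrank ℂ E = 2 * finrank ℂ (LinearMap.ker (S - Q • 1)) ∧
     finrank ℂ E = 2 * finrank ℂ (LinearMap.ker (A - a i • 1)) ∧
     finrank ℂ E = 2 * finrank ℂ (LinearMap.ker (A - a j • 1)))

def ZS : Prop := ∀ q e : ℕ, 3 ≤ q → 3 ≤ e → ∃ r, Od q r e

end H0.RU
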