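import Cfsg.Agent.H0.RU0

/-! S2196: basic API, part 1 (numbers and geometry). -/

set_option autoImplicit false
set_option linter.unusedSectionVars false
set_option linter.unusedVariables false

open Module MulAction H13.R3 H12
open H11 (hermT frob)
open H11.RS (PO)

namespace H0.RU

universe u

section num
variable {q r e i d : ℕ}

theorem aa_eq (q i : ℕ) : aa q i = (-1) ^ i * ((-q : ℤ) ^ i - 1) := by
  rcases Nat.even_or_odd i with h | h
  · simp [aa, h.neg_pow]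
  · simp [aa, h.neg_pow, add_comm]

theorem aa_even (h : Even i) : aa q i = (q : ℤ) ^ i - 1 := by simp [aa, h.neg_one_pow]
theorem aa_odd (h : Odd i) : aa q i = (q : ℤ) ^ i + 1 := by simp [aa, h.neg_one_pow]

theorem aa_cast (q i : ℕ) : (aa q i : ℂ) = (q : ℂ) ^ i - (-1) ^ i := by simp [aa]

theorem le_aa (q i : ℕ) : (q : ℤ) ^ i - 1 ≤ aa q i ∧ aa q i ≤ (q : ℤ) ^ i + 1 := by
  rcases Nat.even_or_odd i with h | h
  · rw [aa_even h]; omega
  · rw [aa_odd h]; omega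

theorem aa_pos (hq : 2 ≤ q) (hi : 1 ≤ i) : 0 < aa q i := by
  have h1 : (2 : ℤ) ≤ (q : ℤ) ^ i := by
    calc (2 : ℤ) ≤ q := by exact_mod_cast hq
      _ = (q : ℤ) ^ 1 := (pow_one _).symm
      _ ≤ _ := pow_le_pow_right₀ (by exact_mod_cast (by omega : 1 ≤ q)) hi
  have := (le_aa q i).1
  omega

theorem aa_cop (hi : 1 ≤ i) : IsCoprime (aa q i) (q : ℤ) := by
  obtain ⟨j, rfl⟩ : ∃ j, i = j + 1 := ⟨i - 1, by omega⟩
  refine ⟨-(-1) ^ (j + 1), (-1) ^ (j + 1) * q ^ j, ?_⟩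
  have : ((-1 : ℤ) ^ (j + 1)) ^ 2 = 1 := by rw [← pow_mul, mul_comm, pow_mul]; simp
  rw [aa]; linear_combination this

theorem Np_mul (hd : 1 ≤ d) : Np q d * ((q : ℤ) ^ 2 - 1) = aa q d * aa q (d - 1) := by
  refine Int.ediv_mul_cancel ?_
  have key : ∀ i, Even i → (q : ℤ) ^ 2 - 1 ∣ aa q i := by
    rintro i ⟨j, rfl⟩
    rw [aa_even ⟨j, rfl⟩, ← two_mul, pow_mul]
    simpa using sub_dvd_pow_sub_pow ((q : ℤ) ^ 2) 1 j
  rcases Nat.even_or_odd d with h | h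
  · exact (key d h).mul_right _
  · exact (key _ (Nat.Odd.sub_odd h odd_one)).mul_left _

theorem aa_mul_mod (hd : 2 ≤ d) : (q : ℤ) ∣ aa q d * aa q (d - 1) + 1 := by
  obtain ⟨j, rfl⟩ : ∃ j, d = j + 2 := ⟨d - 2, by omega⟩
  have : ((-1 : ℤ) ^ j) ^ 2 = 1 := by rw [← pow_mul, mul_comm, pow_mul]; simp
  refine ⟨q ^ (2 * j + 2) + (-1) ^ j * (q ^ (j + 1) - q ^ j), ?_⟩
  rw [show j + 2 - 1 = j + 1 by omega, aa, aa]
  linear_combination (-1 : ℤ) * this

theorem Np_mod (hd : 2 ≤ d) : (q : ℤ) ∣ Np q d - 1 := by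
  have h := aa_mul_mod (q := q) hd
  rw [← Np_mul (by omega)] at h
  have : Np q d - 1 = q * (q * Np q d) - (Np q d * ((q : ℤ) ^ 2 - 1) + 1) := by ring
  rw [this]; exact dvd_sub (dvd_mul_right _ _) h

theorem Np_cop (hd : 2 ≤ d) : IsCoprime (Np q d) (q : ℤ) := by
  obtain ⟨c, hc⟩ := Np_mod (q := q) hd
  exact ⟨1, -c, by linear_combination hc⟩

theorem Np_pos (hq : 2 ≤ q) (hd : 2 ≤ d) : 0 < Np q d := by
  have h := Np_mul (q := q) (d := d) (by omega)
  have h1 := mul_pos (aa_pos hq (by omega : 1 ≤ d)) (aa_pos hq (by omega : 1 ≤ d - 1))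
  have h2 : (0 : ℤ) < (q : ℤ) ^ 2 - 1 := by nlinarith [show (2 : ℤ) ≤ q by exact_mod_cast hq]
  exact pos_of_mul_pos_of_pos_right' h h1 h2
where
  pos_of_mul_pos_of_pos_right' {a b c : ℤ} (h : a * b = c) (h1 : 0 < c) (h2 : 0 < b) : 0 < a := by
    by_contra h3; nlinarith

/-- `N = 1 + q^(2d-3) + Q N'` -/
theorem aa_rec (hd : 3 ≤ d) : aa q d * aa q (d - 1) =
    ((q : ℤ) ^ 2 - 1) * (1 + q ^ (2 * d - 3)) + q ^ 2 * (aa q (d - 2) * aa q (d - 3)) := by
  obtain ⟨j, rfl⟩ : ∃ j, d = j + 3 := ⟨d - 3, by omega⟩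
  have : ((-1 : ℤ) ^ j) ^ 2 = 1 := by rw [← pow_mul, mul_comm, pow_mul]; simp
  rw [show j + 3 - 1 = j + 2 by omega, show j + 3 - 2 = j + 1 by omega, show j + 3 - 3 = j by omega,
    show 2 * (j + 3) - 3 = 2 * j + 3 by omega]
  simp only [aa]
  linear_combination ((q : ℤ) ^ 2 - 1) * this

theorem Od.pow_iff (h : Od q r e) : (-(q : ZMod r)) ^ i = 1 ↔ e ∣ i := by
  rw [← h.2, orderOf_dvd_iff_pow_eq_one]

theorem Od.dvd_aa (h : Od q r e) : (r : ℤ) ∣ aa q i ↔ e ∣ i := by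
  rw [← h.pow_iff, ← ZMod.intCast_zmod_eq_zero_iff_dvd, aa_eq]
  push_cast
  rw [(isUnit_neg_one.pow i).mul_right_eq_zero, sub_eq_zero]

theorem Od.not_dvd (h : Od q r e) (he : 1 ≤ e) : ¬ r ∣ q := fun h1 => by
  have := Fact.mk h.1
  have h2 := (h.pow_iff (i := e)).2 dvd_rfl
  rw [(ZMod.natCast_eq_zero_iff q r).2 h1, neg_zero, zero_pow (by omega)] at h2
  exact zero_ne_one h2

theorem Od.not_dvd_sq (h : Od q r e) (he : 3 ≤ e) : ¬ (r : ℤ) ∣ (q : ℤ) ^ 2 - 1 := fun h1 => by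
  rw [← aa_even even_two, h.dvd_aa] at h1
  have := Nat.le_of_dvd two_pos h1
  omega

theorem Od.lt (h : Od q r e) (he : 1 ≤ e) : e ∣ r - 1 ∧ e < r := by
  have := Fact.mk h.1
  have h1 : e ∣ r - 1 := h.pow_iff.1 (ZMod.pow_card_sub_one_eq_one (by
    rw [neg_ne_zero, Ne, ZMod.natCast_eq_zero_iff]; exact h.not_dvd he))
  have := h.1.two_le
  exact ⟨h1, by have := Nat.le_of_dvd (by omega) h1; omega⟩

theorem Od.dvd_Np (h : Od q r e) (he : 3 ≤ e) (hd : 1 ≤ d) : (r : ℤ) ∣ Np q d ↔ e ∣ d ∨ e ∣ d - 1 := by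
  have hp := Nat.prime_iff_prime_int.1 h.1
  rw [← h.dvd_aa, ← h.dvd_aa, ← hp.dvd_mul, ← Np_mul hd, hp.dvd_mul]
  simp [h.not_dvd_sq he]

end num

section geo
variable {F : Type u} [Field F] [Fintype F] {q : ℕ} {hF : Fintype.card F = q ^ 2}
  {V : Type u} [AddCommGroup V] [Module F V] [Fintype V] {C : CForm (hermT hF) V}
  {x y z v w s a b : V} {c d : F}

theorem fr_apply (a : F) : frob hF a = a ^ q := rfl
@[simp] theorem ff (a : F) : frob hF (frob hF a) = a := H11.frob_frob hF a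
@[simp] theorem hs_eq (a : F) : (hermT hF).σ a = frob hF a := rfl
theorem fr_ne (h : c ≠ 0) : frob hF c ≠ 0 := (map_ne_zero _).2 h
@[simp high] theorem Bl (c : F) (x y : V) : C.B (c • x) y = frob hF c * C.B x y := C.B_smul_left c x y
theorem Bs (x y : V) : frob hF (C.B x y) = C.B y x := (H11.herm_symm C x y).symm
theorem Bsw (h : C.B x y = 0) : C.B y x = 0 := C.B_swap_zero h
theorem Bone (h : C.B x y = 1) : C.B y x = 1 := by rw [← Bs, h, map_one]
theorem N_eq (v : V) : C.N v = C.B v v := (H11.herm_B_self C v).symm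
theorem ex_nrm (h : frob hF c = c) : ∃ a, a * frob hF a = c := H11.exists_norm_eq hF h
theorem ex_trc (h : frob hF c = c) : ∃ a, a + frob hF a = c :=
  exists_trace_eq (H11.frob_ne_id hF) (H11.frob_frob hF) h
theorem ex_th : ∃ a : F, a ≠ 0 ∧ a + frob hF a = 0 := H11.exists_trace_zero hF
theorem ex_nf : ∃ a : F, frob hF a ≠ a := by
  by_contra h; push Not at h; exact H11.frob_ne_id hF (RingHom.ext h)
theorem ncard_fix : {a : F | frob hF a = a}.ncard = q := by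
  rw [← Nat.card_coe_set_eq]; exact H11.card_fixed hF
theorem ncard_trc (h : frob hF c = c) : {a : F | a + frob hF a = c}.ncard = q := by
  obtain ⟨a0, h0⟩ := ex_trc h
  obtain ⟨t, t0, ht⟩ := ex_th (hF := hF)
  refine Eq.trans ?_ (ncard_fix (hF := hF))
  refine (Set.ncard_congr (fun b _ => a0 + b * t) (fun b hb => ?_) (fun b b' _ _ e => ?_)
    fun a ha => ⟨(a - a0) / t, ?_, by field_simp; ring⟩).symm
  · simp only [Set.mem_setOf_eq, map_add, map_mul] at hb ⊢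
    rw [hb]; linear_combination h0 + b * ht
  · exact mul_right_cancel₀ t0 (add_left_cancel e)
  · simp only [Set.mem_setOf_eq, map_div₀, map_sub] at ha ⊢
    rw [div_eq_div_iff (fr_ne t0) t0]
    linear_combination t * ha - t * h0 - (a - a0) * ht
theorem ncard_nrm (h : frob hF c = c) (h0 : c ≠ 0) : {a : F | a * frob hF a = c}.ncard = q + 1 := by
  rw [← Nat.card_coe_set_eq]; exact H11.card_norm_eq hF h h0
/-- an element of `F_q` other than `0, 1` -/
theorem ex_three (hq : 3 ≤ q) : ∃ c : F, frob hF c = c ∧ c ≠ 0 ∧ c ≠ 1 := by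
  by_contra h; push Not at h
  have := Set.ncard_le_ncard (show {a : F | frob hF a = a} ⊆ {0, 1} from fun a ha => by
    by_cases h0 : a = 0
    · exact Or.inl h0
    · exact Or.inr (h a ha h0))
  have h2 := Set.ncard_pair (zero_ne_one (α := F))
  rw [ncard_fix] at this; omega
theorem ex_char (hF : Fintype.card F = q ^ 2) : ∃ p k : ℕ, p.Prime ∧ CharP F p ∧ 0 < k ∧ q = p ^ k :=
  H11.exists_prime_pow_of_card_sq hF

theorem mem_pp_sp : v ∈ C.perp (F ∙ x) ↔ C.B x v = 0 := C.mem_perp_singleton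
theorem mem_pp_ln : v ∈ C.perp (ln F x y) ↔ C.B x v = 0 ∧ C.B y v = 0 := C.mem_perp_pair
theorem ind_of_ne (hx : C.B x x = 0) (h : C.B x y ≠ 0) : Ind F x y :=
  ⟨fun e => h (by simp [e]), fun e => by
    obtain ⟨c, rfl⟩ := Submodule.mem_span_singleton.1 e
    exact h (by simp [hx])⟩

theorem Is.sml (h : Is C v) (hc : c ≠ 0) : Is C (c • v) :=
  ⟨smul_ne_zero hc h.1, by simp [Bl, h.2]⟩
theorem is_sml (hc : c ≠ 0) : Is C (c • v) ↔ Is C v :=
  ⟨fun h => by simpa [hc] using h.sml (inv_ne_zero hc), fun h => h.sml hc⟩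
theorem Is.of_mem (h : Is C x) (hv : v ∈ F ∙ x) (h0 : v ≠ 0) : Is C v := by
  obtain ⟨c, rfl⟩ := Submodule.mem_span_singleton.1 hv
  exact h.sml fun e => h0 (by simp [e])
theorem Fl.ind (h : Fl C x y) : Ind F x y := ⟨h.1.1, h.2.2.2⟩
theorem Fl.isr (h : Fl C x y) : Is C y := ⟨h.ind.ne0, h.2.1⟩
theorem Fl.symm (h : Fl C x y) : Fl C y x := ⟨h.isr, h.1.2, Bsw h.2.2.1, h.ind.symm.2⟩
theorem Fl.iso (h : Fl C x y) (hu : v ∈ ln F x y) (hw : w ∈ ln F x y) : C.B v w = 0 := by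
  obtain ⟨a, b, rfl⟩ := mem_ln.1 hu
  obtain ⟨c, d, rfl⟩ := mem_ln.1 hw
  simp [h.1.2, h.2.1, h.2.2.1, Bsw h.2.2.1]
theorem Fl.tr (h : Fl C x y) {a b : F} (c : F) (ha : a ≠ 0) (hb : b ≠ 0) :
    Fl C (a • x) (b • y + c • x) := by
  refine ⟨h.1.sml ha, by simp [h.1.2, h.2.1, h.2.2.1, Bsw h.2.2.1], by simp [h.1.2, h.2.2.1],
    fun e => h.2.2.2 ?_⟩
  obtain ⟨d, hd⟩ := Submodule.mem_span_singleton.1 e
  refine Submodule.mem_span_singleton.2 ⟨(d * a - c) / b, smul_right_injective V hb ?_⟩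
  simp only [smul_smul]
  rw [mul_div_cancel₀ _ hb, sub_smul, mul_smul, hd]; abel
theorem fl_tr {a b : F} (c : F) (ha : a ≠ 0) (hb : b ≠ 0) :
    Fl C (a • x) (b • y + c • x) ↔ Fl C x y := by
  refine ⟨fun h => ?_, fun h => h.tr c ha hb⟩
  have := h.tr (-c / (a * b)) (inv_ne_zero ha) (inv_ne_zero hb)
  convert this using 1
  · simp [ha]
  · simp only [smul_add, smul_smul, inv_mul_cancel₀ hb, one_smul, add_assoc, ← add_smul]
    rw [show b⁻¹ * c + -c / (a * b) * a = 0 by field_simp; ring, zero_smul, add_zero]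
theorem Fl.add (h : Fl C x y) (c : F) : Fl C x (y + c • x) := by
  simpa using h.tr c one_ne_zero one_ne_zero
theorem Fl.of_mem (h : Fl C x y) (hv : v ∈ ln F x y) (hw : w ∈ ln F x y) (hi : Ind F v w) : Fl C v w :=
  ⟨⟨hi.1, h.iso hv hv⟩, h.iso hw hw, h.iso hv hw, hi.2⟩

/-- an isotropic vector in every subspace of dimension at least two -/
theorem ex_is {U : Submodule F V} (h : 2 ≤ finrank F U) : ∃ v ∈ U, Is C v := by
  obtain ⟨v, h1, h2, h3⟩ := herm_exists_iso (fun a => ex_nrm) C h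
  exact ⟨v, h1, h2, N_eq (C := C) v ▸ h3⟩
theorem ex_is_off (U Z : Submodule F V) (h : finrank F Z + 2 ≤ finrank F U) :
    ∃ v ∈ U, v ∉ Z ∧ C.B v v = 0 := by
  obtain ⟨Y, h1, h2, h3, -⟩ := exists_le_disjoint U Z
  have := Submodule.finrank_mono (inf_le_right : U ⊓ Z ≤ Z)
  obtain ⟨v, h4, h5⟩ := ex_is (C := C) (U := Y) (by omega)
  exact ⟨v, h1 h4, fun e => h5.1 ((Submodule.disjoint_def.1 h2) v h4 e), h5.2⟩
theorem ex_nrmv {U : Submodule F V} (hU : C.NondegOn U) (h0 : U ≠ ⊥) (h : frob hF c = c) (hc : c ≠ 0) :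
    ∃ v ∈ U, C.B v v = c := by
  obtain ⟨v, h1, h2⟩ := herm_exists_nonisotropic (H11.frob_ne_id hF) hU h0
  rw [N_eq] at h2
  obtain ⟨a, ha⟩ := ex_nrm (hF := hF) (c := c / C.B v v) (by rw [map_div₀, h, Bs])
  refine ⟨a • v, U.smul_mem _ h1, ?_⟩
  rw [Bl, map_smul, smul_eq_mul, ← mul_assoc, mul_comm _ a, ha, div_mul_cancel₀ _ h2]

open Classical in
theorem ncard_nrm_on {U : Submodule F V} (hU : C.NondegOn U) (h : frob hF c = c) :
    (q : ℤ) * {v | v ∈ U ∧ C.B v v = c}.ncard = q ^ (2 * finrank F U) +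
      (-q) ^ finrank F U * ((if c = 0 then (q : ℤ) else 0) - 1) := by
  have h1 := H11.cnt_herm (finrank F U) ((C.restrict_nondeg_iff).2 hU) rfl c h
  have h2 : H11.cnt (C.restrict U) c = {v | v ∈ U ∧ C.B v v = c}.ncard := by
    rw [← Nat.card_coe_set_eq]
    exact Nat.card_congr ⟨fun v => ⟨v.1, v.1.2, (N_eq v.1.1).symm.trans v.2⟩,
      fun v => ⟨⟨v.1, v.2.1⟩, (N_eq v.1).trans v.2.2⟩, fun _ => rfl, fun _ => rfl⟩
  rw [← h2, h1, neg_pow (q : ℤ)]; split_ifs <;> ring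

/-- the number of nonzero isotropic vectors of a nondegenerate subspace -/
theorem ncard_is_on {U : Submodule F V} (hU : C.NondegOn U) (h : 1 ≤ finrank F U) :
    ({v | v ∈ U ∧ Is C v}.ncard : ℤ) = aa q (finrank F U) * aa q (finrank F U - 1) := by
  have h1 := ncard_nrm_on hU (map_zero _)
  have h2 : {v | v ∈ U ∧ C.B v v = 0} = insert 0 {v | v ∈ U ∧ Is C v} := by
    ext v; by_cases h0 : v = 0 <;> simp [h0, Is]
  rw [h2, Set.ncard_insert_of_notMem (by simp [Is]), if_pos rfl] at h1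
  have hq : (q : ℤ) ≠ 0 := by have := H11.two_le_of_card_sq hF; omega
  obtain ⟨j, hj⟩ : ∃ j, finrank F U = j + 1 := ⟨finrank F U - 1, by omega⟩
  rw [hj] at h1 ⊢
  refine mul_left_cancel₀ hq ?_
  have : ((-1 : ℤ) ^ j) ^ 2 = 1 := by rw [← pow_mul, mul_comm, pow_mul]; simp
  simp only [aa, Nat.add_sub_cancel]
  rw [neg_pow (q : ℤ)] at h1
  push_cast at h1
  linear_combination h1 + q * this

/-- the number of vectors of norm `c ≠ 0` of a nondegenerate subspace -/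
theorem ncard_ne_on {U : Submodule F V} (hU : C.NondegOn U) (h1 : 1 ≤ finrank F U)
    (h : frob hF c = c) (hc : c ≠ 0) :
    ({v | v ∈ U ∧ C.B v v = c}.ncard : ℤ) = q ^ (finrank F U - 1) * aa q (finrank F U) := by
  have h2 := ncard_nrm_on hU h
  have hq : (q : ℤ) ≠ 0 := by have := H11.two_le_of_card_sq hF; omega
  obtain ⟨j, hj⟩ : ∃ j, finrank F U = j + 1 := ⟨finrank F U - 1, by omega⟩
  rw [hj, if_neg hc, neg_pow (q : ℤ)] at h2
  rw [hj]
  refine mul_left_cancel₀ hq ?_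
  simp only [aa, Nat.add_sub_cancel]
  linear_combination h2

/-- every subspace of dimension at least two has `≡ 0 mod q` isotropic vectors -/
theorem iso_dvd {U : Submodule F V} (h : 2 ≤ finrank F U) :
    q ∣ {v | v ∈ U ∧ C.B v v = 0}.ncard := by
  by_cases hU : C.NondegOn U
  · have h1 := ncard_nrm_on hU (map_zero _)
    have hq : (q : ℤ) ≠ 0 := by have := H11.two_le_of_card_sq hF; omega
    obtain ⟨j, hj⟩ : ∃ j, finrank F U = j + 2 := ⟨finrank F U - 2, by omega⟩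
    rw [hj, if_pos rfl] at h1
    refine Int.natCast_dvd_natCast.1 ⟨q ^ (2 * j + 2) + (-q) ^ j * (q - 1), mul_left_cancel₀ hq ?_⟩
    rw [h1]; ring
  · rw [C.nondegOn_iff, Submodule.disjoint_def] at hU
    push Not at hU
    obtain ⟨ρ, h1, h2, h3⟩ := hU
    obtain ⟨f, hf⟩ := ex_dual1 (F := F) h3
    have hp : ∀ v ∈ U, ∀ c : F, C.B (v + c • ρ) (v + c • ρ) = C.B v v := fun v hv c => by
      simp [C.mem_perp.1 h2 v hv, C.mem_perp'.1 h2 v hv, C.mem_perp.1 h2 ρ h1]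
    have : {v | v ∈ U ∧ C.B v v = 0}.ncard =
        ((Set.univ : Set F) ×ˢ {v | (v ∈ U ∧ C.B v v = 0) ∧ f v = 0}).ncard := by
      refine (Set.ncard_congr (fun a _ => a.2 + a.1 • ρ) (fun a ha => ?_) (fun a b ha hb e => ?_)
        fun v hv => ⟨(f v, v + (-f v) • ρ), Set.mk_mem_prod (Set.mem_univ _) (show _ ∧ _ from ⟨ ⟨U.add_mem hv.1 (U.smul_mem _ h1),
          (hp v hv.1 _).trans hv.2⟩, by simp [hf]⟩), by simp⟩).symm
      · exact ⟨U.add_mem ha.2.1.1 (U.smul_mem _ h1), (hp _ ha.2.1.1 _).trans ha.2.1.2⟩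
      · have e1 := congrArg f e
        simp only [map_add, map_smul, hf, ha.2.2, hb.2.2, smul_eq_mul, mul_one, zero_add] at e1
        exact Prod.ext e1 (by simpa [e1] using e)
    rw [this, Set.ncard_prod, Set.ncard_univ, Nat.card_eq_fintype_card, hF]
    exact Dvd.dvd.mul_right (dvd_pow_self q two_ne_zero) _

theorem nd_ln (ha : C.B a a = 0) (hb : C.B b b = 0) (h : C.B a b ≠ 0) : C.NondegOn (ln F a b) := by
  rw [C.nondegOn_iff, Submodule.disjoint_def]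
  intro v hv hp
  obtain ⟨c, d, rfl⟩ := mem_ln.1 hv
  have h1 := mem_pp_ln.1 hp
  simp only [map_add, map_smul, ha, hb, smul_eq_mul, mul_zero, zero_add, add_zero, mul_eq_zero, h,
    C.B_swap_ne h, or_false] at h1
  simp [h1.1, h1.2]

/-- projection away from a hyperbolic line -/
theorem dec (ha : C.B a a = 0) (hb : C.B b b = 0) (h : C.B a b ≠ 0) (u : V) :
    C.B a (u - (C.B b u / C.B b a) • a - (C.B a u / C.B a b) • b) = 0 ∧
    C.B b (u - (C.B b u / C.B b a) • a - (C.B a u / C.B a b) • b) = 0 := by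
  simp [ha, hb, h, C.B_swap_ne h]

section nd
variable (nd : C.Nondeg)
include nd

theorem fr_pp (W : Submodule F V) : finrank F W + finrank F (C.perp W) = finrank F V :=
  nd.finrank_add_finrank_perp W
theorem fr_pp_sp (hx : x ≠ 0) : finrank F (C.perp (F ∙ x)) + 1 = finrank F V := by
  have := fr_pp nd (F ∙ x); rw [finrank_span_singleton hx] at this; omega
theorem fr_pp_ln (h : Ind F x y) : finrank F (C.perp (ln F x y)) + 2 = finrank F V := by
  have := fr_pp nd (ln F x y); rw [h.finrank] at this; omega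
/-- an isotropic partner perpendicular to `Z` -/
theorem ex_par' {Z : Submodule F V} (hZ : x ∉ Z) (hx : C.B x x = 0) (hp : x ∈ C.perp Z) :
    ∃ y ∈ C.perp Z, Is C y ∧ C.B y x = 1 := by
  obtain ⟨y, h1, h2, h3⟩ := nd.exists_partner hZ (N_eq (C := C) x ▸ hx) hp
  exact ⟨y, h1, ⟨fun e => by simp [e] at h3, N_eq (C := C) y ▸ h2⟩, Bone h3⟩
theorem ex_par (hx : Is C x) : ∃ y, Is C y ∧ C.B y x = 1 := by
  obtain ⟨y, -, h⟩ := ex_par' nd (Z := ⊥) hx.1 hx.2 (by simp [C.mem_perp])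
  exact ⟨y, h⟩
/-- a line through `x` opposite to `ln x y` -/
theorem Fl.ex_opp (h : Fl C x y) : ∃ y', Fl C x y' ∧ C.B y' y = 1 := by
  obtain ⟨y', h1, h2, h3⟩ := ex_par' nd h.2.2.2 h.2.1 (mem_pp_sp.2 h.2.2.1)
  refine ⟨y', ⟨h.1, h2.2, mem_pp_sp.1 h1, fun e => ?_⟩, h3⟩
  obtain ⟨c, rfl⟩ := Submodule.mem_span_singleton.1 e
  simp [h.2.2.1] at h3
theorem nd_pp_ln (ha : C.B a a = 0) (hb : C.B b b = 0) (h : C.B a b ≠ 0) :
    C.NondegOn (C.perp (ln F a b)) := nd.nondegOn_perp (nd_ln ha hb h)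
theorem ex_fl (h4 : 4 ≤ finrank F V) (hx : Is C x) : ∃ y, Fl C x y := by
  have := fr_pp_sp nd hx.1
  obtain ⟨y, h1, h2, h3⟩ := ex_is_off (C := C) (C.perp (F ∙ x)) (F ∙ x)
    (by rw [finrank_span_singleton hx.1]; omega)
  exact ⟨y, hx, h3, mem_pp_sp.1 h1, h2⟩
theorem ncard_is (h : 1 ≤ finrank F V) :
    ({v | Is C v}.ncard : ℤ) = aa q (finrank F V) * aa q (finrank F V - 1) := by
  have := ncard_is_on (C.nondegOn_top.2 nd) (by rwa [finrank_top])
  simpa [finrank_top] using this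
/-- a nondegenerate subspace of dimension at least two is spanned by its isotropic vectors -/
theorem perp_is {U : Submodule F V} (hU : C.NondegOn U) (h : 2 ≤ finrank F U) (hv : v ∈ U)
    (h0 : ∀ y ∈ U, Is C y → C.B y v = 0) : v = 0 := by
  obtain ⟨x, hx, ix⟩ := ex_is (C := C) h
  have hxp : x ∉ C.perp U := fun e => ix.1 (Submodule.disjoint_def.1 (C.nondegOn_iff.1 hU) x hx e)
  obtain ⟨x', h1, h2, h3⟩ := ex_par' nd hxp ix.2 (C.le_perp_perp U hx)
  rw [nd.perp_perp] at h1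
  have e1 := h0 x hx ix
  have e2 := h0 x' h1 h2
  by_contra hv0
  obtain ⟨z, hz, e⟩ := hU.exists_eq hv hv0 1
  obtain ⟨d1, d2⟩ := dec h2.2 ix.2 (h3 ▸ one_ne_zero) z
  set w := z - (C.B x z / C.B x x') • x' - (C.B x' z / C.B x' x) • x with hw
  obtain ⟨c, hc⟩ := ex_trc (hF := hF) (c := -C.B w w) (by rw [map_neg, Bs])
  have i : Is C (x' + c • x + w) := ⟨fun e => by simpa [Bone h3, ix.2, d2] using congrArg (C.B x) e, by
    simp only [map_add, map_smulₛₗ, LinearMap.add_apply, LinearMap.smul_apply, h3, Bone h3, ix.2, h2.2,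
      d1, d2, Bsw d1, Bsw d2, hs_eq, smul_eq_mul, RingHom.id_apply]
    linear_combination hc⟩
  have := Bsw (h0 _ (U.add_mem (U.add_mem h1 (U.smul_mem _ hx)) (U.sub_mem (U.sub_mem hz
    (U.smul_mem _ h1)) (U.smul_mem _ hx))) i)
  simp [hw, Bsw e1, Bsw e2, e] at this

end nd
end geo
end H0.RU
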