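import Cfsg.Agent.H0.RU1
import Cfsg.Agent.H11.SUBasic

/-! S2196: basic API, part 2 (the group). -/

set_option autoImplicit false
set_option linter.unusedSectionVars false
set_option linter.unusedVariables false

open Module MulAction H13.R3 H12
open H11 (hermT frob)
open H11.RS (PO)

namespace H0.RU

universe u

attribute [-simp] H11.frob_apply

variable {F : Type u} [Field F] [Fintype F] {q : ℕ} {hF : Fintype.card F = q ^ 2}
  {V : Type u} [AddCommGroup V] [Module F V] [Fintype V] {C : CForm (hermT hF) V}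
  {G : Type u} [Group G] [Fintype G] [DistribMulAction G V] [SMulCommClass G F V] {H : Subgroup G}
  {x y z v w s s' a b : V} {c c' d : F} {g g' h k t : G}

theorem gsub (g : G) (u v : V) : g • (u - v) = g • u - g • v := smul_sub g u v

theorem mem_TS : t ∈ TS C G ↔ ∃ v a, Is C v ∧ a ≠ 0 ∧ Tr C t v a := by simp [TS]

theorem Tr.sml : Tr C g (d • v) c ↔ Tr C g v (c * (d * frob hF d)) :=
  forall_congr' fun w => by rw [Bl, smul_smul]; ring_nf
theorem Tr.fix (h : Tr C g v c) (hw : C.B v w = 0) : g • w = w := by rw [h, hw]; simp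
theorem Uu.fix (h : Uu C g x s c) (h1 : C.B x w = 0) (h2 : C.B s w = 0) : g • w = w := by
  rw [h, h1, h2]; simp
theorem Uu.sml : Uu C g (d • x) s c ↔ Uu C g x (frob hF d • s) (d * frob hF d * c) :=
  forall_congr' fun w => by
    simp only [Bl, smul_smul, ff]; ring_nf
theorem Uu.shift : Uu C g x (s + d • x) c ↔ Uu C g x s (c - d + frob hF d) :=
  forall_congr' fun w => by
    rw [iff_iff_eq]; congr 1
    simp only [map_add, LinearMap.add_apply, Bl]; module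
theorem Uu.tr : Uu C g x 0 c ↔ Tr C g x (-c) := forall_congr' fun w => by
  simp [sub_eq_add_neg]
theorem Uu.symm (h : Uu C g x s 0) : Uu C g s (-x) 0 := fun w => by
  rw [h]; simp; abel
theorem Iv.symm (h : Iv C g a b) : Iv C g b a :=
  ⟨h.2.1, h.1, C.B_swap_ne h.2.2.1, h.2.2.2.2.1, h.2.2.2.1, fun w h1 h2 => h.2.2.2.2.2 w h2 h1⟩
theorem Iv.apply (hg : Iv C g a b) (u : V) :
    g • u = u - (2 * C.B b u / C.B b a) • a - (2 * C.B a u / C.B a b) • b := by
  obtain ⟨d1, d2⟩ := dec hg.1 hg.2.1 hg.2.2.1 u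
  have := hg.2.2.2.2.2 _ d1 d2
  rw [gsub, gsub, gsc, gsc, hg.2.2.2.1, hg.2.2.2.2.1] at this
  rw [mul_div_assoc, mul_div_assoc]
  generalize g • u = gu at this ⊢
  linear_combination (norm := module) this
theorem Iv.neg (hg : Iv C g a b) (hu : w ∈ ln F a b) : g • w = -w := by
  obtain ⟨c, d, rfl⟩ := mem_ln.1 hu
  rw [smul_add, gsc, gsc, hg.2.2.2.1, hg.2.2.2.2.1]; module
theorem Iv.fix (hg : Iv C g a b) (hu : w ∈ C.perp (ln F a b)) : g • w = w :=
  hg.2.2.2.2.2 w (mem_pp_ln.1 hu).1 (mem_pp_ln.1 hu).2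
theorem Iv.of (hg : Iv C g a b) {a' b' : V} (ha : a' ∈ ln F a b) (hb : b' ∈ ln F a b)
    (h1 : C.B a' a' = 0) (h2 : C.B b' b' = 0) (h : C.B a' b' ≠ 0) : Iv C g a' b' :=
  ⟨h1, h2, h, hg.neg ha, hg.neg hb, fun w e1 e2 => hg.fix (by
    rw [← ln_eq (ind_of_ne h1 h) ha hb]; exact mem_pp_ln.2 ⟨e1, e2⟩)⟩
/-- every isotropic vector of an `Iv` line can be the first vector -/
theorem Iv.at (hg : Iv C g a b) (hv : v ∈ ln F a b) (iv : Is C v) :
    ∃ b', Iv C g v b' ∧ C.B b' v = 1 ∧ ln F v b' = ln F a b := by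
  have key : ∀ {a b : V}, Iv C g a b → v ∈ ln F a b → C.B b v ≠ 0 →
      ∃ b', Iv C g v b' ∧ C.B b' v = 1 ∧ ln F v b' = ln F a b := fun {a b} hg hv n => by
    have e : C.B ((frob hF (C.B b v))⁻¹ • b) v = 1 := by simp [n]
    have m : (frob hF (C.B b v))⁻¹ • b ∈ ln F a b := Submodule.smul_mem _ _ r_ln
    have e' := (Bone e).symm ▸ (one_ne_zero (α := F))
    exact ⟨_, hg.of hv m iv.2 (by simp [hg.2.1]) e', e, ln_eq (ind_of_ne iv.2 e') hv m⟩
  by_cases n : C.B b v = 0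
  · rw [ln_comm] at hv ⊢
    refine key hg.symm hv fun e => iv.1 ?_
    exact Submodule.disjoint_def.1 (C.nondegOn_iff.1 (nd_ln hg.2.1 hg.1 hg.symm.2.2.1)) v hv
      (mem_pp_ln.2 ⟨n, e⟩)
  · exact key hg hv n

theorem mem_Ob : v ∈ Ob F H z ↔ v ≠ 0 ∧ PO F H z v := Iff.rfl
theorem PO.sml (h : PO F H v w) (hc : c ≠ 0) : PO F H v (c • w) :=
  h.trans (H11.RS.PO.of_mem (Submodule.mem_span_singleton.2 ⟨c⁻¹, by simp [hc]⟩))
theorem po_sml (hc : c ≠ 0) : PO F H v (c • w) ↔ PO F H v w :=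
  ⟨fun h => by simpa [hc] using PO.sml h (inv_ne_zero hc), fun h => PO.sml h hc⟩
theorem po_smul (hh : h ∈ H) : PO F H v (h • w) ↔ PO F H v w :=
  ⟨fun e => by simpa using e.trans (H11.RS.PO.smul (H.inv_mem hh) _),
    fun e => e.trans (H11.RS.PO.smul hh w)⟩
theorem Fq.refl (a : V × V) : Fq F H a a :=
  ⟨1, H.one_mem, by simp, by simpa using r_ln⟩
theorem Fq.trans {a b c : V × V} (h : Fq F H a b) (h' : Fq F H b c) : Fq F H a c := by
  obtain ⟨g, hg, h1, h2⟩ := h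
  obtain ⟨k, hk, h3, h4⟩ := h'
  refine ⟨k * g, H.mul_mem hk hg, ?_, ?_⟩ <;> rw [mul_smul]
  · exact (Submodule.span_singleton_le_iff_mem _ _).2 h3 (smul_mem_sp k h1)
  · exact ln_le.2 ⟨sp_le_ln h3, h4⟩ (smul_mem_ln k h2)
theorem Fq.symm {a b : V × V} (h : Fq F H a b) (ha : Ind F a.1 a.2) : Fq F H b a := by
  obtain ⟨g, hg, h1, h2⟩ := h
  refine ⟨g⁻¹, H.inv_mem hg, ?_, ?_⟩
  · rw [← smul_mem_sp_iff (g := g), smul_inv_smul, sp_eq (ha.smul g).1 h1]
    exact Submodule.mem_span_singleton_self _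
  · rw [← smul_mem_ln_iff (g := g), smul_inv_smul, ln_eq (ha.smul g) (sp_le_ln h1) h2]
    exact r_ln
theorem Fq.po {a b : V × V} (h : Fq F H a b) : PO F H a.1 b.1 := let ⟨g, hg, h1, _⟩ := h; ⟨g, hg, h1⟩
theorem Fq.smul (hh : h ∈ H) (a : V × V) : Fq F H a (h • a) :=
  ⟨h, hh, Submodule.mem_span_singleton_self _, r_ln⟩
theorem Fq.of_mem {a b : V × V} (h1 : a.1 ∈ F ∙ b.1) (h2 : a.2 ∈ ln F b.1 b.2) : Fq F H a b :=
  ⟨1, H.one_mem, by simpa, by simpa⟩

theorem sx_sml : s ∈ Sx C H (d • x) ↔ frob hF d • s ∈ Sx C H x := by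
  simp only [Sx, Set.mem_setOf_eq, Bl, map_smul, smul_eq_mul, Uu.sml]
  refine and_congr_right fun _ => ⟨fun ⟨g, h1, c, h2⟩ => ⟨g, h1, _, h2⟩, fun ⟨g, h1, c, h2⟩ => ?_⟩
  by_cases hd : d = 0
  · exact ⟨1, H.one_mem, 0, fun w => by simp [hd]⟩
  · exact ⟨g, h1, c / (d * frob hF d), by rwa [mul_div_cancel₀ _ (mul_ne_zero hd (fr_ne hd))]⟩
theorem sx_sp (hx : C.B x x = 0) (h : s ∈ F ∙ x) : s ∈ Sx C H x := by
  obtain ⟨c, rfl⟩ := Submodule.mem_span_singleton.1 h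
  exact ⟨by simp [hx], 1, H.one_mem, c - frob hF c, fun w => by simp only [Bl, one_smul]; module⟩
theorem av_sml : c ∈ Av C H (d • v) ↔ c * (d * frob hF d) ∈ Av C H v := by
  simp only [Av, Set.mem_setOf_eq, Tr.sml]

namespace Un
variable (un : Un C G)
include un

theorem ext (h1 : ∀ v : V, g • v = h • v) : g = h :=
  inv_mul_eq_one.1 (un.fa _ fun v => by rw [mul_smul, ← h1, inv_smul_smul])
theorem iso_l (g : G) (u v : V) : C.B (g • u) v = C.B u (g⁻¹ • v) := by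
  rw [← un.iso g u, smul_inv_smul]
theorem iso_r (g : G) (u v : V) : C.B u (g • v) = C.B (g⁻¹ • u) v := by
  rw [← un.iso g _ v, smul_inv_smul]
theorem is_smul : Is C (g • v) ↔ Is C v := by simp only [Is, un.iso, Ne, gsz]
theorem fl_smul : Fl C (g • x) (g • y) ↔ Fl C x y := by
  simp only [Fl, un.is_smul, un.iso, smul_mem_sp_iff]
theorem is_po (hv : Is C v) (h : PO F H v w) (hw : w ≠ 0) : Is C w := by
  obtain ⟨k, -, c, hc, e⟩ := h.ex hv.1
  exact (is_sml hc).1 (e ▸ un.is_smul.2 hv)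
theorem is_ob (hz : Is C z) (h : v ∈ Ob F H z) : Is C v := un.is_po hz h.2 h.1
theorem st_pp {W : Submodule F V} (h : g ∈ St G W) : g ∈ St G (C.perp W) :=
  mem_St_of fun u hu => C.mem_perp.2 fun w hw => by
    rw [un.iso_r]; exact C.mem_perp.1 hu _ (((St G W).inv_mem h w).2 hw)
theorem lin_mem (g : G) : lin F V g ∈ C.isom :=
  C.mem_isom.2 ⟨un.iso g, fun x => by rw [N_eq, N_eq]; exact un.iso g x x⟩
theorem of_lin (φ : V →ₗ[F] V) (h1 : ∀ u v, C.B (φ u) (φ v) = C.B u v) (h2 : LinearMap.det φ = 1) :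
    ∃ g : G, ∀ v, g • v = φ v := by
  obtain ⟨e, he, h3⟩ := un.nd.exists_isom φ ⟨h1, fun x => by rw [N_eq, N_eq]; exact h1 x x⟩
  obtain ⟨g, hg⟩ := un.full e he (by rw [← h2]; congr 1; exact LinearMap.ext h3)
  exact ⟨g, fun v => (hg v).trans (h3 v)⟩
/-- correct the determinant by a quasi-reflection -/
theorem of_isom {σ : V ≃ₗ[F] V} (hσ : σ ∈ C.isom) (hw : C.B w w ≠ 0) :
    ∃ g : G, ∀ v, C.B w v = 0 → g • v = σ v := by
  have hd : (LinearMap.det (σ : V →ₗ[F] V))⁻¹ * frob hF (LinearMap.det (σ : V →ₗ[F] V))⁻¹ = 1 := by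
    have := H11.herm_det_norm un.nd ⟨σ, hσ⟩
    rw [map_inv₀, ← mul_inv, inv_eq_one]; simpa [fr_apply] using this
  obtain ⟨s, h1, h2, -, h3⟩ := exists_qrefl_det (C := C) (v := w) (N_eq (C := C) w ▸ hw) hd
  obtain ⟨g, hg⟩ := un.full (σ * s) (C.isom.mul_mem hσ h1) (by
    rw [show ((σ * s : V ≃ₗ[F] V) : V →ₗ[F] V) = (σ : V →ₗ[F] V) * s from rfl, map_mul, h3,
      mul_inv_cancel₀ (LinearEquiv.isUnit_det' σ).ne_zero])
  exact ⟨g, fun v hv => by rw [hg, LinearEquiv.mul_apply, h2 v hv]⟩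
theorem ex_niso {U : Submodule F V} (h : 2 * finrank F U < finrank F V) :
    ∃ w ∈ C.perp U, C.B w w ≠ 0 := by
  obtain ⟨P, h1, h2, h3⟩ := un.nd.exists_nondegOn_perp U
  obtain ⟨w, h4, h5⟩ := ex_nrmv h2 (fun e => by rw [e, finrank_bot] at h3; omega) (map_one _) one_ne_zero
  exact ⟨w, h1 h4, h5 ▸ one_ne_zero⟩
/-- Witt's theorem in `SU`, given a non-isotropic vector perpendicular to the family -/
theorem witt' {ι : Type} {u v : ι → V} (hu : LinearIndependent F u) (hv : LinearIndependent F v)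
    (hB : ∀ i j, C.B (v i) (v j) = C.B (u i) (u j)) (hw : C.B w w ≠ 0) (h : ∀ i, C.B w (u i) = 0) :
    ∃ g : G, ∀ i, g • u i = v i := by
  obtain ⟨σ, h1, h2⟩ := un.nd.witt_family u v hu hv hB fun i => by rw [N_eq, N_eq, hB]
  obtain ⟨g, hg⟩ := un.of_isom h1 hw
  exact ⟨g, fun i => by rw [hg _ (h i), h2]⟩
theorem witt {ι : Type} [Fintype ι] {u v : ι → V} (hu : LinearIndependent F u)
    (hv : LinearIndependent F v) (hB : ∀ i j, C.B (v i) (v j) = C.B (u i) (u j))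
    (hd : 2 * Fintype.card ι < finrank F V) : ∃ g : G, ∀ i, g • u i = v i := by
  obtain ⟨w, h1, h2⟩ := un.ex_niso (U := Submodule.span F (Set.range u))
    (by rwa [finrank_span_eq_card hu])
  exact un.witt' hu hv hB h2 fun i => Bsw (C.mem_perp_span.1 h1 _ ⟨i, rfl⟩)
theorem witt1 (hv : v ≠ 0) (hw : w ≠ 0) (e : C.B w w = C.B v v) : ∃ g : G, g • v = w := by
  obtain ⟨g, hg⟩ := un.witt (u := ![v]) (v := ![w]) (by simpa) (by simpa)
    (fun i j => by fin_cases i; fin_cases j; exact e) (by have := un.n6; simp; omega)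
  exact ⟨g, hg 0⟩
theorem wis (hv : Is C v) (hw : Is C w) : ∃ g : G, g • v = w := un.witt1 hv.1 hw.1 (hw.2.trans hv.2.symm)
theorem witt2 {x' y' : V} (h : Ind F x y) (h' : Ind F x' y') (e1 : C.B x' x' = C.B x x)
    (e2 : C.B y' y' = C.B y y) (e : C.B x' y' = C.B x y) : ∃ g : G, g • x = x' ∧ g • y = y' := by
  obtain ⟨g, hg⟩ := un.witt h.li h'.li (fun i j => by
    fin_cases i <;> fin_cases j
    exacts [e1, e, by rw [← Bs, ← Bs (C := C) (![x, y] _)]; exact congrArg _ e, e2])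
    (by have := un.n6; simp; omega)
  exact ⟨g, hg 0, hg 1⟩

theorem det_one {n : V →ₗ[F] V} (h : n ^ 3 = 0) : LinearMap.det (1 + n) = 1 := by
  obtain ⟨p, k, hp, _, hk, e⟩ := ex_char hF
  have := Fact.mk hp
  have : Nontrivial V := Module.nontrivial_of_finrank_pos (R := F) (by have := un.n6; omega)
  have : CharP (Module.End F V) p := charP_of_injective_algebraMap (algebraMap F _).injective p
  have h1 : (1 + n) ^ Fintype.card F = 1 := by
    have h3 : 3 ≤ q ^ 2 := by have := un.q3; nlinarith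
    rw [hF, e, ← pow_mul, add_pow_char_pow_of_commute _ _ (Commute.one_left n), one_pow, pow_mul, ← e,
      pow_eq_zero_of_le h3 h, add_zero]
  rw [← FiniteField.pow_card (LinearMap.det (1 + n)), ← map_pow, h1, map_one]

theorem ex_uu (hx : C.B x x = 0) (h : C.B x s = 0) (hc : c + frob hF c = C.B s s) :
    ∃ g : G, Uu C g x s c := by
  let n : V →ₗ[F] V := (C.B x).smulRight s - (C.B s).smulRight x - c • (C.B x).smulRight x
  have hn : ∀ w, n w = C.B x w • s - C.B s w • x - (c * C.B x w) • x := fun w => by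
    simp [n, smul_smul]
  obtain ⟨g, hg⟩ := un.of_lin (1 + n) (fun u v => by
    simp only [LinearMap.add_apply, Module.End.one_apply, hn, map_add, map_sub, LinearMap.sub_apply, Bl,
      map_smul, smul_eq_mul, hx, h, Bsw h, map_mul, Bs, ← hc]
    ring) (un.det_one (LinearMap.ext fun w => by
      simp [pow_succ, hn, hx, h, Bsw h]))
  exact ⟨g, fun w => by rw [hg, LinearMap.add_apply, hn, Module.End.one_apply]; abel⟩
theorem ex_uu' (hx : C.B x x = 0) (h : C.B x s = 0) : ∃ (g : G) (c : F), Uu C g x s c := by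
  obtain ⟨c, hc⟩ := ex_trc (Bs (C := C) s s)
  obtain ⟨g, hg⟩ := un.ex_uu hx h hc
  exact ⟨g, c, hg⟩
theorem ex_tr (hv : C.B v v = 0) (hc : c + frob hF c = 0) : ∃ g : G, Tr C g v c := by
  obtain ⟨g, hg⟩ := un.ex_uu (s := 0) (c := -c) hv (by simp) (by simp; linear_combination -hc)
  exact ⟨g, by simpa using Uu.tr.1 hg⟩
theorem uu_trc (hg : Uu C g x s c) (hx : Is C x) (h : C.B x s = 0) : c + frob hF c = C.B s s := by
  obtain ⟨u, h1, h2⟩ := ex_par un.nd hx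
  have := un.iso g u u
  rw [hg] at this
  simp only [map_add, map_sub, LinearMap.add_apply, LinearMap.sub_apply, Bl, map_smul, smul_eq_mul,
    hx.2, h, Bsw h, h2, Bone h2, map_mul, Bs, map_one] at this
  linear_combination -this
theorem tr_trc (hg : Tr C g v c) (hv : Is C v) : c + frob hF c = 0 := by
  have := un.uu_trc (s := 0) (c := -c) (Uu.tr.2 (by simpa using hg)) hv (by simp)
  simp at this; linear_combination -this
theorem uu_conj (hg : Uu C g x s c) (k : G) : Uu C (k * g * k⁻¹) (k • x) (k • s) c := fun w => by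
  rw [mul_smul, mul_smul, hg, gsub, gsub, smul_add, gsc, gsc, gsc, smul_inv_smul, un.iso_l, un.iso_l]
theorem tr_conj (hg : Tr C g v c) (k : G) : Tr C (k * g * k⁻¹) (k • v) c := fun w => by
  rw [mul_smul, mul_smul, hg, smul_add, gsc, smul_inv_smul, un.iso_l]
theorem iv_conj (hg : Iv C g a b) (k : G) : Iv C (k * g * k⁻¹) (k • a) (k • b) := by
  obtain ⟨h1, h2, h3, h4, h5, h6⟩ := hg
  refine ⟨by rwa [un.iso], by rwa [un.iso], by rwa [un.iso], by simp [mul_smul, h4],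
    by simp [mul_smul, h5], fun w e1 e2 => ?_⟩
  rw [un.iso_l] at e1 e2
  rw [mul_smul, mul_smul, h6 _ e1 e2, smul_inv_smul]
theorem uu_unique (hg : Uu C g x s c) (hg' : Uu C g' x s c) : g = g' :=
  un.ext fun v => (hg v).trans (hg' v).symm
theorem tr_unique (hg : Tr C g v c) (hg' : Tr C g' v c) : g = g' :=
  un.ext fun v => (hg v).trans (hg' v).symm
theorem iv_unique (hg : Iv C g a b) (hg' : Iv C g' a b) : g = g' :=
  un.ext fun v => (hg.apply v).trans (hg'.apply v).symm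
theorem uu_mul (hg : Uu C g x s c) (hg' : Uu C g' x s' c') (hx : C.B x x = 0) (h : C.B x s = 0)
    (h' : C.B x s' = 0) : Uu C (g * g') x (s + s') (c + c' + C.B s s') := fun w => by
  rw [mul_smul, hg', hg]
  simp only [map_add, map_sub, map_smul, smul_eq_mul, hx, h', Bsw h, LinearMap.add_apply]
  module
theorem uu_one (x : V) : Uu C (1 : G) x 0 0 := fun w => by simp
theorem uu_inv (hg : Uu C g x s c) (hx : Is C x) (h : C.B x s = 0) :
    Uu C g⁻¹ x (-s) (frob hF c) := by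
  have e := un.uu_trc hg hx h
  obtain ⟨k, hk⟩ := un.ex_uu (s := -s) (c := frob hF c) hx.2 (by simp [h]) (by simp [← e, add_comm])
  have := un.uu_mul hg hk hx.2 h (by simp [h])
  rw [add_neg_cancel, map_neg, e, add_neg_cancel] at this
  rwa [inv_eq_of_mul_eq_one_right (un.uu_unique this (un.uu_one x))]
theorem uu_comm (hg : Uu C g x s c) (hg' : Uu C g' x s' c') (hx : Is C x) (h : C.B x s = 0)
    (h' : C.B x s' = 0) : Tr C (g * g' * g⁻¹ * g'⁻¹) x (C.B s' s - C.B s s') := by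
  have h1 := un.uu_mul (un.uu_mul hg hg' hx.2 h h') (un.uu_inv (un.uu_mul hg' hg hx.2 h' h) hx
    (by simp [h, h'])) hx.2 (by simp [h, h']) (by simp [h, h'])
  rw [add_comm s' s, add_neg_cancel, Uu.tr, mul_inv_rev, ← mul_assoc] at h1
  convert h1 using 1
  simp only [map_add, map_neg, LinearMap.add_apply, Bs, ← un.uu_trc hg hx h, ← un.uu_trc hg' hx h']
  ring
theorem tr_mul (hg : Tr C g v c) (hg' : Tr C g' v d) (hv : C.B v v = 0) : Tr C (g * g') v (c + d) :=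
  fun w => by rw [mul_smul, hg', hg]; simp only [map_add, map_smul, smul_eq_mul, hv]; module
theorem tr_one (v : V) : Tr C (1 : G) v 0 := fun w => by simp
theorem tr_inv (hg : Tr C g v c) (hv : C.B v v = 0) : Tr C g⁻¹ v (-c) := fun w => by
  rw [inv_smul_eq_iff, hg]; simp only [map_add, map_smul, smul_eq_mul, hv]; module
theorem tr_eq_one (hg : Tr C g v c) (hv : v ≠ 0) : g = 1 ↔ c = 0 := by
  refine ⟨fun e => ?_, fun e => un.tr_unique (e ▸ hg) (un.tr_one v)⟩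
  obtain ⟨w, hw⟩ := un.nd.exists_eq hv 1
  simpa [e, hw, hv] using hg w
theorem ts_conj (ht : t ∈ TS C G) (g : G) : g * t * g⁻¹ ∈ TS C G :=
  let ⟨_, a, h1, h2, h3⟩ := mem_TS.1 ht
  mem_TS.2 ⟨_, a, un.is_smul.2 h1, h2, un.tr_conj h3 g⟩
theorem ts_inv (ht : t ∈ TS C G) : t⁻¹ ∈ TS C G :=
  let ⟨v, _, h1, h2, h3⟩ := mem_TS.1 ht
  mem_TS.2 ⟨v, _, h1, neg_ne_zero.2 h2, un.tr_inv h3 h1.2⟩
theorem ts_isConj {t' : G} (ht : t ∈ TS C G) (ht' : t' ∈ TS C G) : IsConj t t' := by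
  obtain ⟨v, a, h1, h2, h3⟩ := mem_TS.1 ht
  obtain ⟨w, b, h4, h5, h6⟩ := mem_TS.1 ht'
  obtain ⟨d, hd⟩ := ex_nrm (hF := hF) (c := b / a) (by
    rw [map_div₀, div_eq_div_iff (fr_ne h2) h2]
    linear_combination a * un.tr_trc h6 h4 - b * un.tr_trc h3 h1)
  have d0 : d ≠ 0 := fun e => div_ne_zero h5 h2 (by simp [← hd, e])
  obtain ⟨g, hg⟩ := un.wis h1 (h4.sml d0)
  have := un.tr_conj h3 g
  rw [hg, Tr.sml, hd, mul_div_cancel₀ _ h2] at this
  exact isConj_iff.2 ⟨g, un.tr_unique this h6⟩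
theorem not_tr (nt : NoT C H) (hg : g ∈ H) (ht : Tr C g v c) (hv : Is C v) : c = 0 := by
  by_contra h; exact nt g (mem_TS.2 ⟨v, c, hv, h, ht⟩) hg
/-- the elements of `O_p` of the stabilizer of `x` -/
theorem uu_of (hx : Is C x) (h1 : g • x = x) (h2 : ∀ w, C.B x w = 0 → g • w - w ∈ F ∙ x) :
    ∃ s c, C.B x s = 0 ∧ Uu C g x s c := by
  obtain ⟨u, iu, hu⟩ := ex_par un.nd hx
  have e0 : C.B x (g • u - u) = 0 := by rw [map_sub, ← h1, un.iso, h1, sub_self]
  have hu' := Bone hu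
  have key : ∀ w, C.B x w = 0 → g • w = w - C.B (g • u - u) w • x := fun w hw => by
    obtain ⟨c, hc⟩ := Submodule.mem_span_singleton.1 (h2 w hw)
    have e1 : g • w = w + c • x := by rw [hc]; abel
    have e2 := un.iso g u w
    have e3 : C.B (g • u) x = 1 := by rw [← h1, un.iso, hu]
    rw [e1, map_add, (C.B (g • u)).map_smul, e3, smul_eq_mul, mul_one] at e2
    rw [e1, map_sub, LinearMap.sub_apply, ← e2]; module
  refine ⟨g • u - u, -C.B (g • u - u) u, e0, fun w => ?_⟩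
  have := key (w - C.B x w • u) (by simp [hu'])
  rw [gsub, gsc, map_sub (C.B (g • u - u)), map_smul, smul_eq_mul] at this
  generalize g • u = gu at this ⊢
  generalize g • w = gw at this ⊢
  linear_combination (norm := module) this

theorem ex_iv (ha : C.B a a = 0) (hb : C.B b b = 0) (h : C.B a b ≠ 0) : ∃ g : G, Iv C g a b := by
  obtain ⟨τ, hτ⟩ := ex_trc (hF := hF) (map_one _)
  obtain ⟨θ, θ0, -⟩ := ex_th (hF := hF)
  have h' := C.B_swap_ne h
  have n1 : C.N (a + (τ / C.B a b) • b) ≠ 0 := by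
    simp [N_eq, ha, hb, h, h', Bs, hτ, add_comm]
  have n2 : C.N (a - (frob hF τ / C.B a b) • b) ≠ 0 := by
    simp only [N_eq, map_sub, LinearMap.sub_apply, Bl, map_smul, smul_eq_mul, ha, hb, map_div₀, Bs, ff,
      div_mul_cancel₀ _ h']
    intro e; exact one_ne_zero (by linear_combination -e - hτ - div_mul_cancel₀ (frob hF τ) h)
  have e12 : C.B (a + (τ / C.B a b) • b) (a - (frob hF τ / C.B a b) • b) = 0 := by
    simp [ha, hb, h, h', Bs]
  obtain ⟨s, s1, s2, s3, s4⟩ := exists_qrefl_det (C := C) (d := -1) n1 (by simp)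
  obtain ⟨r, r1, r2, r3, r4⟩ := exists_qrefl_det (C := C) (d := -1) n2 (by simp)
  obtain ⟨g, hg⟩ := un.full (s * r) (C.isom.mul_mem s1 r1) (by
    rw [show ((s * r : V ≃ₗ[F] V) : V →ₗ[F] V) = (s : V →ₗ[F] V) * r from rfl, map_mul, s4, r4]; simp)
  have f1 : g • (a + (τ / C.B a b) • b) = -(a + (τ / C.B a b) • b) := by
    rw [hg, LinearEquiv.mul_apply, r2 _ (Bsw e12), s3, neg_one_smul]
  have f2 : g • (a - (frob hF τ / C.B a b) • b) = -(a - (frob hF τ / C.B a b) • b) := by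
    rw [hg, LinearEquiv.mul_apply, r3, map_smul, s2 _ e12, neg_one_smul]
  rw [smul_add, gsc] at f1
  rw [gsub, gsc] at f2
  have f3 : g • b = -b := smul_right_injective V (inv_ne_zero h) (by
    have : (C.B a b)⁻¹ = τ / C.B a b + frob hF τ / C.B a b := by rw [← add_div, hτ, one_div]
    simp only [this]
    generalize g • a = ga at f1 f2
    generalize g • b = gb at f1 f2 ⊢
    linear_combination (norm := module) f1 - f2)
  refine ⟨g, ha, hb, h, ?_, f3, fun w e1 e2 => ?_⟩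
  · rw [f3] at f1; generalize g • a = ga at f1 ⊢; linear_combination (norm := module) f1
  · rw [hg, LinearEquiv.mul_apply, r2 w (by simp [e1, e2]), s2 w (by simp [e1, e2])]
theorem iv_sq (hg : Iv C g a b) : g * g = 1 := un.fa _ fun u => by
  rw [mul_smul, hg.apply u, gsub, gsub, gsc, gsc, hg.2.2.2.1, hg.2.2.2.2.1, hg.apply u]; module

theorem sx_conj (hh : h ∈ H) (hs : s ∈ Sx C H x) : h • s ∈ Sx C H (h • x) :=
  let ⟨h1, _, h2, c, h3⟩ := hs
  ⟨by rwa [un.iso], _, H.mul_mem (H.mul_mem hh h2) (H.inv_mem hh), c, un.uu_conj h3 h⟩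
theorem sx_conj_iff (hh : h ∈ H) : h • s ∈ Sx C H (h • x) ↔ s ∈ Sx C H x :=
  ⟨fun e => by simpa using un.sx_conj (H.inv_mem hh) e, un.sx_conj hh⟩
theorem sx_add (hx : C.B x x = 0) (hs : s ∈ Sx C H x) (hs' : s' ∈ Sx C H x) : s + s' ∈ Sx C H x :=
  let ⟨h1, _, h2, _, h3⟩ := hs
  let ⟨h4, _, h5, _, h6⟩ := hs'
  ⟨by simp [h1, h4], _, H.mul_mem h2 h5, _, un.uu_mul h3 h6 hx h1 h4⟩
theorem sx_neg (hx : Is C x) (hs : s ∈ Sx C H x) : -s ∈ Sx C H x :=
  let ⟨h1, _, h2, _, h3⟩ := hs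
  ⟨by simp [h1], _, H.inv_mem h2, _, un.uu_inv h3 hx h1⟩
theorem sx_sub (hx : Is C x) (hs : s ∈ Sx C H x) (hs' : s' ∈ Sx C H x) : s - s' ∈ Sx C H x := by
  rw [sub_eq_add_neg]; exact un.sx_add hx.2 hs (un.sx_neg hx hs')
theorem sx_nsmul (hx : C.B x x = 0) (hs : s ∈ Sx C H x) (n : ℕ) : (n : F) • s ∈ Sx C H x := by
  induction n with
  | zero => exact sx_sp hx (by simp)
  | succ n ih => rw [Nat.cast_succ, add_smul, one_smul]; exact un.sx_add hx ih hs
theorem sx_half (hx : C.B x x = 0) (h2 : (2 : F) ≠ 0) (hs : (2 : F) • s ∈ Sx C H x) : s ∈ Sx C H x := by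
  obtain ⟨p, k, hp, _, -, -⟩ := ex_char hF
  obtain ⟨m, hm⟩ := hp.odd_of_ne_two (fun e => h2 (by subst e; exact CharP.cast_eq_zero F 2))
  have := un.sx_nsmul hx hs (m + 1)
  rwa [smul_smul, show ((m + 1 : ℕ) : F) * 2 = 1 by
    have := CharP.cast_eq_zero F p; rw [hm] at this; push_cast at this ⊢; linear_combination this,
    one_smul] at this
/-- without transvections the form is symmetric on `Sx` -/
theorem sx_sym (nt : NoT C H) (hx : Is C x) (hs : s ∈ Sx C H x) (hs' : s' ∈ Sx C H x) :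
    C.B s s' = C.B s' s :=
  let ⟨h1, _, h2, _, h3⟩ := hs
  let ⟨h4, _, h5, _, h6⟩ := hs'
  (sub_eq_zero.1 (un.not_tr nt (H.mul_mem (H.mul_mem (H.mul_mem h2 h5) (H.inv_mem h2)) (H.inv_mem h5))
    (un.uu_comm h3 h6 hx h1 h4) hx)).symm
theorem uu_c (nt : NoT C H) (hx : Is C x) (h : C.B x s = 0) (hg : g ∈ H) (hg' : g' ∈ H)
    (h1 : Uu C g x s c) (h2 : Uu C g' x s c') : c = c' := by
  have h3 := un.uu_mul h1 (un.uu_inv h2 hx h) hx.2 h (by simp [h])
  rw [add_neg_cancel, Uu.tr] at h3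
  have := un.not_tr nt (H.mul_mem hg (H.inv_mem hg')) h3 hx
  rw [map_neg, ← un.uu_trc h2 hx h] at this
  linear_combination -this
theorem gx_sml (hd : d ≠ 0) : GX C H (d • x) = GX C H x := by
  have key : ∀ {d : F} {x : V}, d ≠ 0 → GX C H (d • x) ≤ GX C H x := fun {d x} hd =>
    Submodule.span_le.2 fun s hs => (Submodule.smul_mem_iff _ (fr_ne (hF := hF) hd)).1
      (Submodule.subset_span ⟨sx_sml.1 hs.1, by simp [hs.2]⟩)
  exact le_antisymm (key hd) (by simpa [hd] using key (x := d • x) (inv_ne_zero hd))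
theorem gx_conj (hh : h ∈ H) (hs : s ∈ GX C H x) : h • s ∈ GX C H (h • x) := by
  induction hs using Submodule.span_induction with
  | mem s hs => exact Submodule.subset_span ⟨un.sx_conj hh hs.1, by rw [un.iso, hs.2]⟩
  | zero => simp
  | add a b _ _ ha hb => rw [smul_add]; exact add_mem ha hb
  | smul c a _ ha => rw [gsc]; exact Submodule.smul_mem _ _ ha
theorem av_conj (hh : h ∈ H) (hc : c ∈ Av C H v) : c ∈ Av C H (h • v) :=
  let ⟨_, h1, h2⟩ := hc
  ⟨_, H.mul_mem (H.mul_mem hh h1) (H.inv_mem hh), un.tr_conj h2 h⟩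
/-- two `Iv` lines through `x` differ by an element of `Sx` -/
theorem iv_two {b' : V} (h2 : (2 : F) ≠ 0) (hg : g ∈ H) (hg' : g' ∈ H) (h1 : Iv C g x b)
    (h3 : Iv C g' x b') (e : C.B x b' = C.B x b) : (C.B x b)⁻¹ • (b' - b) ∈ Sx C H x := by
  have ix : Is C x := ⟨fun e => h1.2.2.1 (by simp [e]), h1.1⟩
  obtain ⟨s, c, h4, h5⟩ := un.uu_of (g := g' * g) ix
    (by rw [mul_smul, h1.2.2.2.1, smul_neg, h3.2.2.2.1, neg_neg]) fun w hw => by
      rw [mul_smul, h1.apply, hw, gsub, gsub, gsc, gsc, h3.2.2.2.1, h3.apply w, hw]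
      exact Submodule.mem_span_singleton.2 ⟨2 * C.B b w / C.B b x - 2 * C.B b' w / C.B b' x, by
        simp only [mul_zero, zero_div, zero_smul]; module⟩
  have h6 := h5 b
  rw [mul_smul, h1.2.2.2.2.1, smul_neg, h3.apply b, e, mul_div_assoc 2 (C.B x b),
    div_self h1.2.2.1] at h6
  refine un.sx_half ix.2 h2 ?_
  have := un.sx_add ix.2 (⟨h4, _, H.mul_mem hg' hg, c, h5⟩ : s ∈ Sx C H x) (sx_sp ix.2
    (Submodule.mem_span_singleton.2 ⟨-(C.B x b)⁻¹ * (C.B s b + c * C.B x b + 2 * C.B b' b / C.B b' x), rfl⟩))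
  convert this using 1
  refine smul_right_injective V h1.2.2.1 ?_
  simp only [smul_add, smul_smul]
  rw [show C.B x b * (2 * (C.B x b)⁻¹) = 2 by field_simp [h1.2.2.1], neg_mul, mul_neg,
    mul_inv_cancel_left₀ h1.2.2.1]
  linear_combination (norm := module) h6
theorem iv_uniq {b' : V} (h2 : (2 : F) ≠ 0) (e1 : ∀ s ∈ Sx C H x, s ∈ F ∙ x) (hg : g ∈ H)
    (hg' : g' ∈ H) (h1 : Iv C g x b) (h3 : Iv C g' x b') : ln F x b' = ln F x b := by
  have n := div_ne_zero h1.2.2.1 h3.2.2.1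
  have h4 := h3.of (b' := (C.B x b / C.B x b') • b') l_ln (Submodule.smul_mem _ _ r_ln) h1.1
    (by simp [h3.2.1]) (by simp [h1.2.2.1, h3.2.2.1])
  have h5 := (Submodule.smul_mem_iff _ (inv_ne_zero h1.2.2.1)).1
    (e1 _ (un.iv_two h2 hg hg' h1 h4 (by simp [h3.2.2.1])))
  refine ln_eq (ind_of_ne h3.1 h3.2.2.1) l_ln ((Submodule.smul_mem_iff _ n).1 ?_)
  simpa using add_mem (sp_le_ln h5) (r_ln : b ∈ ln F x b)

/-- transport of the two-orbit structure along the orbit -/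
theorem tw_po {u : ℕ} {z' : V} (tw : Tw C H z u) (hp : PO F H z z') (h0 : z' ≠ 0) : Tw C H z' u := by
  obtain ⟨k, hk, c, hc, e⟩ := hp.ex tw.iz.1
  have hs := hp.symm tw.iz.1
  have iff : ∀ v, PO F H z' v ↔ PO F H z v := fun v => ⟨hp.trans, hs.trans⟩
  have fl : ∀ y, Fl C z' y → Fl C z (k⁻¹ • y) := fun y hy => by
    rw [← un.fl_smul (g := k), smul_inv_smul, e]
    simpa using hy.tr 0 hc one_ne_zero
  have fq : ∀ a b : V, Fq F H (k⁻¹ • a, k⁻¹ • b) (a, b) := fun a b => by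
    simpa using Fq.smul (F := F) hk (k⁻¹ • a, k⁻¹ • b)
  have fq' : ∀ a b : V, Fq F H (a, b) (k⁻¹ • a, k⁻¹ • b) := fun a b => Fq.smul (H.inv_mem hk) (a, b)
  have ez : k⁻¹ • z' = c⁻¹ • z := by rw [inv_smul_eq_iff, gsc, e, smul_smul, inv_mul_cancel₀ hc, one_smul]
  have zz : z ∈ F ∙ (k⁻¹ • z') := Submodule.mem_span_singleton.2 ⟨c, by simp [ez, hc]⟩
  have zz' : k⁻¹ • z' ∈ F ∙ z := Submodule.mem_span_singleton.2 ⟨_, ez.symm⟩
  have pt : ∀ y (d : F), k⁻¹ • (y + d • z') = k⁻¹ • y + (d * c⁻¹) • z := fun y d => by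
    rw [smul_add, gsc, ez, smul_smul]
  have po : ∀ y (d : F), PO F H z' (y + d • z') ↔ PO F H z (k⁻¹ • y + (d * c⁻¹) • z) := fun y d => by
    rw [iff, ← pt, po_smul (H.inv_mem hk)]
  refine ⟨un.is_po tw.iz hp h0, let ⟨x, h1, h2⟩ := tw.ex; ⟨x, h1, mt (iff x).1 h2⟩,
    fun v w h1 h2 h3 h4 => tw.two v w h1 h2 (mt (iff v).2 h3) (mt (iff w).2 h4),
    fun y y' hy hy' => ?_, fun y d d' hy h1 h2 => ?_, fun y hy => ?_, tw.dvd⟩
  · exact (fq' z' y).trans ((Fq.of_mem (a := (k⁻¹ • z', k⁻¹ • y)) (b := (z, k⁻¹ • y)) zz' r_ln).trans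
      ((tw.s1 _ _ (fl y hy) (fl y' hy')).trans
        ((Fq.of_mem (a := (z, k⁻¹ • y')) (b := (k⁻¹ • z', k⁻¹ • y')) zz r_ln).trans (fq z' y'))))
  · have := tw.s2 _ _ _ (fl y hy) (mt (po y d).2 h1) (mt (po y d').2 h2)
    rw [← pt, ← pt] at this
    have m : ∀ {a b : V} (p : V), a ∈ F ∙ b → Fq F H (p, a) (p, b) := fun p h =>
      Fq.of_mem (Submodule.mem_span_singleton_self _) (by rw [ln_comm]; exact sp_le_ln h)
    exact (fq' _ z').trans ((m _ zz').trans (this.trans ((m _ zz).trans (fq _ z'))))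
  · rw [← tw.cnt _ (fl y hy)]; congr 1
    exact Set.ncard_congr (fun d _ => d * c⁻¹) (fun d hd => (po y d).1 hd)
      (fun d d' _ _ e => mul_right_cancel₀ (inv_ne_zero hc) e)
      fun d hd => ⟨d * c, (po y _).2 (by simpa [hc] using hd), by simp [hc]⟩

end Un
end H0.RU
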