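import Cfsg.Agent.H0.RU2
import Cfsg.Agent.H11.RS2

/-! S2196: assembly and transfer. -/

set_option autoImplicit false
set_option linter.unusedSectionVars false
set_option linter.unusedVariables false

open Module MulAction H13.R3 H12
open H11 (hermT frob)
open H11.RS (PO dc_po)

namespace H0.RU

universe u

attribute [-simp] H11.frob_apply

section main
variable {F : Type u} [Field F] [Fintype F] {q : ℕ} {hF : Fintype.card F = q ^ 2}
  {V : Type u} [AddCommGroup V] [Module F V] [Fintype V] {C : CForm (hermT hF) V}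
  {G : Type u} [Group G] [Fintype G] [DistribMulAction G V] [SMulCommClass G F V] {H : Subgroup G}
  {x : V}

theorem Un.idx (un : Un C G) (hx : Is C x) : ((St G (F ∙ x)).index : ℤ) * (q ^ 2 - 1) =
    aa q (finrank F V) * aa q (finrank F V - 1) := by
  have h1 := ncard_orb (⊤ : Subgroup G) x
  have h2 := ncard_orb (St G (F ∙ x)) x
  have hle : stabilizer G x ≤ St G (F ∙ x) := fun g hg =>
    mem_St_sp (by rw [mem_stabilizer_iff.1 hg]; exact Submodule.mem_span_singleton_self x)
  rw [top_inf_eq, Subgroup.relIndex_top_right] at h1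
  rw [inf_eq_right.2 hle] at h2
  have h3 := ncard_ne0 (F ∙ x)
  rw [finrank_span_singleton hx.1, pow_one, hF] at h3
  have e1 : {b | ∃ j ∈ (⊤ : Subgroup G), j • x = b} = {u : V | Is C u} := by
    ext b; constructor
    · rintro ⟨j, -, rfl⟩; exact un.is_smul.2 hx
    · intro hb; obtain ⟨g, hg⟩ := un.wis hx hb; exact ⟨g, trivial, hg⟩
  have e2 : {b | ∃ j ∈ St G (F ∙ x), j • x = b} = {u | u ∈ F ∙ x ∧ u ≠ 0} := by
    ext b; constructor
    · rintro ⟨j, hj, rfl⟩
      exact ⟨(hj x).2 (Submodule.mem_span_singleton_self x), fun e => hx.1 (gsz.1 e)⟩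
    · rintro ⟨h, hb⟩
      obtain ⟨g, hg⟩ := un.wis hx (hx.of_mem h hb); exact ⟨g, mem_St_sp (hg ▸ h), hg⟩
  have h4 : 1 ≤ q ^ 2 := Nat.one_le_pow _ _ (by have := un.q3; omega)
  rw [← ncard_is un.nd (by have := un.n6; omega), ← e1, h1, ← Subgroup.relIndex_mul_index hle, ← h2,
    e2, h3]
  push_cast [h4]; ring

theorem Un.dPP (un : Un C G) (hx : Is C x) : dc (St G (F ∙ x)) (St G (F ∙ x)) ≤ 3 := by
  classical
  rw [← dcs_univ]
  refine (dcs_le (fun g : G => if g • x ∈ F ∙ x then (0 : Fin 3) else if C.B x (g • x) = 0 then 1 else 2)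
    Set.univ (fun _ _ => trivial) fun a _ b _ h => (dc_po hx.1).2 ?_).trans (by simp)
  have key : ∀ c : F, c ≠ 0 → a • x ∉ F ∙ x → b • x ∉ F ∙ x → C.B x (c • b • x) = C.B x (a • x) →
      PO F (St G (F ∙ x)) (a • x) (b • x) := fun c hc ha hb e => by
    obtain ⟨g, h1, h2⟩ := un.witt2 (x := x) (y := a • x) ⟨hx.1, ha⟩
      (by simpa using (Ind.sml ⟨hx.1, hb⟩ one_ne_zero hc : Ind F ((1 : F) • x) (c • b • x))) rfl
      (by simp [un.iso, hx.2]) e
    exact ⟨g, mem_St_sp (h1.symm ▸ Submodule.mem_span_singleton_self x),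
      Submodule.mem_span_singleton.2 ⟨c, h2.symm⟩⟩
  split_ifs at h with h1 h2 h3 h4 h5 h6 h7 h8 <;> try exact absurd h (by decide)
  · exact H11.RS.PO.of_mem (by rwa [sp_eq (fun e => hx.1 (gsz.1 e)) h2])
  · exact key 1 one_ne_zero ‹_› ‹_› (by simp [*])
  · exact key (C.B x (a • x) / C.B x (b • x)) (div_ne_zero ‹_› ‹_›) ‹_› ‹_›
      (by rw [map_smul, smul_eq_mul, div_mul_cancel₀ _ ‹_›])

theorem u2 (gh : GH C) (un : Un C G) (irr : Irr F V H) {z : V} (tw : Tw C H z (q ^ 2)) : False := by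
  have one : ∀ z', z' ≠ 0 → PO F H z z' → ∀ y, Fl C z' y →
      {c : F | ¬ PO F H z (y + c • z')}.ncard = 1 := fun z' h0 hp y hy => by
    have h1 := (un.tw_po tw hp h0).cnt y hy
    have h2 := Set.ncard_add_ncard_compl {c : F | PO F H z' (y + c • z')}
    have : {c : F | ¬ PO F H z (y + c • z')} = {c : F | PO F H z' (y + c • z')}ᶜ :=
      Set.ext fun c => not_congr ⟨(hp.symm tw.iz.1).trans, hp.trans⟩
    rw [Nat.card_eq_fintype_card, hF] at h2
    rw [this]; omega
  obtain ⟨x0, h1, h2⟩ := tw.ex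
  refine (gh un.toGe {v | Is C v ∧ ¬ PO F H z v} ⟨fun v hv => hv.1, fun v hv c hc =>
    ⟨hv.1.sml hc, by rw [po_sml hc]; exact hv.2⟩, (irr _ fun j hj v hv => ?_).resolve_left fun e => ?_⟩
    (fun x hx y hy h c => ⟨(h.add c).isr, fun hp => ?_⟩) (fun x y h => ?_) z tw.iz).2 (.refl z)
  · induction hv using Submodule.span_induction with
    | mem s hs => exact Submodule.subset_span ⟨un.is_smul.2 hs.1, by rw [po_smul hj]; exact hs.2⟩
    | zero => simp
    | add a b _ _ ha hb => rw [smul_add]; exact add_mem ha hb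
    | smul c a _ ha => rw [gsc]; exact Submodule.smul_mem _ _ ha
  · exact h1.1 (Submodule.span_eq_bot.1 e x0 ⟨h1, h2⟩)
  · have c0 : c ≠ 0 := fun e => hy.2 (by simpa [e] using hp)
    obtain ⟨a, ha⟩ := Set.ncard_eq_one.1 (one _ (h.add c).isr.1 hp x (h.add c).symm)
    have e1 : (0 : F) ∈ ({a} : Set F) := ha ▸ (by simpa using hx.2)
    have e2 : -c⁻¹ ∈ ({a} : Set F) := ha ▸ (by
      change ¬ PO F H z _
      rw [show x + -c⁻¹ • (y + c • x) = (-c⁻¹) • y by simp [smul_smul, c0],
        po_sml (by simpa using c0)]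
      exact hy.2)
    exact c0 (by simpa using e2.trans e1.symm)
  · by_cases hp : PO F H z x
    · obtain ⟨a, ha⟩ := Set.ncard_eq_one.1 (one x h.1.1 hp y h)
      exact Or.inr ⟨a, (h.add a).isr, (ha ▸ rfl : a ∈ {c : F | ¬ PO F H z (y + c • x)})⟩
    · exact Or.inl ⟨h.1, hp⟩

/-- all chunks -/
structure Al (C : CForm (hermT hF) V) (H : Subgroup G) : Prop where
  red : RED C H
  ci : CI C H
  tva : TVA C H
  flp : FLP C H
  fl2 : FL2 C H
  str : STR C H
  pt : PT C H
  lam : LAM C H
  zs : ZS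
  ps : PS C H
  irc : IRc C H
  per2 : PER2 C H
  per3 : PER3 C H
  ii : II C H
  gh : GH C
  tv2 : TV2 C H
  n2a : N2a C H
  n2b : N2b C H

theorem main (al : Al C H) (un : Un C G) (hs : Hs C H) :
    (H.index : ℤ) * (q ^ 2 - 1) = aa q (finrank F V) * aa q (finrank F V - 1) := by
  have n6 := un.n6
  obtain ⟨x, -, hx⟩ := ex_is (C := C) (U := ⊤) (by rw [finrank_top]; omega)
  by_cases h3 : 3 ≤ dc H (St G (F ∙ x))
  · have := ip_zero (f := pc H - pc (St G (F ∙ x))) (by
      simp only [map_sub, LinearMap.sub_apply, ip_pc, hs.r3, dc_comm _ H]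
      have h1 : (3 : ℚ) ≤ dc H (St G (F ∙ x)) := by exact_mod_cast h3
      have h2 : (dc (St G (F ∙ x)) (St G (F ∙ x)) : ℚ) ≤ 3 := by exact_mod_cast un.dPP hx
      push_cast; linarith) 1
    rw [Pi.sub_apply, pc_one, pc_one, sub_eq_zero] at this
    rw [show H.index = (St G (F ∙ x)).index by exact_mod_cast this, un.idx hx]
  exfalso
  have l2 : Le2 (Is C) (PO F H) := fun a b c ha hb hc => by
    obtain ⟨a, rfl⟩ := un.wis hx ha
    obtain ⟨b, rfl⟩ := un.wis hx hb
    obtain ⟨c, rfl⟩ := un.wis hx hc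
    simpa only [dc_po hx.1] using le2_of_dc (A := H) (B := St G (F ∙ x)) (by omega) a b c
  have irr := al.red un hs l2
  have qi := al.ci un hs irr
  obtain ⟨r2, o2⟩ := al.zs q (finrank F V - 2) un.q3 (by omega)
  obtain ⟨r3, o3⟩ := al.zs q (finrank F V - 3) un.q3 (by omega)
  by_cases hP : PP C H
  · have nt : NoT C H := by
      by_contra nt
      obtain ⟨t, h1, h2⟩ := hs.nt
      exact h2 (al.tva un hP nt t h1)
    rcases al.flp un hs.r3 qi hP with h | ⟨h, gd⟩
    · have ps := fun x hx => al.ps un r3 _ x o3 (by omega) (by omega) hx (h r3 o3 x hx)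
      obtain ⟨y, W, pe⟩ := ps x hx
      exact al.ii un hP nt (fun x hx => let ⟨y, W, pe⟩ := ps x hx; al.irc un _ _ x y W pe (by omega))
        (al.per3 un hP nt _ _ x y W pe (by omega))
    · have ps := fun x hx => al.ps un r2 _ x o2 (by omega) (by omega) hx (h r2 o2 x hx)
      obtain ⟨y, W, pe⟩ := ps x hx
      refine al.ii un hP nt
        (fun x hx => let ⟨y, W, pe⟩ := ps x hx; al.irc un _ _ x y W pe (by omega)) ?_
      rcases al.per2 un hs nt (al.lam un hs.r3 qi gd) _ _ x y W pe (by omega) with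
        ⟨h2, g, hg, a, b, hi, -⟩ | h
      exacts [⟨h2, g, hg, a, b, hi⟩, absurd hP h.2.1]
  · obtain ⟨z, u, tw⟩ := al.str un hP l2 (al.fl2 un hs.r3 qi hP l2)
    obtain ⟨gd, ev⟩ := al.pt un hP l2
    have la := al.lam un hs.r3 qi gd
    rcases (Nat.le_of_dvd (pow_pos (by have := un.q3; omega) 2) tw.dvd).eq_or_lt with rfl | hu
    · exact u2 al.gh un irr tw
    have nt := al.tv2 un hs irr la z u tw hu
    obtain ⟨h1, h2⟩ := al.n2b un z u tw
    obtain ⟨y, W, pe⟩ := al.ps un r2 _ z o2 (by omega) (by omega) tw.iz (h1 r2 o2)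
    rcases al.per2 un hs nt la _ _ z y W pe (by omega) with ⟨h3, g, hg, a, b, hi, h4⟩ | h
    · exact al.n2a un nt z u tw hu h3 g hg a b hi h4
    · exact h2 hu h.1 (ev z tw.iz) r2 o2 h.2.2

end main

theorem transfer {G X : Type*} [Group G] [Finite G] [MulAction G X] [FaithfulSMul G X] [Fintype X]
    {F : Type u} [Field F] [Fintype F] (n q : ℕ) (hn : 6 ≤ n) (hq : 3 ≤ q)
    (hF : Fintype.card F = q ^ 2)
    (al : ∀ [Fintype (H11.sisom (H11.hermC (Fin n) hF))] (H : Subgroup (H11.sisom (H11.hermC (Fin n) hF))),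
      Al (H11.hermC (Fin n) hF) H)
    (e : G ≃* Cfsg.PSU n F q) (hprim : IsPreprimitive G X) (x : X)
    (h3 : Nat.card (orbitRel.Quotient (stabilizer G x) X) = 3) :
    (Even n → Fintype.card X * (q ^ 2 - 1) = (q ^ n - 1) * (q ^ (n - 1) + 1)) ∧
    (Odd n → Fintype.card X * (q ^ 2 - 1) = (q ^ n + 1) * (q ^ (n - 1) - 1)) := by
  classical
  let V := Fin n → F
  let C := H11.hermC (Fin n) hF
  let ι := H11.suEquivSisom hF n
  let Θ : H11.sisom C →* G := e.symm.toMonoidHom.comp ((QuotientGroup.mk' _).comp ι.symm.toMonoidHom)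
  have hΘ : ∀ a, Θ a = 1 ↔ a ∈ Subgroup.center _ := fun a => by
    rw [← H11.mem_center_equiv ι.symm]; simp [Θ]
  have hs : Function.Surjective Θ :=
    e.symm.surjective.comp (QuotientGroup.mk_surjective.comp ι.symm.surjective)
  have : Finite (V ≃ₗ[F] V) := Finite.of_injective _ (DFunLike.coe_injective (F := V ≃ₗ[F] V))
  have := Fintype.ofFinite (H11.sisom C)
  have hr : finrank F (Fin n → F) = n := by simp
  have : Nontrivial X := by
    by_contra hX
    have := not_nontrivial_iff_subsingleton.1 hX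
    have := Nat.card_le_card_of_surjective (β := orbitRel.Quotient (stabilizer G x) X) _
      Quotient.mk_surjective
    have := Finite.card_le_one_iff_subsingleton.2 ‹Subsingleton X›
    omega
  have un : Un C (H11.sisom C) :=
    { nd := H11.hermC_nondeg hF
      q3 := hq
      n6 := by omega
      fa := fun g h => Subtype.ext (Subtype.ext (LinearEquiv.ext h))
      iso := fun g u v => CForm.isom_B g.1.2 u v
      det := fun g => by
        have := congrArg Units.val (H11.mem_sisom.1 g.2)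
        rwa [LinearEquiv.coe_det] at this
      full := fun σ h1 h2 => ⟨⟨⟨σ, h1⟩, H11.mem_sisom.2 (Units.ext (by rwa [LinearEquiv.coe_det]))⟩,
        fun _ => rfl⟩ }
  have hy : Hs C ((stabilizer G x).comap Θ) :=
    { sc := fun z c h => by
        rw [Subgroup.mem_comap, (hΘ _).2 (Subgroup.mem_center_iff.2 fun g => un.ext fun v => by
          rw [mul_smul, mul_smul, h, h, gsc])]
        exact Subgroup.one_mem _
      mx := Subgroup.isCoatom_comap_of_surjective hs
        ((isCoatom_stabilizer_iff_preprimitive G x).2 hprim)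
      r3 := by
        rw [← dcs_univ, dcs_eq _ (fun g => Quotient.mk (orbitRel (stabilizer G x) X) (Θ g • x)),
          ← h3, ← Set.ncard_univ]
        · congr 1
          refine Set.eq_univ_of_forall fun c => ?_
          induction c using Quotient.inductionOn with
          | h a =>
            obtain ⟨g, rfl⟩ := exists_smul_eq G x a
            obtain ⟨g, rfl⟩ := hs g
            exact ⟨g, trivial, rfl⟩
        · intro a _ b _
          rw [qeq]; constructor
          · rintro ⟨j, hj, h⟩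
            obtain ⟨j, rfl⟩ := hs j
            refine DC.symm ⟨j, hj, (j * b)⁻¹ * a, ?_, by group⟩
            rw [Subgroup.mem_comap, mem_stabilizer_iff, map_mul, map_inv, map_mul, mul_smul,
              inv_smul_eq_iff, mul_smul, h]
          · rintro ⟨j, hj, k, hk, rfl⟩
            refine osymm ⟨Θ j, hj, ?_⟩
            rw [map_mul, map_mul, mul_smul, mul_smul, mem_stabilizer_iff.1 hk]
      nt := by
        by_contra hc
        push Not at hc
        obtain ⟨v, -, hv⟩ := ex_is (C := C) (U := ⊤) (by rw [finrank_top]; omega)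
        obtain ⟨w, hw, e1⟩ := ex_par un.nd hv
        obtain ⟨a, a0, ha⟩ := ex_th (hF := hF)
        obtain ⟨t, ht⟩ := un.ex_tr hv.2 ha
        have h1 : Θ t = 1 := eq_of_smul_eq_smul fun b : X => by
          obtain ⟨g, rfl⟩ := exists_smul_eq G x b
          obtain ⟨g, rfl⟩ := hs g
          have := hc _ (un.ts_conj (mem_TS.2 ⟨v, a, hv, a0, ht⟩) g⁻¹)
          rw [Subgroup.mem_comap, mem_stabilizer_iff, map_mul, map_mul, map_inv, inv_inv, mul_smul,
            mul_smul, inv_smul_eq_iff] at this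
          rw [this, one_smul]
        rw [hΘ] at h1
        obtain ⟨k, k1⟩ := un.wis hv hw
        have h2 := un.tr_conj ht k
        rw [Subgroup.mem_center_iff.1 h1 k, mul_inv_cancel_right, k1] at h2
        have h4 := (ht w).symm.trans (h2 w)
        rw [hw.2, Bone e1] at h4
        exact hv.1 (by simpa [a0] using h4) }
  have := main (al _) un hy
  rw [Subgroup.index_comap_of_surjective _ hs, index_stabilizer_of_transitive,
    Nat.card_eq_fintype_card, hr] at this
  have p1 : ∀ i, 1 ≤ q ^ i := fun i => Nat.one_le_pow _ _ (by omega)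
  refine ⟨fun h => ?_, fun h => ?_⟩ <;> zify [p1 2, p1 n, p1 (n - 1)] <;> rw [this]
  · rw [aa_even h, aa_odd (Nat.Even.sub_odd (by omega) h odd_one)]
  · rw [aa_odd h, aa_even (Nat.Odd.sub_odd h odd_one)]

end H0.RU
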