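import Cfsg.Agent.H0.RU2

/-! S2196: chunk `FO1`. -/

set_option autoImplicit false
set_option linter.unusedSectionVars false
set_option linter.unusedVariables false

open Module MulAction H13.R3 H12
open H11 (hermT frob)

namespace H0.RU

universe u

attribute [-simp] H11.frob_apply

variable {F : Type u} [Field F] [Fintype F] {q : ℕ} {hF : Fintype.card F = q ^ 2}
  {V : Type u} [AddCommGroup V] [Module F V] [Fintype V] {C : CForm (hermT hF) V}
  {x y : V} {φ : V × V → ℂ}

theorem fl_add (c : F) : Fl C x (y + c • x) ↔ Fl C x y := by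
  simpa using fl_tr (C := C) (x := x) (y := y) c one_ne_zero one_ne_zero
theorem ff_add (h : φ ∈ FF C) (x y : V) (c : F) : φ (x, y + c • x) = φ (x, y) := by
  simpa using h.2 1 1 c x y one_ne_zero one_ne_zero
theorem ff_sml (h : φ ∈ FF C) (x y : V) {a b : F} (ha : a ≠ 0) (hb : b ≠ 0) :
    φ (a • x, b • y) = φ (x, y) := by
  simpa using h.2 a b 0 x y ha hb

theorem opS_eq (h : φ ∈ FF C) (x y : V) : opS C φ (x, y) = ∑ c : F, φ (y + c • x, x) := by
  refine Finset.sum_congr rfl fun c _ => ?_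
  split_ifs with h1
  · rfl
  · exact (h.1 _ _ fun e => h1 ((fl_add c).1 e.symm)).symm

theorem opS_add (h : φ ∈ FF C) (x y : V) (c : F) : opS C φ (x, y + c • x) = opS C φ (x, y) := by
  rw [opS_eq h, opS_eq h]
  exact Fintype.sum_equiv (Equiv.addLeft c) _ _ fun d => by simp [add_smul, add_assoc]

theorem opS_swap (h : φ ∈ FF C) (x y : V) :
    φ (y, x) + opS C φ (y, x) = φ (x, y) + opS C φ (x, y) := by
  classical
  rw [opS_eq h, opS_eq h, ← Finset.add_sum_erase _ _ (Finset.mem_univ 0),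
    ← Finset.add_sum_erase _ _ (Finset.mem_univ 0), zero_smul, zero_smul, add_zero, add_zero,
    add_left_comm]
  congr 2
  refine Finset.sum_nbij' (·⁻¹) (·⁻¹) (by simp) (by simp) (by simp) (by simp) fun d hd => ?_
  have d0 : d ≠ 0 := by simpa using hd
  rw [← h.2 d (-d⁻¹) 1 _ x d0 (by simpa)]
  congr 2
  · simp [smul_smul, d0, add_comm]
  · simp

theorem cardC (hF : Fintype.card F = q ^ 2) (a : ℂ) : ∑ _c : F, a = (q : ℂ) ^ 2 * a := by
  simp [hF]

theorem opS_mem (h : φ ∈ FF C) : opS C φ ∈ FF C := by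
  refine ⟨fun x y n => Finset.sum_eq_zero fun c _ => if_neg n, fun a b c x y ha hb => ?_⟩
  rw [show b • y + c • x = b • y + (c / a) • a • x by simp [smul_smul, ha], opS_add h, opS_eq h,
    opS_eq h]
  refine Fintype.sum_equiv (Equiv.mulRight₀ (a / b) (div_ne_zero ha hb)) _ _ fun d => ?_
  rw [← ff_sml h _ x hb ha, Equiv.mulRight₀_apply, smul_add, smul_smul, smul_smul]
  congr 4; field_simp

theorem opA_mem (h : φ ∈ FF C) : opA C φ ∈ FF C := by
  classical
  refine ⟨fun x y n => Finset.sum_eq_zero fun c _ => if_neg fun e => n e.1, fun a b c x y ha hb => ?_⟩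
  have hb' := fr_ne (hF := hF) hb
  refine Fintype.sum_equiv (MulAction.toPerm (Units.mk0 _ hb')) _ _ fun z => ?_
  change _ = if _ ∧ C.B (frob hF b • z) y = 1 then _ * φ (x, frob hF b • z) else 0
  dsimp only
  by_cases hz : Fl C x z
  · have := ff_sml h x z ha one_ne_zero
    have h2 := ff_sml h x z one_ne_zero hb'
    rw [one_smul] at this h2
    rw [this, h2]
    exact if_congr (and_congr (fl_tr c ha hb) (by simp [Bsw hz.2.2.1])) rfl rfl
  · rw [h.1 _ _ (fun e => hz ((fl_tr 0 ha one_ne_zero).1 (by simpa using e))),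
      h.1 _ _ (fun e => hz ((fl_tr 0 one_ne_zero hb').1 (by simpa using e)))]
    simp

theorem e1_mem : e1 C ∈ FF C :=
  ⟨fun x y n => if_neg n, fun a b c x y ha hb => by classical exact if_congr (fl_tr c ha hb) rfl rfl⟩

theorem lx_iff (h : φ ∈ FF C) : opS C φ = (q : ℂ) ^ 2 • φ ↔ Lx C φ := by
  refine ⟨fun e x y c hf => ?_, fun e => funext fun ⟨x, y⟩ => ?_⟩
  · have := opS_swap h x (y + c • x)
    rw [e, Pi.smul_apply, Pi.smul_apply, ff_add h, smul_eq_mul, smul_eq_mul] at this
    refine mul_left_cancel₀ (a := 1 + (q : ℂ) ^ 2) (by norm_cast; positivity) ?_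
    linear_combination this
  · by_cases hf : Fl C x y
    · rw [opS_eq h, Finset.sum_congr rfl fun c _ => e x y c hf, cardC hF]; rfl
    · rw [(opS_mem h).1 _ _ hf, Pi.smul_apply, h.1 _ _ hf, smul_zero]

/-- a common neighbour -/
theorem Ge.ex_nb (ge : Ge C) (x y : V) : ∃ w, w ∉ ln F x y ∧ C.B w w = 0 ∧ C.B x w = 0 ∧ C.B y w = 0 := by
  have h1 := fr_pp ge.nd (ln F x y)
  have h2 := finrank_ln_le (F := F) x y
  have h3 := ge.n6
  obtain ⟨w, h4, h5, h6⟩ := ex_is_off (C := C) (C.perp (ln F x y)) (ln F x y) (by omega)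
  exact ⟨w, h5, h6, mem_pp_ln.1 h4⟩

theorem fo1 : FO1 C := by
  intro ge
  refine ⟨e1_mem, fun φ h => ⟨opS_mem h, opA_mem h, funext fun ⟨x, y⟩ => ?_, lx_iff h,
    fun h1 h2 => ?_, fun h1 h2 => ?_, ?_⟩⟩
  · rw [opS_eq (opS_mem h), Finset.sum_congr rfl fun c _ =>
      eq_sub_of_add_eq' (opS_swap h x (y + c • x))]
    simp only [ff_add h, opS_add h, Finset.sum_sub_distrib, cardC hF, ← opS_eq h, Pi.add_apply,
      Pi.smul_apply, smul_eq_mul]
    ring
  · by_cases hx : ∃ x y, Fl C x y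
    · obtain ⟨x, y, hf⟩ := hx
      refine ⟨φ (x, y), funext fun ⟨x', y'⟩ => ?_⟩
      by_cases hf' : Fl C x' y'
      · obtain ⟨w, w1, w2, w3, w4⟩ := ge.ex_nb x x'
        have f1 : Fl C x w := ⟨hf.1, w2, w3, fun e => w1 (sp_le_ln e)⟩
        have f2 : Fl C x' w := ⟨hf'.1, w2, w4, fun e => w1 (by rw [ln_comm]; exact sp_le_ln e)⟩
        have e1' := h2 x w 0 f1
        have e2 := h2 x' w 0 f2
        rw [zero_smul, add_zero] at e1' e2
        simp only [Pi.smul_apply, e1, if_pos hf', smul_eq_mul, mul_one]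
        rw [h1 x' y' w hf' f2, ← e2, h1 w x' x f2.symm f1.symm, e1', h1 x w y f1 hf]
      · simp [h.1 _ _ hf', e1, hf']
    · exact ⟨0, funext fun ⟨x, y⟩ => by simp [h.1 x y fun e => hx ⟨x, y, e⟩]⟩
  · have q0 : (q : ℂ) ^ 2 ≠ 0 := by have := ge.q3; norm_cast; positivity
    have key : ∀ x y, Fl C x y → φ (y, x) = φ (x, y) := fun x y hf => by
      obtain ⟨w, w1, w2, w3, w4⟩ := ge.ex_nb x y
      have f : ∀ {x y : V}, Fl C x y → w ∉ ln F x y → C.B x w = 0 → C.B y w = 0 → ∀ a : F,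
          Fl C x (w + a • y) := fun {x y} hf w1 w3 w4 a => ⟨hf.1, by simp [w2, w4, Bsw w4, hf.2.1],
        by simp [w3, hf.2.2.1], fun e => w1 (by
          simpa using sub_mem (sp_le_ln (y := y) e) (Submodule.smul_mem _ a r_ln))⟩
      have f1 := f hf w1 w3 w4
      have f2 := f hf.symm (by rwa [ln_comm]) w4 w3
      have s1 : ∀ a : F, ∑ c : F, φ (w + a • y + c • x, x) = -φ (x, y) := fun a => by
        rw [← opS_eq h, h2, Pi.neg_apply, h1 _ _ _ (f1 a) hf]
      have s2 : ∀ c : F, ∑ a : F, φ (w + a • y + c • x, x) = -φ (y, x) := fun c => by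
        rw [← h1 _ _ _ (f2 c) hf.symm, ← Pi.neg_apply φ, ← h2, opS_eq h]
        refine Finset.sum_congr rfl fun a _ => ?_
        rw [add_right_comm w (c • x)]
        exact h1 _ _ _ ((f1 a).add c).symm (add_right_comm w (c • x) _ ▸ ((f2 c).add a).symm)
      have := Finset.sum_comm (s := Finset.univ) (t := Finset.univ)
        (f := fun a c : F => φ (w + a • y + c • x, x))
      simp only [s1, s2, cardC hF] at this
      exact neg_injective (mul_left_cancel₀ q0 this).symm
    have := (lx_iff h).2 fun x y c hf => (key _ _ (hf.add c)).trans (ff_add h x y c)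
    refine smul_right_injective _ (show (1 + (q : ℂ) ^ 2) ≠ 0 by norm_cast; positivity) ?_
    simp only [add_smul, ← this, h2, one_smul, add_neg_cancel, smul_zero, add_zero]
  · rw [Fintype.sum_prod_type, Fintype.sum_prod_type_right, Finset.mul_sum]
    refine Finset.sum_congr rfl fun x _ => ?_
    simp only [opS_eq h]
    rw [Finset.sum_comm, ← cardC hF]
    exact Finset.sum_congr rfl fun c _ => Fintype.sum_equiv (Equiv.addRight (c • x)) _ _ fun y => rfl

end H0.RU
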