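import Cfsg.Agent.H0.RU4

/-! S2196: chunks `FL2`, `STR`. -/

set_option autoImplicit false
set_option linter.unusedSectionVars false
set_option linter.unusedVariables false

open Module MulAction H13.R3 H12
open H11 (hermT frob)
open H11.RS (PO)

namespace H0.RU

universe u

attribute [-simp] H11.frob_apply

variable {F : Type u} [Field F] [Fintype F] {q : ℕ} {hF : Fintype.card F = q ^ 2}
  {V : Type u} [AddCommGroup V] [Module F V] [Fintype V] {C : CForm (hermT hF) V}
  {G : Type u} [Group G] [Fintype G] [DistribMulAction G V] [SMulCommClass G F V] {H : Subgroup G}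
  {x y z : V} {φ : V × V → ℂ}

variable (C) in
open Classical in
/-- indicator function of a set of flags -/
noncomputable def ind (P : V × V → Prop) : V × V → ℂ := fun b => if Fl C b.1 b.2 ∧ P b then 1 else 0
variable (C) in
/-- the zero-sum part -/
noncomputable def zs (φ : V × V → ℂ) : V × V → ℂ := φ - ((∑ b, φ b) / ∑ b, e1 C b) • e1 C

theorem ind_pos {P : V × V → Prop} (h : Fl C x y) (h' : P (x, y)) : ind C P (x, y) = 1 := if_pos ⟨h, h'⟩
theorem ind_neg {P : V × V → Prop} {b : V × V} (h' : ¬ P b) : ind C P b = 0 := if_neg fun e => h' e.2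
theorem e1_pos (h : Fl C x y) : e1 C (x, y) = 1 := if_pos h

theorem Fq.of_tr {a b : F} (c : F) (x y : V) : Fq F H (a • x, b • y + c • x) (x, y) :=
  Fq.of_mem (Submodule.smul_mem _ _ (Submodule.mem_span_singleton_self x))
    (add_mem (Submodule.smul_mem _ _ r_ln) (Submodule.smul_mem _ _ l_ln))

/-- indicator functions of unions of flag orbits -/
theorem Un.ind_mem (un : Un C G) {P : V × V → Prop}
    (hP : ∀ a b, Fl C a.1 a.2 → Fq F H a b → P a → P b) :
    ind C P ∈ FF C ∧ ∀ h ∈ H, ∀ b, ind C P (h • b) = ind C P b := by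
  classical
  refine ⟨⟨fun x y n => if_neg fun e => n e.1, fun a b c x y ha hb => if_congr ?_ rfl rfl⟩,
    fun h hh b => if_congr ?_ rfl rfl⟩
  · exact ⟨fun e => ⟨(fl_tr c ha hb).1 e.1, hP _ _ e.1 (Fq.of_tr c x y) e.2⟩, fun e =>
      ⟨e.1.tr c ha hb, hP _ _ e.1 ((Fq.of_tr c x y).symm (e.1.tr c ha hb).ind) e.2⟩⟩
  · exact ⟨fun e => ⟨un.fl_smul.1 e.1, hP _ _ e.1 ((Fq.smul hh b).symm (un.fl_smul.1 e.1).ind) e.2⟩,
      fun e => ⟨un.fl_smul.2 e.1, hP _ _ e.1 (Fq.smul hh b) e.2⟩⟩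

theorem sum_e1 (h : Fl C x y) : ∑ b, e1 C b ≠ 0 := by
  classical
  simp only [e1, Finset.sum_boole, Nat.cast_ne_zero, Finset.card_ne_zero]
  exact ⟨(x, y), by simpa⟩

theorem Un.zs_mem (un : Un C G) (hf : Fl C x y) (h : φ ∈ FF C) (h' : ∀ h ∈ H, ∀ b, φ (h • b) = φ b) :
    zs C φ ∈ EF C H := by
  classical
  refine ⟨sub_mem h (Submodule.smul_mem _ _ e1_mem), fun g hg b => ?_, ?_⟩
  · have : e1 C (g • b) = e1 C b := if_congr un.fl_smul rfl rfl
    simp only [zs, Pi.sub_apply, Pi.smul_apply, h' g hg, this]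
  · simp only [zs, Pi.sub_apply, Pi.smul_apply, smul_eq_mul, Finset.sum_sub_distrib, ← Finset.mul_sum]
    rw [div_mul_cancel₀ _ (sum_e1 hf), sub_self]

theorem zs_sub {x' y' : V} (h : Fl C x y) (h' : Fl C x' y') :
    zs C φ (x, y) - zs C φ (x', y') = φ (x, y) - φ (x', y') := by
  simp [zs, e1_pos h, e1_pos h']

theorem ef_fq (h : φ ∈ EF C H) {a b : V × V} (ha : Fl C a.1 a.2) (e : Fq F H a b) : φ a = φ b := by
  obtain ⟨g, hg, h1, h2⟩ := e
  obtain ⟨c, hc⟩ := Submodule.mem_span_singleton.1 h1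
  obtain ⟨d, e, hd⟩ := mem_ln.1 h2
  have hi := ha.ind.smul g
  rw [← h.2.1 g hg, ← h.1.2 c e d b.1 b.2 (fun e => hi.1 (by simp [← hc, e])) fun e0 => hi.2 (by
    rw [sp_eq hi.1 h1, ← hd, e0, zero_smul, add_zero]
    exact Submodule.smul_mem _ _ (Submodule.mem_span_singleton_self _)), hc, add_comm, hd]
  rfl

theorem ef_px (un : Un C G) (h : φ ∈ EF C H) (hp : Px C φ) {x' y' : V} (hf : Fl C x y)
    (hf' : Fl C x' y') (e : PO F H x x') : φ (x, y) = φ (x', y') := by
  obtain ⟨g, hg, c, hc, e⟩ := e.ex hf.1.1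
  have := un.fl_smul (g := g).2 hf
  rw [ef_fq h (a := (x, y)) (b := (x', g • y)) hf ⟨g, hg, Submodule.mem_span_singleton.2 ⟨c, e.symm⟩, r_ln⟩]
  refine hp _ _ _ ((fl_tr 0 hc one_ne_zero).1 ?_) hf'
  simpa [← e] using this

theorem pw_ne (hq : 2 ≤ q) {i j : ℕ} (h : i ≠ j) : (q : ℂ) ^ i + (-q : ℂ) ^ j ≠ 0 := fun e => by
  have := congrArg norm (eq_neg_of_add_eq_zero_left e)
  simp only [norm_pow, norm_neg, Complex.norm_natCast] at this
  exact h (pow_right_injective₀ (by positivity) (by norm_cast; omega) this)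

theorem fl2 (ft : FT C H) (fo2 : FO2 C) : FL2 C H := by
  intro un r3 qi hP l2 a b c d ha hb hc hd
  have n6 := un.n6
  have q2 : 2 ≤ q := by have := un.q3; omega
  simp only [PP, not_forall] at hP
  obtain ⟨x1, x2, i1, i2, ne⟩ := hP
  obtain ⟨y1, f1⟩ := ex_fl un.nd (by omega) i1
  obtain ⟨y2, f2⟩ := ex_fl un.nd (by omega) i2
  obtain ⟨m1, m2⟩ := un.ind_mem (H := H) (P := fun b => PO F H x1 b.1) fun a b _ e h => h.trans e.po
  have m := un.zs_mem f1 m1 m2
  have px : Px C (zs C (ind C fun b => PO F H x1 b.1)) := fun x y y' h h' => sub_eq_zero.1 (by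
    rw [zs_sub h h']
    by_cases e : PO F H x1 x
    · rw [ind_pos h e, ind_pos h' e, sub_self]
    · rw [ind_neg (b := (x, y)) e, ind_neg (b := (x, y')) e, sub_self])
  have n0 : zs C (ind C fun b => PO F H x1 b.1) ≠ 0 := fun e => by
    have := zs_sub (φ := ind C fun b => PO F H x1 b.1) f1 f2
    rw [e, ind_pos f1 (.refl x1), ind_neg (b := (x2, y2)) ne] at this
    simp at this
  have e1' := (fo2 un.toGe _ m.1).1 px
  have no : ∀ j, 2 * finrank F V - 7 ≠ j → ¬ ∀ φ ∈ EF C H, opA C φ = -(-q : ℂ) ^ j • φ := fun j hj h =>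
    n0 (smul_right_injective _ (pw_ne q2 hj) (by
      simp only [add_smul, ← e1', h _ m, neg_smul, neg_add_cancel, smul_zero]))
  rcases ft un r3 qi with h | ⟨-, h | h | h⟩ | ⟨-, h⟩
  · exact absurd (h ▸ m :) (by simpa using n0)
  · exact absurd h (no _ (by omega))
  · exact absurd h (no _ (by omega))
  · exact absurd (h.1 _ m px) n0
  set K := EF C H ⊓ LinearMap.ker (opA C - (q : ℂ) ^ (2 * finrank F V - 7) • .id) with hK
  have k1 : finrank ℂ K ≤ finrank ℂ ℂ := by
    refine LinearMap.finrank_le_finrank_of_injective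
      (f := (.proj (x1, y1) - .proj (x2, y2) : (V × V → ℂ) →ₗ[ℂ] ℂ) ∘ₗ K.subtype)
      ((injective_iff_map_eq_zero _).2 fun ψ e => Subtype.ext ?_)
    obtain ⟨ψ, h1, h2⟩ := ψ
    have h3 : opA C ψ = (q : ℂ) ^ (2 * finrank F V - 7) • ψ := sub_eq_zero.1 h2
    have h4 := (fo2 un.toGe _ h1.1).2.2
    have h5 : Px C ψ := fun x y y' h h' => by
      have := h4 x y y' h h'
      simp only [h3, map_smul, Pi.add_apply, Pi.smul_apply, smul_eq_mul] at this
      refine mul_left_cancel₀ (mul_ne_zero (pw_ne q2 (i := 2 * finrank F V - 7) (j := finrank F V - 4)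
        (by omega)) (pw_ne q2 (i := 2 * finrank F V - 7) (j := finrank F V - 5) (by omega))) ?_
      rw [show 2 * finrank F V - 9 = finrank F V - 4 + (finrank F V - 5) by omega, pow_add] at this
      linear_combination this
    have h6 : ψ = ψ (x1, y1) • e1 C := funext fun ⟨x, y⟩ => by
      by_cases hf : Fl C x y
      · rw [Pi.smul_apply, e1_pos hf, smul_eq_mul, mul_one]
        rcases l2 x1 x2 x i1 i2 hf.1 with h | h | h
        exacts [absurd h ne, (ef_px un h1 h5 f1 hf h).symm,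
          (ef_px un h1 h5 f2 hf h).symm.trans (sub_eq_zero.1 e).symm]
      · simp [h1.1.1 _ _ hf, e1, hf]
    have h7 := h1.2.2
    rw [h6] at h7
    simp only [Pi.smul_apply, smul_eq_mul, ← Finset.mul_sum, mul_eq_zero, sum_e1 f1, or_false] at h7
    rw [h7, zero_smul] at h6; exact h6
  by_contra hn
  simp only [not_or] at hn
  obtain ⟨n1, n2, n3, n4, n5, n6'⟩ := hn
  have mm : ∀ a, zs C (ind C (Fq F H a)) ∈ EF C H := fun a =>
    let ⟨h1, h2⟩ := un.ind_mem (H := H) (P := Fq F H a) fun _ _ _ e h => h.trans e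
    un.zs_mem f1 h1 h2
  have k2 : finrank ℂ (ℂ × ℂ × ℂ) ≤ finrank ℂ (EF C H) := by
    refine LinearMap.finrank_le_finrank_of_surjective
      (f := (LinearMap.prod (.proj a - .proj d) (LinearMap.prod (.proj b - .proj d)
        (.proj c - .proj d)) : (V × V → ℂ) →ₗ[ℂ] ℂ × ℂ × ℂ) ∘ₗ (EF C H).subtype) fun v =>
      ⟨v.1 • ⟨_, mm a⟩ + v.2.1 • ⟨_, mm b⟩ + v.2.2 • ⟨_, mm c⟩, ?_⟩
    have s := fun (φ : V × V → ℂ) {a : V × V} (ha : Fl C a.1 a.2) => zs_sub (φ := φ) ha hd
    simp only [map_add, map_smul]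
    simp [s _ ha, s _ hb, s _ hc, ind_pos ha (Fq.refl a), ind_pos hb (Fq.refl b), ind_pos hc (Fq.refl c),
      ind_neg n1, ind_neg n2, ind_neg n3, ind_neg n4, ind_neg n5, ind_neg n6',
      ind_neg fun e => n1 (Fq.symm e hb.ind), ind_neg fun e => n2 (Fq.symm e hc.ind),
      ind_neg fun e => n4 (Fq.symm e hc.ind)]
  simp at k1 k2; omega

variable (F) in
/-- number of points of the orbit of `z` on the line `ln a b`, other than `a` -/
noncomputable def cn (H : Subgroup G) (z a b : V) : ℕ := {c : F | PO F H z (b + c • a)}.ncard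

theorem cn_eq (hf : Fl C x y) : (cn F H z x y : ℂ) = opS C (ind C fun b => PO F H z b.1) (x, y) := by
  classical
  simp only [opS, ind, LinearMap.coe_mk, AddHom.coe_mk, hf, (hf.add _).symm, true_and, if_true,
    Finset.sum_boole, cn, Set.ncard_eq_toFinset_card', Set.toFinset_setOf]

open Classical in
theorem Un.cn_swap (un : Un C G) (hf : Fl C x y) : cn F H z y x + (if PO F H z y then 1 else 0) =
    cn F H z x y + if PO F H z x then 1 else 0 := by
  have := opS_swap (un.ind_mem (H := H) (P := fun b => PO F H z b.1) fun a b _ e h => h.trans e.po).1 x y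
  rw [← cn_eq hf, ← cn_eq hf.symm] at this
  simp only [ind, hf, hf.symm, true_and] at this
  rw [add_comm, add_comm (cn F H z x y)]
  exact_mod_cast this

theorem cn_fq {x' y' : V} (hi : Ind F x y) (e : Fq F H (x, y) (x', y')) :
    cn F H z x y = cn F H z x' y' := by
  obtain ⟨g, hg, h1, h2⟩ := e
  obtain ⟨c, hc⟩ := Submodule.mem_span_singleton.1 h1
  obtain ⟨d, e, hd⟩ := mem_ln.1 h2
  dsimp only at hc hd h1
  have hi' := hi.smul g
  have c0 : c ≠ 0 := fun e => hi'.1 (by simp [← hc, e])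
  have e0 : e ≠ 0 := fun e0 => hi'.2 (by
    rw [sp_eq hi'.1 h1, ← hd, e0, zero_smul, add_zero]
    exact Submodule.smul_mem _ _ (Submodule.mem_span_singleton_self _))
  have key : ∀ a : F, PO F H z (y + a • x) ↔ PO F H z (y' + ((d + a * c) / e) • x') := fun a => by
    rw [← po_smul hg, ← po_sml e0 (w := y' + _), smul_add, gsc, ← hc, ← hd, smul_add, smul_smul,
      smul_smul, mul_div_cancel₀ _ e0, add_smul, add_comm (d • x'), add_assoc]
  exact Set.ncard_congr (fun a _ => (d + a * c) / e) (fun a ha => (key a).1 ha)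
    (fun a a' _ _ h => mul_right_cancel₀ c0 (add_left_cancel ((div_left_inj' e0).1 h)))
    fun a ha => ⟨(a * e - d) / c, (key _).2 (by simpa [c0, e0] using ha), by simp [c0, e0]⟩

theorem cn_plane (x y w : V) : ∑ a : F, cn F H z x (w + a • y) = ∑ c : F, cn F H z y (w + c • x) := by
  classical
  simp only [cn, Set.ncard_eq_toFinset_card', Set.toFinset_setOf, Finset.card_filter]
  rw [Finset.sum_comm]
  simp only [add_right_comm w]

theorem str : STR C H := by
  classical
  intro un hP l2 l3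
  simp only [PP, not_forall] at hP
  obtain ⟨x1, x2, i1, i2, ne⟩ := hP
  obtain ⟨p1, p2, f, ne⟩ : ∃ p1 p2, Fl C p1 p2 ∧ ¬ PO F H p1 p2 := by
    obtain ⟨w, w1, w2, w3, w4⟩ := un.toGe.ex_nb x1 x2
    have f1 : Fl C x1 w := ⟨i1, w2, w3, fun e => w1 (sp_le_ln e)⟩
    have f2 : Fl C x2 w := ⟨i2, w2, w4, fun e => w1 (by rw [ln_comm]; exact sp_le_ln e)⟩
    by_cases h : PO F H x1 w
    · exact ⟨w, x2, f2.symm, fun e => ne (h.trans e)⟩
    · exact ⟨x1, w, f1, h⟩
  obtain ⟨z, x, f, ne, one⟩ : ∃ z x, Fl C z x ∧ ¬ PO F H z x ∧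
      ∀ z' y, Fl C z' y → PO F H z z' → Fq F H (z, x) (z', y) := by
    by_contra hn
    push Not at hn
    have ne' : ¬ PO F H p2 p1 := fun e => ne (e.symm f.isr.1)
    obtain ⟨a, b, h1, h2, h3⟩ := hn p1 p2 f ne
    obtain ⟨c, d, h4, h5, h6⟩ := hn p2 p1 f.symm ne'
    rcases l3 (p1, p2) (p2, p1) (a, b) (c, d) f f.symm h1 h4 with h | h | h | h | h | h
    exacts [ne h.po, h3 h, ne (h.po.trans (h5.symm f.isr.1)), ne' (h.po.trans (h2.symm f.1.1)), h6 h,
      ne ((h2.trans h.po).trans (h5.symm f.isr.1))]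
  have c1 : ∀ z' y, Fl C z' y → PO F H z z' → cn F H z z' y = cn F H z z x := fun z' y h h' =>
    (cn_fq f.ind (one z' y h h')).symm
  have c2 : ∀ a b, Fl C a b → ¬ PO F H z a →
      cn F H z a b = 0 ∨ cn F H z a b = cn F H z z x + 1 := fun a b h h' => by
    refine or_iff_not_imp_left.2 fun h0 => ?_
    obtain ⟨c, hc⟩ := Set.nonempty_of_ncard_ne_zero h0
    have := un.cn_swap (H := H) (z := z) (h.add c)
    rw [if_pos (show PO F H z _ from hc), if_neg h', c1 _ _ (h.add c).symm hc, cn_fq (h.add c).ind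
      (by simpa using Fq.of_tr (H := H) (a := 1) (b := 1) c a b)] at this
    omega
  obtain ⟨w, w1, w2, w3, w4⟩ := un.toGe.ex_nb z x
  have fw : ∀ {x y : V}, Fl C x y → w ∉ ln F x y → C.B x w = 0 → C.B y w = 0 → ∀ a : F,
      Fl C x (w + a • y) := fun {x y} hf w1 w3 w4 a => ⟨hf.1, by simp [w2, w4, Bsw w4, hf.2.1],
    by simp [w3, hf.2.2.1], fun e => w1 (by
      simpa using sub_mem (sp_le_ln (y := y) e) (Submodule.smul_mem _ a r_ln))⟩
  have f1 := fw f w1 w3 w4
  have f2 := fw f.symm (by rwa [ln_comm]) w4 w3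
  have pl := cn_plane (F := F) (H := H) (z := z) z x w
  simp only [c1 z _ (f1 _) (.refl z), Finset.sum_const, Finset.card_univ, hF, smul_eq_mul] at pl
  obtain ⟨c0, h0⟩ : ∃ c : F, cn F H z x (w + c • z) = 0 := by
    by_contra hn
    push Not at hn
    simp only [fun c => (c2 x _ (f2 c) ne).resolve_left (hn c), Finset.sum_const, Finset.card_univ, hF,
      smul_eq_mul] at pl
    have := Nat.eq_of_mul_eq_mul_left (pow_pos (by have := un.q3; omega) 2) pl
    omega
  refine ⟨z, cn F H z z x + 1, f.1, ⟨x, f.isr, ne⟩, fun v w hv hw h1 h2 => ?_, fun y y' h h' =>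
    ((one z y h (.refl z)).symm f.ind).trans (one z y' h' (.refl z)), fun y c c' h h1 h2 => ?_,
    fun y h => congrArg (· + 1) (c1 z y h (.refl z)), ?_⟩
  · exact ((l2 z v w f.1 hv hw).resolve_left h1).resolve_left h2
  · have k : ∀ c : F, ¬ PO F H z (y + c • z) → ¬ Fq F H (y + c • z, z) (x, w + c0 • z) := fun c h1 e => by
      have := un.cn_swap (H := H) (z := z) (h.add c)
      rw [if_neg h1, if_pos (.refl z), cn_fq (h.add c).symm.ind e, h0] at this
      omega
    rcases l3 (y + c • z, z) (y + c' • z, z) (z, x) (x, w + c0 • z) (h.add c).symm (h.add c').symm f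
      (f2 c0) with e | e | e | e | e | e
    exacts [e, absurd (e.po.symm (h.add c).isr.1) h1, absurd e (k c h1),
      absurd (e.po.symm (h.add c').isr.1) h2, absurd e (k c' h2), absurd e.po ne]
  · refine (Nat.coprime_self_add_left.2 (Nat.coprime_one_left _)).dvd_of_dvd_mul_right ?_
    rw [pl]
    exact Finset.dvd_sum fun c _ => by rcases c2 x _ (f2 c) ne with e | e <;> simp [e]

end H0.RU
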