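import Cfsg.Agent.H0.RU2
import Cfsg.Agent.H16.RU3
import Cfsg.Agent.H19.RU1
import Cfsg.Agent.H25.RU1

/-! S2196: chunk `PT`. -/

set_option autoImplicit false
set_option linter.unusedSectionVars false
set_option linter.unusedVariables false

open Module MulAction H13.R3 H12
open H11 (hermT frob)
open H11.RS (PO)

namespace H0.RU

universe u

attribute [-simp] H11.frob_apply

variable {F : Type u} [Field F] [Fintype F] {q : ℕ} {hF : Fintype.card F = q ^ 2}
  {V : Type u} [AddCommGroup V] [Module F V] [Fintype V] {C : CForm (hermT hF) V}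
  {G : Type u} [Group G] [Fintype G] [DistribMulAction G V] [SMulCommClass G F V] {H : Subgroup G}
  {x y z : V} {φ : V → ℂ}

theorem Un.opK_inv (un : Un C G) {g : G} (h : ∀ v, φ (g • v) = φ v) (v : V) :
    opK C φ (g • v) = opK C φ v := by
  classical
  refine (Fintype.sum_equiv (MulAction.toPerm g) _ _ fun u => ?_).symm
  simp only [MulAction.toPerm_apply, un.is_smul, un.iso, h]

theorem pf_po (h : φ ∈ PF C 1) (h' : ∀ g ∈ H, ∀ v, φ (g • v) = φ v) (hx : x ≠ 0) (e : PO F H x y) :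
    φ y = φ x := by
  obtain ⟨g, hg, c, hc, e⟩ := e.ex hx
  rw [← h' g hg x, e, h.2 c y hc]; simp

theorem pt0 (un : Un C G) (hP : ¬ PP C H) (l2 : Le2 (Is C) (PO F H)) (hz : Is C z) :
    Gd C H ∧ Ev C H z := by
  classical
  have n6 := un.n6
  have q3 := un.q3
  obtain ⟨x, hx, ne⟩ : ∃ x, Is C x ∧ ¬ PO F H z x := by
    by_contra hn; push Not at hn
    exact hP fun v w hv hw => ((hn v hv).symm hz.1).trans (hn w hw)
  have cI : ∑ v, (if Is C v then (1 : ℂ) else 0) = Np q (finrank F V) * (q ^ 2 - 1) := by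
    rw [H16.RU.sum_ite, mul_one]
    exact_mod_cast (ncard_is un.nd (by omega)).trans (Np_mul (by omega)).symm
  have I0 : (Np q (finrank F V) : ℂ) * (q ^ 2 - 1) ≠ 0 := by
    have h1 := Np_pos (q := q) (d := finrank F V) (by omega) (by omega)
    have h2 : (0 : ℤ) < (q : ℤ) ^ 2 - 1 := by nlinarith [show (3 : ℤ) ≤ q by exact_mod_cast q3]
    exact_mod_cast (mul_pos h1 h2).ne'
  obtain ⟨ρ, hρ⟩ : ∃ ρ : ℂ, ρ * (Np q (finrank F V) * (q ^ 2 - 1)) = (Ob F H z).ncard :=
    ⟨_, div_mul_cancel₀ _ I0⟩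
  let φ : V → ℂ := fun v => (if v ∈ Ob F H z then 1 else 0) - ρ * if Is C v then 1 else 0
  have m : φ ∈ PF C 1 := ⟨fun v hv => by simp [φ, hv, mt (un.is_ob hz) hv], fun a v ha => by
    simp [φ, mem_Ob, ha, po_sml ha, is_sml ha]⟩
  have inv : ∀ g ∈ H, ∀ v, φ (g • v) = φ v := fun g hg v => by
    simp [φ, mem_Ob, gsz, po_smul hg, un.is_smul]
  have s0 : ∑ v, φ v = 0 := by
    simp only [φ, Finset.sum_sub_distrib, ← Finset.mul_sum, cI, hρ, H16.RU.sum_ite, mul_one]
    exact sub_self _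
  have vz : φ z = 1 - ρ := by simp [φ, mem_Ob, hz, hz.1, H11.RS.PO.refl]
  have vx : φ x = -ρ := by simp [φ, mem_Ob, hx, ne]
  have n0 : φ ≠ 0 := fun e => by
    rw [e] at vz vx; exact one_ne_zero (by linear_combination -vz + vx : (1 : ℂ) = 0)
  obtain ⟨k1, -, k3, c, k4⟩ := H16.RU.srg un.nd (by omega) φ m
  have kinv := fun g hg => un.opK_inv (inv g hg)
  obtain ⟨α, hα⟩ : ∃ α : ℂ, opK C φ = α • φ := by
    refine ⟨opK C φ z - opK C φ x, ?_⟩
    set α := opK C φ z - opK C φ x with hα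
    have h1 : ∀ v, opK C φ v - α * φ v = (opK C φ x + α * ρ) * if Is C v then 1 else 0 := fun v => by
      by_cases hv : Is C v
      · rw [if_pos hv]
        rcases l2 z x v hz hx hv with h | h | h
        · exact absurd h ne
        · rw [pf_po k1 kinv hz.1 h, pf_po m inv hz.1 h, vz]; linear_combination -hα
        · rw [pf_po k1 kinv hx.1 h, pf_po m inv hx.1 h, vx]; ring
      · simp [hv, k1.1 v hv, m.1 v hv]
    have h2 := Finset.sum_congr (rfl : Finset.univ = Finset.univ) fun v _ => h1 v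
    rw [Finset.sum_sub_distrib, ← Finset.mul_sum, ← Finset.mul_sum, k3, s0, cI] at h2
    have h3 : opK C φ x + α * ρ = 0 := (mul_eq_zero.1 (by linear_combination -h2)).resolve_right I0
    exact funext fun v => sub_eq_zero.1 (by simpa [h3] using h1 v)
  have root : α = -(-q) ^ (finrank F V - 2) ∨ α = -(-q) ^ (finrank F V - 3) := by
    have h1 := k4 z hz
    have h2 := k4 x hx
    simp only [hα, map_smul, Pi.smul_apply, smul_eq_mul, vz, vx] at h1 h2
    rw [show 2 * finrank F V - 5 = finrank F V - 2 + (finrank F V - 3) by omega, pow_add] at h1 h2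
    rw [← add_eq_zero_iff_eq_neg, ← add_eq_zero_iff_eq_neg, ← mul_eq_zero]
    linear_combination h1 - h2
  constructor
  · obtain ⟨j, hj⟩ : ∃ j, finrank F V = j + 6 := ⟨finrank F V - 6, by omega⟩
    have q1 : (q : ℂ) - 1 ≠ 0 := sub_ne_zero.2 (by norm_cast; omega)
    have q0 : (q : ℂ) ≠ 0 := by norm_cast; omega
    obtain ⟨i, c, h1, h2, h3⟩ : ∃ (i : ℕ) (c : ℤ), i + 2 ≤ finrank F V ∧ IsCoprime c q ∧
        (q - 1) * (q ^ (2 * finrank F V - 3) - α) = (q - 1) * q ^ i * c := by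
      rcases root with h | h
      · refine ⟨finrank F V - 2, _, by omega, aa_cop (i := finrank F V - 1) (by omega), ?_⟩
        rw [h, aa_cast, hj, show 2 * (j + 6) - 3 = 2 * j + 9 by omega, show j + 6 - 2 = j + 4 by omega,
          show j + 6 - 1 = j + 5 by omega, neg_pow (q : ℂ)]; ring
      · refine ⟨finrank F V - 3, _, by omega, aa_cop (i := finrank F V) (by omega), ?_⟩
        rw [h, aa_cast, hj, show 2 * (j + 6) - 3 = 2 * j + 9 by omega, show j + 6 - 3 = j + 3 by omega,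
          neg_pow (q : ℂ)]; ring
    have nd : ∀ (l : ℕ) (d : ℤ), i < l → (q - 1 : ℂ) * q ^ i * c ≠ (q - 1) * q ^ l * d := fun l d hl e => by
      obtain ⟨k, rfl⟩ := Nat.exists_eq_add_of_lt hl
      have e1 : c = q * (q ^ k * d) := by
        have : (c : ℂ) = q * (q ^ k * d) :=
          mul_left_cancel₀ (mul_ne_zero q1 (pow_ne_zero i q0)) (by rw [e]; ring)
        exact_mod_cast this
      have := Int.isUnit_iff.1 (h2.symm.isUnit_of_dvd ⟨_, e1⟩)
      omega
    have ty : Ty H (TS C G) ((q - 1) * q ^ i * c) (Yo G φ) :=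
      H19.RU.ty G V H _ _ φ (fun t ht g => un.ts_conj ht g) n0
        (by simpa using nd (i + 1) 0 (by omega)) inv fun v => by
        by_cases hv : Is C v
        · rw [H16.RU.pop un 1 φ m v hv, H16.RU.mu_one, hα, ← h3, Pi.smul_apply, smul_eq_mul]; ring
        · simp [m.1 v hv, m.1 _ (mt un.is_smul.1 hv)]
    exact ⟨_, _, ty, (H25.RU.heis H19.RU.ha H un _ _ ty).2 i c h1 h2 rfl,
      by simpa using nd (2 * finrank F V - 3) 1 (by omega), nd _ _ (by omega), Or.inr ⟨φ, m, rfl⟩⟩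
  · have h1 : opK C φ z = ({u | u ∈ Ob F H z ∧ C.B u z = 1}.ncard : ℂ) -
        ρ * q ^ (2 * finrank F V - 3) := by
      rw [H16.RU.opK_is φ hz, ← mul_one (Set.ncard _ : ℂ), ← H16.RU.sum_ite, ← Nat.cast_pow,
        ← H16.RU.cnt2 un.nd (by omega) hz, ← mul_one (Set.ncard _ : ℂ), ← H16.RU.sum_ite,
        Finset.mul_sum, ← Finset.sum_sub_distrib]
      refine Finset.sum_congr rfl fun u _ => ?_
      by_cases h : C.B u z = 1
      · have : u ≠ 0 := fun e => by simp [e] at h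
        simp [φ, h, Is, this]
      · simp [h]
    have h2 : {v | v ∈ Ob F H z ∧ C.B z v ≠ 0}.ncard =
        ({c : F | c ≠ 0} ×ˢ {u | u ∈ Ob F H z ∧ C.B u z = 1}).ncard := by
      symm
      refine Set.ncard_congr (fun a _ => a.1 • a.2) (fun a ha => ⟨⟨smul_ne_zero ha.1 ha.2.1.1,
        PO.sml ha.2.1.2 ha.1⟩, by simpa [Bone ha.2.2] using ha.1⟩) (fun a b ha hb e => ?_)
        fun v hv => ⟨(C.B z v, (C.B z v)⁻¹ • v), ⟨hv.2, ⟨smul_ne_zero (inv_ne_zero hv.2) hv.1.1,
          PO.sml hv.1.2 (inv_ne_zero hv.2)⟩, Bone (by simp [hv.2])⟩, by simp [hv.2]⟩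
      have e1 := congrArg (C.B z) e
      simp only [map_smul, Bone ha.2.2, Bone hb.2.2, smul_eq_mul, mul_one] at e1
      exact Prod.ext e1 (smul_right_injective V hb.1 (by simpa [e1] using e))
    have h3 := ncard_ne0' (F := F) (V := F)
    rw [finrank_self, pow_one, hF] at h3
    rw [Set.ncard_prod, h3] at h2
    have h4 : 1 ≤ q ^ 2 := Nat.one_le_pow _ _ (by omega)
    have key : ({v | v ∈ Ob F H z ∧ C.B z v ≠ 0}.ncard : ℂ) * Np q (finrank F V) -
        (Ob F H z).ncard * q ^ (2 * finrank F V - 3) =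
        α * (Np q (finrank F V) * (q ^ 2 - 1) - (Ob F H z).ncard) := by
      rw [hα, Pi.smul_apply, vz, smul_eq_mul] at h1
      rw [h2, ← hρ]; push_cast [h4]
      linear_combination (-Np q (finrank F V) * (q ^ 2 - 1) : ℂ) * h1
    rcases root with h | h <;> rw [h] at key
    · exact ⟨_, Or.inl rfl, by exact_mod_cast key⟩
    · exact ⟨_, Or.inr rfl, by exact_mod_cast key⟩

theorem pt : PT C H := fun un hP l2 =>
  let ⟨_, _, hz⟩ := ex_is (C := C) (U := ⊤) (by rw [finrank_top]; have := un.n6; omega)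
  ⟨(pt0 un hP l2 hz).1, fun _ hz => (pt0 un hP l2 hz).2⟩

end H0.RU
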