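import Cfsg.Agent.H1.SN0
import Cfsg.Agent.S4343
import Cfsg.Agent.H21.TIT3

/-! Simple groups with few Sylow `p`-subgroups: existence of the data, counting, small cases. -/

open Cfsg
open H5 H7 H8 H21

namespace H0.SN

open Subgroup Finset H1.SN
open scoped ComplexConjugate MatrixGroups Pointwise

universe u

local notation "𝐍" x:max => normalizer (SetLike.coe (zpowers x))
local notation "𝐂" x:max => centralizer ({x} : Set _)

theorem nt {p n u m k w : ℕ} (mv : m * (u + 1) + 1 = p) (nm : n + m = p + u) (np : n < p)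
    (e : (k * p + 1) * w = (p - 1) * (n * p + 1)) :
    ∃ l, w + 1 = p * (l + 1) ∧ (k = 0 ∨ k = n ∧ l = 0 ∨ k = u ∧ l = m) := by
  obtain ⟨p, rfl⟩ : ∃ k, p = k + 1 := ⟨p - 1, by omega⟩
  rw [Nat.add_sub_cancel] at e
  obtain ⟨l, hl⟩ : p + 1 ∣ w + 1 := Int.natCast_dvd_natCast.1 ⟨p * n + 1 - k * w, by
    zify at e; push_cast; linear_combination e⟩
  rcases l with _ | l
  · simp at hl
  refine ⟨l, hl, ?_⟩
  have h : ((n : ℤ) - k * (l + 1)) * p = (k + 1) * l := by
    zify at e hl
    refine mul_left_cancel₀ (a := (p : ℤ) + 1) (by positivity) ?_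
    linear_combination -e + (k * (p + 1) + 1) * hl
  rcases Nat.eq_zero_or_pos k with k0 | k0
  · exact .inl k0
  have p0 : (0 : ℤ) < p := by have : 0 < m := by omega
                              have : 0 < p := by nlinarith
                              exact_mod_cast this
  obtain h0 | h0 | h0 | h0 : (n : ℤ) - k * (l + 1) < 0 ∨ (n : ℤ) - k * (l + 1) = 0 ∨ (n : ℤ) - k * (l + 1) = 1 ∨
    2 ≤ (n : ℤ) - k * (l + 1) := by omega
  · nlinarith
  · rw [h0, zero_mul] at h
    have : l = 0 := by simpa [show (k : ℤ) + 1 ≠ 0 by positivity] using h.symm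
    subst this
    exact .inr (.inl ⟨by simp at h0; omega, rfl⟩)
  · rw [h0, one_mul] at h
    have h1 : (l : ℤ) - k = m - u := by zify at nm; linear_combination h0 - nm - h
    have h2 : ((k : ℤ) + 1) * l = m * (u + 1) := by zify at mv; linear_combination -h - mv
    have : (k : ℤ) = u := by
      rcases lt_trichotomy (k : ℤ) u with a | a | a
      · nlinarith
      · exact a
      · have : (u : ℤ) < m := by omega
        nlinarith
    exact .inr (.inr ⟨by omega, by omega⟩)
  · have : (1 : ℤ) ≤ k := by exact_mod_cast k0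
    have : (n : ℤ) ≤ p := by omega
    nlinarith

theorem nt' {p n u m d r : ℕ} (mv : m * (u + 1) + 1 = p) (nm : n + m = p + u) (np : n < p) (hr : d + 1 = p * (r + 1))
    (hd : d ∣ (p - 1) * (n * p + 1)) : d = (p - 1) * (n * p + 1) ∨ r = 0 ∨ r = m := by
  obtain ⟨w, hw⟩ := hd
  have m0 : 0 < m := by omega
  have p1 : 1 < p := by nlinarith
  have h0 : 0 < w := Nat.pos_of_ne_zero fun e => by
    simp only [e, mul_zero, Nat.mul_eq_zero] at hw; omega
  obtain ⟨w, rfl⟩ : ∃ k, w = k + 1 := ⟨w - 1, by omega⟩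
  obtain ⟨k, rfl⟩ : p ∣ w := Int.natCast_dvd_natCast.1 ⟨(r + 1) * (w + 1) - (p - 1) * n - 1, by
    zify [p1.le] at hw hr; linear_combination hw + (w + 1) * hr⟩
  obtain ⟨l, e, h⟩ := nt (k := k) (w := d) mv nm np (by rw [hw]; ring)
  obtain rfl : l = r := by have := Nat.eq_of_mul_eq_mul_left (by omega) (e.symm.trans hr); omega
  exact h.imp (fun k0 => by simpa [k0] using hw.symm) (Or.imp And.right And.right)

theorem ex : EX.{u} := fun S _ _ _ _ p hS hp hd hn => by
  have := Fact.mk hp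
  obtain ⟨P⟩ : Nonempty (Sylow p S) := inferInstance
  obtain ⟨x, hx, hi, -⟩ := exists_gen_of_card P (Cfsg.Agent.S4343.result hS p hd hn P)
  have hG := commutator_eq_top_of_simple hS
  obtain ⟨n, hN⟩ := exists_index_eq hp hx hi
  have n0 := index_pos_of_perfect hG hp hx hi hN
  have np : n < p := by rw [card_sylow_eq_index hx hi, hN] at hn; nlinarith
  by_cases hu : ∃ h u : ℕ, 0 < h ∧ 0 < u ∧ n * (u + 1) = h * u * p + u ^ 2 + u + h
  swap
  · have hO : pPrimeCore p S = ⊥ := (IsSimpleGroup.eq_bot_or_eq_top_of_normal _ inferInstance).resolve_right fun h =>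
      H1.not_dvd_card_pPrimeCore (p := p) (G := S) (by rwa [h, card_top])
    rcases br_core hG hO hp hx hi hN n0 (noU_of_not hp.pos hu) with ⟨F, _, _, a, b, c⟩ | ⟨m, F, _, _, _, a, b, c, ⟨e⟩⟩
    · exact .inl ⟨b, .inl ⟨F, _, _, a, c⟩⟩
    have := e.symm.isSimpleGroup
    have z := center_eq_bot_of_simple (G := SL(2, F)) fun h => hS ⟨⟨fun x y => e.injective (by rw [map_mul, map_mul, h.1.1])⟩⟩
    exact .inl ⟨c, .inr (.inr (.inl ⟨⟨m, b⟩, F, _, _, by omega,
      ⟨e.trans ((QuotientGroup.quotientMulEquivOfEq z).trans QuotientGroup.quotientBot).symm⟩⟩))⟩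
  obtain ⟨h, u, h0, u0, e⟩ := hu
  obtain rfl : h = 1 := by
    by_contra c
    have : 2 ≤ h := by omega
    have : 2 * (u * p) ≤ h * u * p := by rw [mul_assoc]; exact Nat.mul_le_mul_right _ this
    nlinarith
  obtain ⟨m, nm⟩ : ∃ m, n + m = p + u := ⟨p + u - n, by omega⟩
  have mv : m * (u + 1) + 1 = p := by nlinarith
  obtain ⟨M, hM⟩ := exists_isPModular hp
  obtain ⟨δ, ζ, a, Y, h⟩ := exists_PD hM hx hi
  obtain ⟨η, hη⟩ := card_pos.1 h.card_Y_pos
  obtain ⟨j, hj, hj'⟩ := h.exists_exc hη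
  have hc := h.card
  have hq : aq x ∣ p - 1 := ⟨#Y, by rw [← h.card, mul_comm]; rfl⟩
  have hC : (𝐂 x).index ∣ (p - 1) * (n * p + 1) := by
    rw [← aq_mul_index, hN]; exact Nat.mul_dvd_mul_right hq _
  have un : u < n := by have : m < p := by nlinarith
                        omega
  have pos : ∀ χ, a χ = 1 → χ = irrOne S ∨ charDegree χ.1 = u * p + 1 ∨ charDegree χ.1 = n * p + 1 := fun χ hχ => by
    obtain ⟨k, e, -⟩ := h.exists_pos hχ
    obtain ⟨w, hw⟩ := e ▸ (h.nonexc_dvd (χ := χ) (by omega)).trans hC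
    obtain ⟨l, -, c | c | c⟩ := nt mv nm np hw.symm
    exacts [.inl (eq_irrOne_of_degree hG (by simpa [c] using e)), .inr (.inr (c.1 ▸ e)), .inr (.inl (c.1 ▸ e))]
  have bd : ∀ χ₀ (c : ℤ), (a χ₀ * charDegree χ₀.1 ≤ (if a χ₀ ≠ 0 then 1 else 0) * (n * p + 1) - c) → χ₀ ≠ irrOne S →
      δ * charDegree η.1 ≤ 1 + (aq x - 1) * (n * p + 1) - c := fun χ₀ c e e' => by
    have : ∀ χ, a χ * charDegree χ.1 ≤ (if χ = irrOne S then 1 else 0) * (-(n * p : ℤ)) +
        (if a χ ≠ 0 then 1 else 0) * (n * p + 1) - (if χ = χ₀ then 1 else 0) * c := fun χ => by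
      by_cases e1 : χ = irrOne S
      · subst e1; simp [h.one, charDegree_irrOne, e'.symm]
      by_cases e2 : χ = χ₀
      · subst e2; simpa [e1] using e
      rcases h.pm χ with e3 | e3 | e3
      · simp [e1, e2, e3]
      · rcases (pos χ e3).resolve_left e1 with e4 | e4 <;> simp [e1, e2, e3, e4]
        nlinarith
      · have : (0 : ℤ) ≤ n * p := by positivity
        have : (0 : ℤ) ≤ charDegree χ.1 := by positivity
        simp only [e1, e2, e3, if_false, ne_eq, neg_eq_zero, one_ne_zero, not_false_eq_true, if_true]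
        linarith
    have s := sum_le_sum fun χ (_ : χ ∈ univ) => this χ
    simp only [sum_add_distrib, sum_sub_distrib, sum_ite_eq', mem_univ, if_true, ← sum_mul, sum_boole, h.cardX] at s
    rw [h.degree_rel hη]; linarith
  have h6 : #Y * charDegree η.1 ∣ (p - 1) * (n * p + 1) := by
    rw [← h.card, Nat.add_sub_cancel, mul_assoc, h.card, ← hN, aq_mul_index]
    exact Nat.mul_dvd_mul_left _ (h.exc_dvd hη)
  have η1 := h.ne_irrOne hη
  have t0 := h.card_Y_pos
  have z0 := charDegree_pos η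
  have cas : δ = 1 ∧ (j = 0 ∨ #Y * j = m) ∨ δ = -1 ∧ (#Y * j = u + 1 ∨ #Y * j = n + 1) := by
    rcases h.sign with rfl | rfl
    · rcases nt' mv nm np (r := #Y * j) (by zify at hc ⊢; linear_combination #Y * hj + hc) h6 with c | c | c
      · have := bd η 0 (by simp [h.zero η hη]) η1
        rw [← hc, Nat.add_sub_cancel, mul_assoc, hc] at c
        rw [Nat.eq_of_mul_eq_mul_left t0 c] at this
        push_cast at this
        have := hp.pos
        nlinarith [Nat.mul_pos n0 hp.pos]
      exacts [.inl ⟨rfl, .inl ((Nat.mul_eq_zero.1 c).resolve_left t0.ne')⟩, .inl ⟨rfl, .inr c⟩]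
    obtain ⟨k, hk⟩ : ∃ k, #Y * j = k + 1 := ⟨#Y * j - 1, by
      have : j ≠ 0 := fun e => by simp [e] at hj; omega
      have := Nat.mul_pos t0 (Nat.pos_of_ne_zero this); omega⟩
    have e : #Y * charDegree η.1 = k * p + 1 := by zify at hc hk ⊢; linear_combination #Y * hj - hc + p * hk
    obtain ⟨w, hw⟩ := e ▸ h6
    obtain ⟨l, -, c | c | c⟩ := nt mv nm np hw.symm
    · exact absurd (eq_irrOne_of_degree hG (Nat.eq_one_of_mul_eq_one_left (by simpa [c] using e))) η1
    exacts [.inr ⟨rfl, .inr (c.1 ▸ hk)⟩, .inr ⟨rfl, .inl (c.1 ▸ hk)⟩]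
  refine .inr ⟨⟨M, p, x, δ, ζ, a, Y, n, u, m, j, h, inferInstance, hG, hN, np, u0, mv, nm, pos, fun χ hχ => ?_, fun η' hη' => ?_,
    cas⟩, rfl⟩
  · obtain ⟨r, e, -⟩ := h.exists_neg hχ
    have d := h.nonexc_dvd (χ := χ) (by omega)
    rcases nt' mv nm np e (d.trans hC) with c | rfl | rfl
    · rw [c, ← aq_mul_index, hN] at d
      have q := Nat.dvd_antisymm hq (Nat.dvd_of_mul_dvd_mul_right (by omega) d)
      have t1 : #Y = 1 := Nat.eq_of_mul_eq_mul_right (aq_pos x) (by omega)
      have := bd χ (p * (n * p + 1)) (by simp [hχ, c, hp.one_le]; linarith) fun e => by simp [e, h.one] at hχ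
      have q' : (aq x : ℤ) = p - 1 := by rw [q, Nat.cast_sub hp.one_le]; rfl
      have a1 : (1 : ℤ) ≤ n * p := by exact_mod_cast Nat.mul_pos n0 hp.pos
      have a2 : (u : ℤ) * p ≤ n * p := by exact_mod_cast Nat.mul_le_mul_right p un.le
      have z1 : (0 : ℤ) < charDegree η.1 := by exact_mod_cast z0
      rw [q'] at this hj
      rw [t1, one_mul] at cas
      exfalso
      rcases cas with ⟨rfl, -⟩ | ⟨rfl, rfl | rfl⟩
      · linarith
      all_goals push_cast at hj; linarith
    exacts [.inl (by omega), .inr (by rw [e, mul_comm])]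
  · obtain ⟨j', a, b⟩ := h.exists_exc hη'
    obtain rfl : j' = j := by
      rw [h.degree_eq hη' hη, hj] at a
      exact_mod_cast (mul_left_cancel₀ (Int.natCast_ne_zero.2 hp.ne_zero) (add_right_cancel a)).symm
    exact ⟨a, b⟩

theorem ar {p n u m s : ℕ} (mv : m * (u + 1) + 1 = p) (nm : n + m = p + u) (hs : p = s + m) :
    n * p + 1 = s * (p + (u + 1)) ∧ u * p + 1 = s * (u + 1) ∧ m * (p + (u + 1)) + 1 = (m + 1) * p := by
  zify at *
  refine ⟨?_, ?_, ?_⟩
  · linear_combination mv + p * nm + (p + u + 1) * hs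
  · linear_combination mv + (u + 1) * hs
  · linear_combination mv

theorem ba : BA.{u} := fun G _ _ _ D => by
  obtain ⟨M, p, x, δ, ζ, a, Y, n, u, m, j, h, _, hG, hN, np, u0, mv, nm, pos, neg, exc, cas⟩ := D
  simp only [Dat.nA, Dat.nN, Dat.nC, Dat.nD, Dat.e, Dat.t]
  have hp := h.prime
  have m0 : 0 < m := by omega
  have mp : m < p := by nlinarith
  have un : u * p < n * p := Nat.mul_lt_mul_of_pos_right (by omega) hp.pos
  have up : 0 < u * p := Nat.mul_pos u0 hp.pos
  have pm : p < (m + 1) * p := by nlinarith [hp.pos]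
  have h3 : ∀ χ, (a χ * charDegree χ.1 : ℤ) = (if χ = irrOne G then 1 else 0) +
      (if a χ = 1 ∧ charDegree χ.1 = u * p + 1 then 1 else 0) * (u * p + 1) +
      (if a χ = 1 ∧ charDegree χ.1 = n * p + 1 then 1 else 0) * (n * p + 1) -
      (if a χ = -1 ∧ charDegree χ.1 + 1 = p then 1 else 0) * (p - 1) -
      (if a χ = -1 ∧ charDegree χ.1 + 1 = (m + 1) * p then 1 else 0) * ((m + 1) * p - 1) ∧
      (if a χ ≠ 0 then 1 else 0) = (if χ = irrOne G then 1 else 0) +
      (if a χ = 1 ∧ charDegree χ.1 = u * p + 1 then 1 else 0) +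
      (if a χ = 1 ∧ charDegree χ.1 = n * p + 1 then 1 else 0) +
      (if a χ = -1 ∧ charDegree χ.1 + 1 = p then 1 else 0) +
      (if a χ = -1 ∧ charDegree χ.1 + 1 = (m + 1) * p then 1 else 0) := fun χ => by
    by_cases e : χ = irrOne G
    · subst e
      simp [h.one, charDegree_irrOne, up.ne', (up.trans un).ne', u0.ne', hp.ne_zero, show n ≠ 0 by omega]
    rcases h.pm χ with e' | e' | e'
    · simp [e, e']
    · rcases (pos χ e').resolve_left e with c | c
      · rw [if_neg e, if_pos ⟨e', c⟩, if_neg (by omega), if_neg (by omega), if_neg (by omega), if_pos (by omega), if_neg e,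
          if_pos ⟨e', c⟩, if_neg (by omega), if_neg (by omega), if_neg (by omega), c, e']; simp
      · rw [if_neg e, if_neg (by omega), if_pos ⟨e', c⟩, if_neg (by omega), if_neg (by omega), if_pos (by omega), if_neg e,
          if_neg (by omega), if_pos ⟨e', c⟩, if_neg (by omega), if_neg (by omega), c, e']; simp
    · rcases neg χ e' with c | c
      · rw [if_neg e, if_neg (by omega), if_neg (by omega), if_pos ⟨e', c⟩, if_neg (by omega), if_pos (by omega), if_neg e,
          if_neg (by omega), if_neg (by omega), if_pos ⟨e', c⟩, if_neg (by omega), e']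
        zify at c; simp; linarith
      · rw [if_neg e, if_neg (by omega), if_neg (by omega), if_neg (by omega), if_pos ⟨e', c⟩, if_pos (by omega), if_neg e,
          if_neg (by omega), if_neg (by omega), if_neg (by omega), if_pos ⟨e', c⟩, e']
        zify at c; simp; linarith
  obtain ⟨η, hη⟩ := card_pos.1 h.card_Y_pos
  have h4 := h.degree_rel hη
  have h5 := h.cardX
  rw [card_filter] at h5
  simp only [fun χ => (h3 χ).2, sum_add_distrib, sum_ite_eq', mem_univ, if_true, ← card_filter] at h5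
  simp only [fun χ => (h3 χ).1, sum_add_distrib, sum_sub_distrib, sum_ite_eq', mem_univ, if_true, ← sum_mul, sum_boole] at h4
  have cp : ∀ k e, k ∣ p - 1 → k ∣ e * p → k ∣ e := fun k e a b => Nat.Coprime.dvd_of_dvd_mul_right
    (Nat.Coprime.coprime_dvd_left a (by
      obtain ⟨q, rfl⟩ : ∃ q, p = q + 1 := ⟨p - 1, by omega⟩
      simp)) b
  obtain ⟨s, hs⟩ : ∃ s, p = s + m := ⟨p - m, by omega⟩
  obtain ⟨eN, eA, eD⟩ := ar mv nm hs
  have dv : ∀ χ, a χ ≠ 0 → charDegree χ.1 ∣ aq x * (s * (p + (u + 1))) := fun χ c => by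
    rw [← eN, ← hN, aq_mul_index]; exact h.nonexc_dvd c
  refine ⟨h5, ?_, fun e => ?_, fun e => ?_, fun e => ?_⟩
  · have : δ * δ = 1 := by rcases h.sign with rfl | rfl <;> rfl
    refine mul_left_cancel₀ (Int.natCast_ne_zero.2 hp.ne_zero) ?_
    rw [(exc η hη).1] at h4
    have h6 := congrArg (Nat.cast : ℕ → ℤ) h5
    rw [Nat.cast_add, Nat.cast_add, Nat.cast_add, Nat.cast_add, Nat.cast_one] at h6
    linear_combination h4 - (aq x : ℤ) * this + h6
  all_goals obtain ⟨χ, hχ⟩ := card_ne_zero.1 e; obtain ⟨-, k1, k2⟩ := mem_filter.1 hχ; have d := dv χ (by omega)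
  · rw [k2, eA, mul_left_comm] at d
    have := Nat.dvd_of_mul_dvd_mul_left (by omega) d
    rw [mul_add] at this
    exact cp _ _ ⟨m, by rw [mul_comm]; omega⟩ ((Nat.dvd_add_left (dvd_mul_left _ _)).1 this)
  · rw [show charDegree χ.1 = m * (p + (u + 1)) by omega, ← mul_assoc] at d
    have := Nat.dvd_of_mul_dvd_mul_right (by omega) d
    exact cp _ _ ⟨u + 1, by omega⟩ (by rw [hs, mul_add]; exact dvd_add this (dvd_mul_left _ _))
  · rw [← eN, show charDegree χ.1 = aq x * #Y by have := h.card; rw [mul_comm]; omega] at d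
    exact Nat.dvd_of_mul_dvd_mul_left (aq_pos x) d

theorem lp : LP.{u} := fun G _ _ _ D h1 h2 h3 => by
  have h := D.pd
  have := D.simple
  have hp := h.prime
  have := Fact.mk hp
  obtain ⟨η, hη⟩ := card_pos.1 h.card_Y_pos
  have nab : ¬ IsMulCommutative G := fun c => by
    have := D.perf
    rw [(commutator_eq_bot_iff_center_eq_top G).2 center_eq_top] at this
    exact bot_ne_top this
  have e : Nat.card G = D.p * (zpowers D.x).index := by rw [← card_mul_index (zpowers D.x), Nat.card_zpowers, h.ord]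
  have d : charDegree η.1 = aq D.x := by have := (D.exc η hη).1; rw [h1, h2] at this; omega
  obtain ⟨-, ⟨f⟩⟩ := brauer_small hp ⟨_, e⟩ (fun c => h.index (Nat.dvd_of_mul_dvd_mul_left hp.pos (by rwa [← pow_two, ← e])))
    (fun H n c => by
      rcases n.eq_bot_or_eq_top with rfl | rfl
      · exact hp.one_lt.ne (by rw [← c, card_bot])
      · have := isCyclic_of_prime_card (card_top.symm.trans c)
        exact nab IsCyclic.isMulCommutative) η.2.isCharacter (fun g hg => by
      have := η.2.charKer_eq_bot_of_simple fun c => h.ne_irrOne hη (Subtype.ext c)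
      exact mem_bot.1 (this ▸ η.2.isCharacter.mem_charKer_iff.2 hg))
    (by have := h.card; have := Nat.mul_le_mul_right (aq D.x) (show 2 ≤ #D.Y from h3); omega)
  exact ⟨ZMod D.p, _, _, ZMod.card _,
    ⟨((QuotientGroup.quotientMulEquivOfEq (center_eq_bot_of_simple nab)).trans QuotientGroup.quotientBot).symm.trans f⟩⟩

theorem ev : EV.{u} := fun G _ _ _ D k e => by
  by_contra o
  have := Fact.mk Nat.prime_two
  obtain ⟨Q, hQ⟩ := H19.exists_syl 2 (𝐍 D.x)
  obtain ⟨P, rfl⟩ := (hQ.of_idx le_top (H19.PiN.of_not_dvd (by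
    rw [relIndex_top_right, D.hN]; exact fun c => o (even_iff_two_dvd.2 c)))).exists_sylow_top
  have d : 2 ∣ Nat.card G := by
    rw [← card_mul_index (𝐍 D.x), k.card_normalizer']; exact (e.two_dvd.mul_left _).mul_right _
  have p2 : D.p ≠ 2 := fun c => by
    have := D.mv; have := D.nm; have := D.np; have := D.upos
    nlinarith
  exact not_le_centralizer_of_perfect D.perf P d (IsCyclic.normalizer_le_centralizer
    ((Nat.minFac_eq_two_iff _).2 d) (k.isCyclic_of_le hQ.le fun c => p2 (hQ.pi _ k.prime c)))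

theorem t1 : T1.{u} := fun G _ _ _ D k t => by
  have h := D.pd
  have c := h.card
  have p2 : D.p ≠ 2 := fun c => by
    have := D.mv; have := D.nm; have := D.np; have := D.upos
    nlinarith
  rw [show #D.Y = 1 from t, one_mul] at c
  have e : Even (aq D.x) := by have := k.prime.even_sub_one p2; rwa [← c] at this
  have z : ∀ χ : IrrCharacter G, sP D.x χ.1 = 0 → charDegree χ.1 ≠ aq D.x := fun χ a b => by
    have := k.even_index χ.2.isCharacter a e odd_one (by rw [irr_apply_one, b, mul_one])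
    rw [D.perf, index_top] at this
    exact Nat.not_even_one this
  refine ⟨by_contra fun n => ?_, fun ⟨a, b⟩ => ?_⟩
  · obtain ⟨χ, hχ⟩ := card_ne_zero.1 n
    obtain ⟨-, k1, k2⟩ := mem_filter.1 hχ
    exact z χ (by rw [h.sP_nonexc (by omega), k1, ← k2]; simp) (by omega)
  · obtain ⟨η, hη⟩ := card_pos.1 h.card_Y_pos
    obtain ⟨a', b'⟩ := D.exc η hη
    exact z η (by rw [b', b]; simp) (by rw [a, b] at a'; omega)

end H0.SN
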